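import Cfsg.Agent.Lib.Kazarin.Main
import Cfsg.Agent.Lib.Core.Basic

/-!
# Prime power class sizes of `q`-elements: the key commuting lemma
-/

set_option autoImplicit false
set_option linter.unusedSectionVars false
set_option linter.unusedVariables false
set_option linter.style.haveILetI false
set_option linter.unusedSimpArgs false

namespace Cfsg.Agent.Lib.QBaer.Class

open Cfsg Cfsg.Agent.Lib.Kazarin.Main Cfsg.Agent.Lib.Core.Basic

universe u

variable {G : Type u} [Group G] [Finite G] {q : ℕ}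

/-- The centralizer of an element. -/
abbrev cz (x : G) : Subgroup G := Subgroup.centralizer ({x} : Set G)

theorem mem_cz {x g : G} : g ∈ cz x ↔ g * x = x * g := Subgroup.mem_centralizer_singleton_iff

/-- `q`-elements. -/
def QE (q : ℕ) (x : G) : Prop := ∃ k : ℕ, orderOf x = q ^ k

theorem QE_iff [hq : Fact q.Prime] {x : G} : QE q x ↔ ∃ k : ℕ, x ^ q ^ k = 1 := by
  constructor
  · rintro ⟨k, hk⟩
    exact ⟨k, by rw [← hk, pow_orderOf_eq_one]⟩
  · rintro ⟨k, hk⟩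
    obtain ⟨j, _, hj⟩ := (Nat.dvd_prime_pow hq.out).mp (orderOf_dvd_of_pow_eq_one hk)
    exact ⟨j, hj⟩

theorem QE_mul [hq : Fact q.Prime] {x y : G} (hx : QE q x) (hy : QE q y) (h : Commute x y) :
    QE q (x * y) := by
  obtain ⟨a, ha⟩ := QE_iff.mp hx
  obtain ⟨b, hb⟩ := QE_iff.mp hy
  refine QE_iff.mpr ⟨a + b, ?_⟩
  rw [h.mul_pow, pow_add, pow_mul, ha, one_pow, one_mul, mul_comm, pow_mul, hb, one_pow]

theorem QE_conj {x : G} (hx : QE q x) (g : G) : QE q (g * x * g⁻¹) := by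
  obtain ⟨k, hk⟩ := hx
  refine ⟨k, ?_⟩
  rw [← hk]
  exact orderOf_injective (MulAut.conj g).toMonoidHom (MulAut.conj g).injective x

theorem QE_inv {x : G} (hx : QE q x) : QE q x⁻¹ := by
  obtain ⟨k, hk⟩ := hx
  exact ⟨k, by rw [orderOf_inv, hk]⟩

theorem eq_one_of_QE_of_coprime [hq : Fact q.Prime] {d : G} (hd : QE q d) {k : ℕ} (hk : d ^ k = 1)
    (hkq : k.Coprime q) : d = 1 := by
  obtain ⟨t, ht⟩ := hd
  have h1 : orderOf d ∣ k := orderOf_dvd_of_pow_eq_one hk
  rw [ht] at h1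
  have h2 : Nat.Coprime (q ^ t) k := Nat.Coprime.pow_left t hkq.symm
  have h3 : q ^ t = 1 := Nat.eq_one_of_dvd_coprimes h2 dvd_rfl h1
  rw [h3] at ht
  exact orderOf_eq_one_iff.mp ht

/-- A subgroup of index prime to `q` contains a Sylow `q`-subgroup. -/
theorem exists_sylow_le [hq : Fact q.Prime] (H : Subgroup G) (hH : H.index.Coprime q) :
    ∃ Q' : Sylow q G, (Q' : Subgroup G) ≤ H := by
  obtain ⟨P0⟩ : Nonempty (Sylow q H) := inferInstance
  have hp : IsPGroup q ((P0 : Subgroup H).map H.subtype) := P0.isPGroup'.map _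
  have hnd : ¬ q ∣ ((P0 : Subgroup H).map H.subtype).index := by
    rw [Subgroup.index_map_subtype]
    intro h
    rcases (Nat.Prime.dvd_mul hq.out).mp h with h | h
    · exact P0.not_dvd_index h
    · have := Nat.Coprime.eq_one_of_dvd hH.symm h
      exact hq.out.one_lt.ne' this
  refine ⟨hp.toSylow hnd, ?_⟩
  change (P0 : Subgroup H).map H.subtype ≤ H
  exact Subgroup.map_subtype_le _

/-- A `q`-element centralizing a Sylow `q`-subgroup lies in it. -/
theorem mem_of_centralizes [hq : Fact q.Prime] (Q' : Sylow q G) {x : G} (hx : QE q x)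
    (hle : (Q' : Subgroup G) ≤ cz x) : x ∈ (Q' : Subgroup G) := by
  have hpg : IsPGroup q (Subgroup.zpowers x) := by
    rintro ⟨y, hy⟩
    obtain ⟨k, hk⟩ := QE_iff.mp hx
    obtain ⟨i, rfl⟩ := Subgroup.mem_zpowers_iff.mp hy
    refine ⟨k, Subtype.ext ?_⟩
    simp only [SubgroupClass.coe_pow, OneMemClass.coe_one]
    rw [← zpow_natCast, ← zpow_mul, mul_comm, zpow_mul, zpow_natCast, hk, one_zpow]
  have h1 := hpg.inf_normalizer_sylow Q'
  have h2 : x ∈ Subgroup.zpowers x ⊓ Subgroup.normalizer ((Q' : Subgroup G) : Set G) := by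
    refine Subgroup.mem_inf.mpr ⟨Subgroup.mem_zpowers x, ?_⟩
    rw [Subgroup.mem_normalizer_iff]
    intro u
    have hu1 : ∀ v ∈ (Q' : Subgroup G), x * v * x⁻¹ = v := by
      intro v hv
      have := mem_cz.mp (hle hv)
      rw [← this]
      group
    constructor
    · intro hu
      rw [hu1 u hu]
      exact hu
    · intro hu
      have h4 := hu1 _ hu
      have h5 : u = x * u * x⁻¹ := by
        calc u = x⁻¹ * (x * u * x⁻¹) * x := by group
          _ = x⁻¹ * (x * (x * u * x⁻¹) * x⁻¹) * x := by rw [h4]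
          _ = x * u * x⁻¹ := by group
      rw [h5]
      exact hu
  have h3 : x ∈ Subgroup.zpowers x ⊓ (Q' : Subgroup G) := by
    have h4 : Subgroup.zpowers x ⊓ Subgroup.normalizer ((Q' : Subgroup G) : Set G) =
        Subgroup.zpowers x ⊓ (Q' : Subgroup G) := h1
    rwa [h4] at h2
  exact h3.2

/-- The size of a conjugacy class. -/
theorem card_conj_eq_index (z : G) : Nat.card {t : G // ∃ g : G, t = g * z * g⁻¹} = (cz z).index := by
  classical
  symm
  have hwd : ∀ a b : G, (QuotientGroup.leftRel (cz z)) a b →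
      (⟨a * z * a⁻¹, a, rfl⟩ : {t : G // ∃ g : G, t = g * z * g⁻¹}) = ⟨b * z * b⁻¹, b, rfl⟩ := by
    intro a b hab
    rw [QuotientGroup.leftRel_apply, mem_cz] at hab
    apply Subtype.ext
    change a * z * a⁻¹ = b * z * b⁻¹
    have e : b * z * b⁻¹ = a * ((a⁻¹ * b) * z) * (a⁻¹ * b)⁻¹ * a⁻¹ := by group
    rw [e, hab]
    group
  refine Nat.card_congr (Equiv.ofBijective
    (fun q : G ⧸ cz z => Quotient.liftOn' q (fun g => (⟨g * z * g⁻¹, g, rfl⟩ : {t : G // ∃ g : G, t = g * z * g⁻¹})) hwd)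
    ⟨?_, ?_⟩)
  · intro q₁ q₂ e
    induction q₁ using QuotientGroup.induction_on with | H a => ?_
    induction q₂ using QuotientGroup.induction_on with | H b => ?_
    have e1 : a * z * a⁻¹ = b * z * b⁻¹ := congrArg Subtype.val e
    rw [QuotientGroup.eq, mem_cz]
    calc a⁻¹ * b * z = a⁻¹ * (b * z * b⁻¹) * b := by group
      _ = a⁻¹ * (a * z * a⁻¹) * b := by rw [e1]
      _ = z * (a⁻¹ * b) := by group
  · rintro ⟨t, g, rfl⟩
    exact ⟨QuotientGroup.mk g, rfl⟩

/-- An element of prime power order multiplying the class of `x` into itself has order dividing the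
class size. -/
theorem fw_elt {l t : ℕ} [hl : Fact l.Prime] (x d : G) (hd : d ^ l ^ t = 1) (hd1 : d ≠ 1)
    (hfw : ∀ g, ∃ h, (g * x * g⁻¹) * d = h * x * h⁻¹) : l ∣ (cz x).index := by
  classical
  rw [← card_conj_eq_index]
  let X := {w : G // ∃ g : G, w = g * x * g⁻¹}
  letI : Fintype X := Fintype.ofFinite X
  let f : Function.End X := fun w => ⟨w.1 * d, by
    obtain ⟨w, g, rfl⟩ := w
    obtain ⟨h, hh⟩ := hfw g
    exact ⟨h, hh⟩⟩
  have hfpow : ∀ n : ℕ, ∀ w : X, ((f ^ n) w : X).1 = w.1 * d ^ n := by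
    intro n
    induction n with
    | zero =>
      intro w
      rw [pow_zero, pow_zero, mul_one]
      rfl
    | succ n ih =>
      intro w
      rw [pow_succ', Function.End.mul_def]
      change ((f ^ n) w : X).1 * d = _
      rw [ih, pow_succ, mul_assoc]
  have hf : f ^ l ^ t = 1 := by
    funext w
    apply Subtype.ext
    rw [hfpow, hd, mul_one]
    rfl
  have h1 := Equiv.Perm.card_fixedPoints_modEq hf
  have hemp : IsEmpty (Function.fixedPoints f) := by
    refine ⟨?_⟩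
    rintro ⟨w, hw⟩
    apply hd1
    have h2 : (f w).1 = w.1 := congrArg Subtype.val hw
    exact mul_eq_left.mp h2
  have h3 : ∀ (i : Fintype (Function.fixedPoints f)), @Fintype.card _ i = 0 := fun i =>
    (@Fintype.card_eq_zero_iff _ i).mpr hemp
  rw [h3] at h1
  rw [Nat.card_eq_fintype_card]
  exact (Nat.modEq_zero_iff_dvd).mp h1

section LemmaC

variable [hq : Fact q.Prime] {x y : G} {p s a b : ℕ} [hp : Fact p.Prime] [hs : Fact s.Prime]

/-- The factorization of `G`. -/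
theorem exists_factor (hx : (cz x).index = p ^ a) (hy : (cz y).index = s ^ b) (hps : p ≠ s) (g : G) :
    ∃ d ∈ cz y, ∃ c ∈ cz x, g = d * c := by
  have hcop : (cz y).index.Coprime p := by
    rw [hy]
    exact Nat.Coprime.pow_left b ((Nat.coprime_primes hs.out hp.out).mpr hps.symm)
  obtain ⟨P', hP'⟩ := exists_sylow_le (q := p) (cz y) hcop
  obtain ⟨u, hu, c, hc, rfl⟩ := exists_sylow_mul P' (cz x) hx g
  exact ⟨u, hP' hu, c, hc, rfl⟩

theorem commute_conj_conj (hxy : Commute x y) (hx : (cz x).index = p ^ a) (hy : (cz y).index = s ^ b)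
    (hps : p ≠ s) (g1 g2 : G) : Commute (g1 * x * g1⁻¹) (g2 * y * g2⁻¹) := by
  obtain ⟨d, hd, c, hc, hdc⟩ := exists_factor hy hx hps.symm (g1⁻¹ * g2)
  -- `g1⁻¹ g2 = d c` with `d ∈ C(x)`, `c ∈ C(y)`
  have hg2 : g2 = g1 * d * c := by rw [mul_assoc, ← hdc]; group
  have h1 : g2 * y * g2⁻¹ = g1 * (d * y * d⁻¹) * g1⁻¹ := by
    rw [hg2]
    have h2 : c * y = y * c := mem_cz.mp hc
    calc g1 * d * c * y * (g1 * d * c)⁻¹ = g1 * d * (c * y) * c⁻¹ * d⁻¹ * g1⁻¹ := by group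
      _ = g1 * d * (y * c) * c⁻¹ * d⁻¹ * g1⁻¹ := by rw [h2]
      _ = g1 * (d * y * d⁻¹) * g1⁻¹ := by group
  rw [h1]
  have h3 : d * x = x * d := mem_cz.mp hd
  have h4 : Commute x (d * y * d⁻¹) := by
    change x * (d * y * d⁻¹) = (d * y * d⁻¹) * x
    have h5 : x * y = y * x := hxy
    calc x * (d * y * d⁻¹) = (x * d) * y * d⁻¹ := by group
      _ = d * (x * y) * d⁻¹ := by rw [← h3]; group
      _ = d * (y * x) * d⁻¹ := by rw [h5]
      _ = d * y * (x * d⁻¹) := by group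
      _ = d * y * (d⁻¹ * x) := by
        have : x * d⁻¹ = d⁻¹ * x := by
          have h6 : Commute d x := h3
          exact h6.inv_left.eq.symm
        rw [this]
      _ = (d * y * d⁻¹) * x := by group
  change (g1 * x * g1⁻¹) * (g1 * (d * y * d⁻¹) * g1⁻¹) = (g1 * (d * y * d⁻¹) * g1⁻¹) * (g1 * x * g1⁻¹)
  have h5 : x * (d * y * d⁻¹) = (d * y * d⁻¹) * x := h4
  calc (g1 * x * g1⁻¹) * (g1 * (d * y * d⁻¹) * g1⁻¹) = g1 * (x * (d * y * d⁻¹)) * g1⁻¹ := by group
    _ = g1 * ((d * y * d⁻¹) * x) * g1⁻¹ := by rw [h5]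
    _ = (g1 * (d * y * d⁻¹) * g1⁻¹) * (g1 * x * g1⁻¹) := by group

/-- Right multiplication preserving the class of `x`. -/
def FW (x D : G) : Prop := ∀ e : G, ∃ h : G, (e * x * e⁻¹) * D = h * x * h⁻¹

omit hq hp hs in
theorem FW.mul {x D1 D2 : G} (h1 : FW x D1) (h2 : FW x D2) : FW x (D1 * D2) := by
  intro e
  obtain ⟨h, hh⟩ := h1 e
  obtain ⟨k, hk⟩ := h2 h
  exact ⟨k, by rw [← mul_assoc, hh, hk]⟩

omit hq hp hs in
theorem FW.pow {x D : G} (h1 : FW x D) (n : ℕ) : FW x (D ^ n) := by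
  induction n with
  | zero =>
    intro e
    exact ⟨e, by simp⟩
  | succ n ih =>
    rw [pow_succ]
    exact ih.mul h1

omit hq hp hs in
theorem FW.inv {x D : G} (h1 : FW x D) : FW x D⁻¹ := by
  have h2 : D⁻¹ = D ^ (orderOf D - 1) := by
    rw [inv_eq_iff_mul_eq_one, ← pow_succ']
    have h3 : 0 < orderOf D := orderOf_pos D
    rw [show orderOf D - 1 + 1 = orderOf D by omega]
    exact pow_orderOf_eq_one D
  rw [h2]
  exact h1.pow _

omit hq hp hs in
theorem FW.conj {x D : G} (h1 : FW x D) (g : G) : FW x (g * D * g⁻¹) := by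
  intro e
  obtain ⟨h, hh⟩ := h1 (g⁻¹ * e)
  refine ⟨g * h, ?_⟩
  calc (e * x * e⁻¹) * (g * D * g⁻¹) = g * (((g⁻¹ * e) * x * (g⁻¹ * e)⁻¹) * D) * g⁻¹ := by group
    _ = g * (h * x * h⁻¹) * g⁻¹ := by rw [hh]
    _ = (g * h) * x * (g * h)⁻¹ := by group

/-- If `z = x y` has a class of `p`-power size then `p = q`. -/
theorem case_p (hxQ : QE q x) (hyQ : QE q y) (hxy : Commute x y) (hx : (cz x).index = p ^ a)
    (hy : (cz y).index = s ^ b) (hps : p ≠ s) (hb : b ≠ 0) {c : ℕ}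
    (hz : (cz (x * y)).index = p ^ c) : p = q := by
  by_contra hpq
  let z := x * y
  have hcop : (cz y).index.Coprime p := by
    rw [hy]
    exact Nat.Coprime.pow_left b ((Nat.coprime_primes hs.out hp.out).mpr hps.symm)
  obtain ⟨P', hP'⟩ := exists_sylow_le (q := p) (cz y) hcop
  have h1 : ∀ g : G, ∃ d ∈ cz y, g * z * g⁻¹ = d * z * d⁻¹ := by
    intro g
    obtain ⟨u, hu, k, hk, rfl⟩ := exists_sylow_mul P' (cz z) hz g
    refine ⟨u, hP' hu, ?_⟩
    have h2 : k * z = z * k := mem_cz.mp hk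
    calc u * k * z * (u * k)⁻¹ = u * (k * z) * k⁻¹ * u⁻¹ := by group
      _ = u * (z * k) * k⁻¹ * u⁻¹ := by rw [h2]
      _ = u * z * u⁻¹ := by group
  have h2 : ∀ d ∈ cz y, d * z * d⁻¹ = (d * x * d⁻¹) * y := by
    intro d hd
    have h3 : d * y = y * d := mem_cz.mp hd
    change d * (x * y) * d⁻¹ = _
    have h4 : y * d⁻¹ = d⁻¹ * y := by
      have h5 : Commute d y := h3
      exact h5.inv_left.eq.symm
    calc d * (x * y) * d⁻¹ = d * x * (y * d⁻¹) := by group
      _ = d * x * (d⁻¹ * y) := by rw [h4]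
      _ = d * x * d⁻¹ * y := by group
  have hFW : ∀ g : G, FW x (g * y * g⁻¹ * y⁻¹) := by
    intro g e'
    obtain ⟨d, hd, k, hk, hdk⟩ := exists_factor hx hy hps (g⁻¹ * e')
    obtain ⟨d', hd', hd'2⟩ := h1 (g * d)
    refine ⟨d', ?_⟩
    have h3 : e' = g * d * k := by
      rw [mul_assoc, ← hdk]
      group
    have h4 : e' * x * e'⁻¹ = g * (d * x * d⁻¹) * g⁻¹ := by
      rw [h3]
      have h5 : k * x = x * k := mem_cz.mp hk
      calc g * d * k * x * (g * d * k)⁻¹ = g * d * (k * x) * k⁻¹ * d⁻¹ * g⁻¹ := by group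
        _ = g * d * (x * k) * k⁻¹ * d⁻¹ * g⁻¹ := by rw [h5]
        _ = g * (d * x * d⁻¹) * g⁻¹ := by group
    have h5 : (g * d) * z * (g * d)⁻¹ = g * (d * z * d⁻¹) * g⁻¹ := by group
    rw [h2 d hd] at h5
    rw [h5, h2 d' hd'] at hd'2
    rw [h4]
    calc g * (d * x * d⁻¹) * g⁻¹ * (g * y * g⁻¹ * y⁻¹)
        = (g * (d * x * d⁻¹ * y) * g⁻¹) * y⁻¹ := by group
      _ = (d' * x * d'⁻¹ * y) * y⁻¹ := by rw [hd'2]
      _ = d' * x * d'⁻¹ := by group
  have hcomm : ∀ g : G, Commute y (g * y * g⁻¹) := by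
    intro g
    by_contra hne
    have h3 := commutator_mem_pCore (p := s) y ⟨b, hy⟩ 1 g
    simp only [one_mul, inv_one, mul_one] at h3
    set c0 := y * (g * y * g⁻¹) * y⁻¹ * (g * y * g⁻¹)⁻¹ with hc0
    have hc1 : c0 ≠ 1 := by
      intro h
      apply hne
      rw [hc0] at h
      have h4 := mul_inv_eq_one.mp h
      rw [mul_inv_eq_iff_eq_mul] at h4
      exact h4
    obtain ⟨k, hk⟩ := (pCore_isPGroup (p := s) (G := G)) ⟨c0, h3⟩
    have hk' : c0 ^ s ^ k = 1 := congrArg Subtype.val hk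
    have hc2 : FW x c0 := by
      have h4 : c0 = (y * (g * y * g⁻¹ * y⁻¹) * y⁻¹) * (g * y * g⁻¹ * y⁻¹)⁻¹ := by
        rw [hc0]
        group
      rw [h4]
      exact ((hFW g).conj y).mul (hFW g).inv
    have h5 := fw_elt x c0 hk' hc1 hc2
    rw [hx] at h5
    exact hps ((Nat.prime_dvd_prime_iff_eq hs.out hp.out).mp (hs.out.dvd_of_dvd_pow h5)).symm
  have hcen : ∀ g : G, g * y * g⁻¹ = y := by
    intro g
    by_contra hne
    have h3 : QE q (g * y * g⁻¹ * y⁻¹) :=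
      QE_mul (QE_conj hyQ g) (QE_inv hyQ) ((hcomm g).symm.inv_right)
    obtain ⟨k, hk⟩ := QE_iff.mp h3
    have hne1 : g * y * g⁻¹ * y⁻¹ ≠ 1 := fun h => hne (mul_inv_eq_one.mp h)
    have h5 := fw_elt x _ hk hne1 (hFW g)
    rw [hx] at h5
    exact hpq ((Nat.prime_dvd_prime_iff_eq hq.out hp.out).mp (hq.out.dvd_of_dvd_pow h5)).symm
  have htop : cz y = ⊤ := by
    rw [eq_top_iff]
    intro g _
    rw [mem_cz]
    have := hcen g
    rw [mul_inv_eq_iff_eq_mul] at this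
    exact this
  rw [htop, Subgroup.index_top] at hy
  have h3 : 1 < s ^ b := Nat.one_lt_pow hb hs.out.one_lt
  omega

omit hp hs in
theorem index_inf_eq (hx : (cz x).index = p ^ a) (hy : (cz y).index = s ^ b)
    (hcop : Nat.Coprime p s) : (cz x ⊓ cz y).index = p ^ a * s ^ b := by
  have h1 : (cz x).index ∣ (cz x ⊓ cz y).index := Subgroup.index_dvd_of_le inf_le_left
  have h2 : (cz y).index ∣ (cz x ⊓ cz y).index := Subgroup.index_dvd_of_le inf_le_right
  rw [hx] at h1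
  rw [hy] at h2
  have h3 : p ^ a * s ^ b ∣ (cz x ⊓ cz y).index :=
    Nat.Coprime.mul_dvd_of_dvd_of_dvd (Nat.Coprime.pow a b hcop) h1 h2
  have h4 : (cz x ⊓ cz y).index ≤ p ^ a * s ^ b := by
    rw [← hx, ← hy]
    exact Subgroup.index_inf_le
  have h5 : (cz x ⊓ cz y).index ≠ 0 := Subgroup.index_ne_zero_of_finite
  exact le_antisymm h4 (Nat.le_of_dvd (Nat.pos_of_ne_zero h5) h3)

omit hq hp hs in
theorem inf_le_cz_mul (x y : G) : cz x ⊓ cz y ≤ cz (x * y) := by
  rintro g ⟨h1, h2⟩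
  have h3 : g * x = x * g := mem_cz.mp h1
  have h4 : g * y = y * g := mem_cz.mp h2
  rw [mem_cz, ← mul_assoc, h3, mul_assoc, h4, mul_assoc]

/-- **Key lemma.**  Commuting `q`-elements with nontrivial classes of size powers of distinct
primes `p`, `s`. -/
theorem lemma_C (hxQ : QE q x) (hyQ : QE q y) (hxy : Commute x y) (hx : (cz x).index = p ^ a)
    (hy : (cz y).index = s ^ b) (hps : p ≠ s) (ha : a ≠ 0) (hb : b ≠ 0)
    (hz : ∃ r c : ℕ, r.Prime ∧ (cz (x * y)).index = r ^ c) :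
    (p = q ∧ ∃ c, (cz (x * y)).index = p ^ c) ∨ (s = q ∧ ∃ c, (cz (x * y)).index = s ^ c) := by
  obtain ⟨r, c, hr, hrc⟩ := hz
  have hcop : Nat.Coprime p s := (Nat.coprime_primes hp.out hs.out).mpr hps
  have h1 : (cz (x * y)).index ∣ p ^ a * s ^ b := by
    rw [← index_inf_eq hx hy hcop]
    exact Subgroup.index_dvd_of_le (inf_le_cz_mul x y)
  have hpcase : ∀ c', (cz (x * y)).index = p ^ c' → p = q := fun c' hc' =>
    case_p hxQ hyQ hxy hx hy hps hb hc'
  have hscase : ∀ c', (cz (x * y)).index = s ^ c' → s = q := by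
    intro c' hc'
    have h2 : cz (y * x) = cz (x * y) := by rw [hxy.eq]
    refine case_p hyQ hxQ hxy.symm hy hx hps.symm ha (c := c') ?_
    rw [h2, hc']
  by_cases hc0 : c = 0
  · left
    have h2 : (cz (x * y)).index = p ^ 0 := by rw [hrc, hc0, pow_zero, pow_zero]
    exact ⟨hpcase 0 h2, 0, h2⟩
  have hrd : r ∣ p ^ a * s ^ b := by
    refine dvd_trans ?_ h1
    rw [hrc]
    exact dvd_pow_self r hc0
  rcases (Nat.Prime.dvd_mul hr).mp hrd with h2 | h2
  · have h3 := (Nat.prime_dvd_prime_iff_eq hr hp.out).mp (hr.dvd_of_dvd_pow h2)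
    subst h3
    exact Or.inl ⟨hpcase c hrc, c, hrc⟩
  · have h3 := (Nat.prime_dvd_prime_iff_eq hr hs.out).mp (hr.dvd_of_dvd_pow h2)
    subst h3
    exact Or.inr ⟨hscase c hrc, c, hrc⟩

end LemmaC

section Dichotomy

variable [hq : Fact q.Prime]

/-- A nontrivial class of size a power of a prime different from `q` forces a Sylow subgroup into the
centralizer. -/
theorem exists_sylow_le_cz {x : G} {r a : ℕ} (hr : r.Prime) (hrq : r ≠ q) (hx : (cz x).index = r ^ a) :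
    ∃ Q' : Sylow q G, (Q' : Subgroup G) ≤ cz x := by
  refine exists_sylow_le (cz x) ?_
  rw [hx]
  exact Nat.Coprime.pow_left a ((Nat.coprime_primes hr hq.out).mpr hrq)

/-- Any `q`-element lies in any Sylow `q`-subgroup up to conjugacy. -/
theorem exists_conj_mem (Q' : Sylow q G) {y : G} (hy : QE q y) :
    ∃ g : G, g * y * g⁻¹ ∈ (Q' : Subgroup G) := by
  have hpg : IsPGroup q (Subgroup.zpowers y) := by
    rintro ⟨w, hw⟩
    obtain ⟨k, hk⟩ := QE_iff.mp hy
    obtain ⟨i, rfl⟩ := Subgroup.mem_zpowers_iff.mp hw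
    refine ⟨k, Subtype.ext ?_⟩
    simp only [SubgroupClass.coe_pow, OneMemClass.coe_one]
    rw [← zpow_natCast, ← zpow_mul, mul_comm, zpow_mul, zpow_natCast, hk, one_zpow]
  obtain ⟨Q'', hQ''⟩ := hpg.exists_le_sylow
  obtain ⟨g, hg⟩ := MulAction.exists_smul_eq G Q'' Q'
  refine ⟨g, ?_⟩
  have h1 : y ∈ (Q'' : Subgroup G) := hQ'' (Subgroup.mem_zpowers y)
  rw [← hg, Sylow.coe_subgroup_smul]
  exact Subgroup.smul_mem_pointwise_smul y (MulAut.conj g) _ h1

theorem no_two_primes (hB : ∀ x : G, QE q x → ∃ r a : ℕ, r.Prime ∧ (cz x).index = r ^ a) {x y : G}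
    (hx : QE q x) (hy : QE q y) {p s a b : ℕ} (hp : p.Prime) (hs : s.Prime)
    (hxi : (cz x).index = p ^ a) (hyi : (cz y).index = s ^ b) (ha : a ≠ 0) (hb : b ≠ 0)
    (hpq : p ≠ q) (hsq : s ≠ q) (hps : p ≠ s) : False := by
  haveI : Fact p.Prime := ⟨hp⟩
  haveI : Fact s.Prime := ⟨hs⟩
  obtain ⟨Q', hQ'⟩ := exists_sylow_le_cz hp hpq hxi
  obtain ⟨g, hg⟩ := exists_conj_mem Q' hy
  have hc : Commute x (g * y * g⁻¹) := (mem_cz.mp (hQ' hg)).symm
  have hyi' : (cz (g * y * g⁻¹)).index = s ^ b := by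
    rw [← hyi]
    exact index_centralizer_conj g y
  have hyQ' := QE_conj hy g
  have hz := hB _ (QE_mul hx hyQ' hc)
  rcases lemma_C hx hyQ' hc hxi hyi' hps ha hb hz with ⟨h, _⟩ | ⟨h, _⟩
  · exact hpq h
  · exact hsq h

end Dichotomy


end Cfsg.Agent.Lib.QBaer.Class
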