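import Cfsg.Agent.Lib.QBaer.Class

/-!
# Prime power class sizes of `q`-elements: the dichotomy
-/

set_option autoImplicit false
set_option linter.unusedSectionVars false
set_option linter.unusedVariables false
set_option linter.style.haveILetI false
set_option linter.unusedSimpArgs false

namespace Cfsg.Agent.Lib.QBaer.Class2

open Cfsg Cfsg.Agent.Lib.Kazarin.Main Cfsg.Agent.Lib.Core.Basic Cfsg.Agent.Lib.QBaer.Class

universe u

section ClassPres

variable {Q : Type u} [Group Q] [Finite Q] {q : ℕ} [hq : Fact q.Prime]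

/-- A class-preserving automorphism of order prime to `q` of a `q`-group is trivial. -/
theorem class_pres (hQ : IsPGroup q Q) (f : Q →* Q) {k : ℕ} (hk : ∀ v, f^[k] v = v)
    (hkq : k.Coprime q) (hf : ∀ v, ∃ u, f v = u * v * u⁻¹) : ∀ v, f v = v := by
  haveI := hQ.isNilpotent
  obtain ⟨n, hn⟩ := Group.IsNilpotent.nilpotent (G := Q)
  have hstep : ∀ j : ℕ, (∀ v, v⁻¹ * f v ∈ Subgroup.upperCentralSeries Q (j + 1)) →
      ∀ v, v⁻¹ * f v ∈ Subgroup.upperCentralSeries Q j := by
    intro j hj v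
    set N := Subgroup.upperCentralSeries Q j with hNdef
    haveI : N.Normal := by
      rw [hNdef]
      infer_instance
    have hN : N ≤ N.comap f := by
      intro w hw
      obtain ⟨u, hu⟩ := hf w
      rw [Subgroup.mem_comap, hu]
      exact ‹N.Normal›.conj_mem w hw u
    let π : Q →* Q ⧸ N := QuotientGroup.mk' N
    let fb : Q ⧸ N →* Q ⧸ N := QuotientGroup.map N N f hN
    have hfb : ∀ w, fb (π w) = π (f w) := fun w => rfl
    have hM : ∀ w ∈ Subgroup.upperCentralSeries Q (j + 1), π (f w) = π w := by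
      intro w hw
      obtain ⟨u, hu⟩ := hf w
      have h1 := Subgroup.mem_upperCentralSeries_succ_iff.mp (Subgroup.inv_mem _ hw) u
      rw [commutatorElement_def, inv_inv] at h1
      have h2 : π w = π (f w) := by
        change (QuotientGroup.mk w : Q ⧸ N) = QuotientGroup.mk (f w)
        rw [QuotientGroup.eq, hu, ← mul_assoc, ← mul_assoc]
        exact h1
      exact h2.symm
    set c := v⁻¹ * f v with hc
    have hcM := hj v
    have hfv : f v = v * c := by rw [hc, mul_inv_cancel_left]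
    have hit : ∀ i : ℕ, π (f^[i] v) = π v * (π c) ^ i := by
      intro i
      induction i with
      | zero => simp
      | succ i ih =>
        rw [Function.iterate_succ_apply', ← hfb, ih, map_mul, map_pow, hfb, hfb, hM c hcM, hfv, map_mul,
          pow_succ', mul_assoc]
    have h1 := hit k
    rw [hk v] at h1
    have h2 : (π c) ^ k = 1 := by
      have : π v * (π c) ^ k = π v * 1 := by rw [← h1, mul_one]
      exact mul_left_cancel this
    have h3 : QE q (π c) := by
      obtain ⟨t, ht⟩ := hQ c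
      refine QE_iff.mpr ⟨t, ?_⟩
      rw [← map_pow, ht, map_one]
    have h4 := eq_one_of_QE_of_coprime h3 h2 hkq
    exact (QuotientGroup.eq_one_iff c).mp h4
  have hdown : ∀ i : ℕ, i ≤ n → ∀ v, v⁻¹ * f v ∈ Subgroup.upperCentralSeries Q (n - i) := by
    intro i
    induction i with
    | zero =>
      intro _ v
      rw [Nat.sub_zero, hn]
      trivial
    | succ i ih =>
      intro hi
      have h1 := ih (by omega)
      have h2 : n - i = (n - (i + 1)) + 1 := by omega
      rw [h2] at h1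
      exact hstep _ h1
  intro v
  have h1 := hdown n le_rfl v
  rw [Nat.sub_self, Subgroup.upperCentralSeries_zero] at h1
  have h2 : v⁻¹ * f v = 1 := h1
  exact (inv_mul_eq_one.mp h2).symm

/-- The same modulo the centre. -/
theorem class_pres_mod (hQ : IsPGroup q Q) (f : Q →* Q) {k : ℕ} (hk : ∀ v, f^[k] v = v)
    (hkq : k.Coprime q)
    (hf : ∀ v, (∃ u, f v = u * v * u⁻¹) ∨ (v ∈ Subgroup.center Q ∧ f v ∈ Subgroup.center Q)) :
    ∀ v, v⁻¹ * f v ∈ Subgroup.center Q := by
  have hN : Subgroup.center Q ≤ (Subgroup.center Q).comap f := by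
    intro w hw
    rw [Subgroup.mem_comap]
    rcases hf w with ⟨u, hu⟩ | ⟨_, h2⟩
    · rw [hu]
      have h3 : u * w = w * u := (Subgroup.mem_center_iff.mp hw u)
      rw [h3, mul_inv_cancel_right]
      exact hw
    · exact h2
  let π : Q →* Q ⧸ Subgroup.center Q := QuotientGroup.mk' _
  have hπs : Function.Surjective π := QuotientGroup.mk'_surjective _
  let fb : Q ⧸ Subgroup.center Q →* Q ⧸ Subgroup.center Q := QuotientGroup.map _ _ f hN
  have hfb : ∀ w, fb (π w) = π (f w) := fun w => rfl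
  have hit : ∀ (i : ℕ) (w : Q), fb^[i] (π w) = π (f^[i] w) := by
    intro i w
    induction i with
    | zero => rfl
    | succ i ih =>
      rw [Function.iterate_succ_apply', ih, hfb, Function.iterate_succ_apply']
  have h1 := class_pres (hQ.to_quotient _) fb (k := k) (by
      intro v
      obtain ⟨w, rfl⟩ := hπs v
      rw [hit, hk]) hkq (by
      intro v
      obtain ⟨w, rfl⟩ := hπs v
      rcases hf w with ⟨u, hu⟩ | ⟨h2, h3⟩
      · refine ⟨π u, ?_⟩
        rw [hfb, hu, map_mul, map_mul, map_inv]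
      · refine ⟨1, ?_⟩
        have h4 : π w = 1 := (QuotientGroup.eq_one_iff w).mpr h2
        have h5 : π (f w) = 1 := (QuotientGroup.eq_one_iff _).mpr h3
        rw [hfb, h4, h5]
        simp)
  intro v
  have h2 := h1 (π v)
  rw [hfb] at h2
  have h3 : (QuotientGroup.mk (f v) : Q ⧸ Subgroup.center Q) = QuotientGroup.mk v := h2
  rw [eq_comm, QuotientGroup.eq] at h3
  exact h3

end ClassPres

variable {G : Type u} [Group G] [Finite G] {q : ℕ} [hq : Fact q.Prime]

/-- Decomposition of an element into its `q`-part and `q'`-part. -/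
theorem exists_q_decomp (c : G) : ∃ a ∈ Subgroup.zpowers c, ∃ b ∈ Subgroup.zpowers c, c = a * b ∧
    (∃ m : ℕ, a ^ m = 1 ∧ m.Coprime q) ∧ QE q b := by
  have hn : orderOf c ≠ 0 := (orderOf_pos c).ne'
  obtain ⟨t, m, hm, hnm⟩ := Nat.exists_eq_pow_mul_and_not_dvd hn q hq.out.ne_one
  have hcop : Nat.Coprime (q ^ t) m :=
    Nat.Coprime.pow_left t ((Nat.Prime.coprime_iff_not_dvd hq.out).mpr hm)
  have hbez : ((q ^ t : ℕ) : ℤ) * Nat.gcdA (q ^ t) m + (m : ℤ) * Nat.gcdB (q ^ t) m = 1 := by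
    have := Nat.gcd_eq_gcd_ab (q ^ t) m
    rw [hcop] at this
    simpa using this.symm
  set A := Nat.gcdA (q ^ t) m
  set B := Nat.gcdB (q ^ t) m
  have h1 : c ^ (q ^ t * m) = 1 := by
    rw [← hnm]
    exact pow_orderOf_eq_one c
  refine ⟨c ^ (((q ^ t : ℕ) : ℤ) * A), zpow_mem (Subgroup.mem_zpowers c) _,
    c ^ ((m : ℤ) * B), zpow_mem (Subgroup.mem_zpowers c) _, ?_, ⟨m, ?_, ?_⟩, ?_⟩
  · rw [← zpow_add, hbez, zpow_one]
  · rw [← zpow_natCast, ← zpow_mul]
    have h2 : ((q ^ t : ℕ) : ℤ) * A * (m : ℤ) = ((q ^ t * m : ℕ) : ℤ) * A := by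
      push_cast
      ring
    rw [h2, zpow_mul, zpow_natCast, h1, one_zpow]
  · exact (Nat.Prime.coprime_iff_not_dvd hq.out).mpr hm |>.symm
  · refine QE_iff.mpr ⟨t, ?_⟩
    rw [← zpow_natCast, ← zpow_mul]
    have h2 : (m : ℤ) * B * ((q ^ t : ℕ) : ℤ) = ((q ^ t * m : ℕ) : ℤ) * B := by
      push_cast
      ring
    rw [h2, zpow_mul, zpow_natCast, h1, one_zpow]

/-- The conjugation endomorphism of a normal subgroup. -/
noncomputable def conjHom (R : Subgroup G) [R.Normal] (a : G) : R →* R :=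
  (MulAut.conjNormal a).toMonoidHom

theorem conjHom_coe (R : Subgroup G) [R.Normal] (a : G) (v : R) :
    ((conjHom R a v : R) : G) = a * v * a⁻¹ := by
  change ((MulAut.conjNormal a v : R) : G) = _
  rw [MulAut.conjNormal_apply]

theorem conjHom_iter (R : Subgroup G) [R.Normal] (a : G) (v : R) (i : ℕ) :
    (((conjHom R a)^[i] v : R) : G) = a ^ i * v * (a ^ i)⁻¹ := by
  induction i with
  | zero => simp
  | succ i ih =>
    rw [Function.iterate_succ_apply', conjHom_coe, ih, pow_succ']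
    group

/-- All `q`-elements lie in a normal Sylow subgroup. -/
theorem mem_of_normal_sylow (Q : Sylow q G) (hQn : (Q : Subgroup G).Normal) {w : G} (hw : QE q w) :
    w ∈ (Q : Subgroup G) := by
  obtain ⟨g, hg⟩ := exists_conj_mem Q hw
  have h1 := hQn.conj_mem _ hg g⁻¹
  have h2 : g⁻¹ * (g * w * g⁻¹) * g⁻¹⁻¹ = w := by group
  rwa [h2] at h1

theorem QE_of_mem_sylow (Q : Sylow q G) {w : G} (hw : w ∈ (Q : Subgroup G)) : QE q w := by
  obtain ⟨k, hk⟩ := Q.isPGroup' ⟨w, hw⟩
  exact QE_iff.mpr ⟨k, congrArg Subtype.val hk⟩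

/-- In the presence of a `q`-element with a nontrivial `q`-power class, the centre of the normal
Sylow subgroup is central. -/
theorem center_central (Q : Sylow q G) (hQn : (Q : Subgroup G).Normal) {y : G}
    (hyQ : y ∈ (Q : Subgroup G)) {b : ℕ} (hyi : (cz y).index = q ^ b) (hb : b ≠ 0)
    (hcl : ∀ v ∈ (Q : Subgroup G), (∃ u ∈ (Q : Subgroup G), u * v ≠ v * u) → ∃ c, (cz v).index = q ^ c)
    {e : G} (heQ : e ∈ (Q : Subgroup G)) (he : ∀ u ∈ (Q : Subgroup G), u * e = e * u) (g : G) :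
    g * e = e * g := by
  classical
  haveI := hQn
  have hconj : ∀ v, (∃ c, (cz v).index = q ^ c) → ∀ g, ∃ u ∈ (Q : Subgroup G), g * v * g⁻¹ = u * v * u⁻¹ := by
    rintro v ⟨c, hc⟩ g
    obtain ⟨u, hu, k, hk, rfl⟩ := exists_sylow_mul Q (cz v) hc g
    refine ⟨u, hu, ?_⟩
    have h2 : k * v = v * k := mem_cz.mp hk
    calc u * k * v * (u * k)⁻¹ = u * (k * v) * k⁻¹ * u⁻¹ := by group
      _ = u * (v * k) * k⁻¹ * u⁻¹ := by rw [h2]
      _ = u * v * u⁻¹ := by group
  obtain ⟨u0, hu0, hu0y⟩ : ∃ u ∈ (Q : Subgroup G), u * y ≠ y * u := by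
    by_contra hcon
    push Not at hcon
    have h1 : cz y = ⊤ := by
      rw [eq_top_iff]
      intro g _
      obtain ⟨u, hu, k, hk, rfl⟩ := exists_sylow_mul Q (cz y) hyi g
      exact (cz y).mul_mem (mem_cz.mpr (hcon u hu)) hk
    rw [h1, Subgroup.index_top] at hyi
    have h3 : 1 < q ^ b := Nat.one_lt_pow hb hq.out.one_lt
    omega
  -- `q'`-elements of the centralizer of `y`
  have hkey : ∀ (a : G) (k : ℕ), a ^ k = 1 → k.Coprime q → a ∈ cz y → a * e * a⁻¹ = e := by
    intro a k hak hkq hay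
    have hay' : a * y * a⁻¹ = y := by
      rw [mem_cz.mp hay]
      group
    let R : Subgroup G := (Q : Subgroup G)
    let f := conjHom R a
    have hfit : ∀ v : R, f^[k] v = v := by
      intro v
      apply Subtype.ext
      rw [conjHom_iter, hak]
      simp
    have hcenter : ∀ v : R, v ∈ Subgroup.center R ↔ ∀ u ∈ R, u * (v : G) = v * u := by
      intro v
      rw [Subgroup.mem_center_iff]
      constructor
      · intro h u hu
        exact congrArg Subtype.val (h ⟨u, hu⟩)
      · intro h u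
        exact Subtype.ext (h u u.2)
    have hf : ∀ v : R, (∃ u, f v = u * v * u⁻¹) ∨ (v ∈ Subgroup.center R ∧ f v ∈ Subgroup.center R) := by
      intro v
      by_cases hv : v ∈ Subgroup.center R
      · right
        refine ⟨hv, ?_⟩
        rw [hcenter, conjHom_coe]
        intro u hu
        have h1 : a⁻¹ * u * a ∈ R := by
          have := hQn.conj_mem u hu a⁻¹
          rwa [inv_inv] at this
        have h2 := (hcenter v).mp hv _ h1
        calc u * (a * v * a⁻¹) = a * ((a⁻¹ * u * a) * v) * a⁻¹ := by group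
          _ = a * (v * (a⁻¹ * u * a)) * a⁻¹ := by rw [h2]
          _ = a * v * a⁻¹ * u := by group
      · left
        rw [hcenter] at hv
        push Not at hv
        obtain ⟨u, hu, huv⟩ := hv
        obtain ⟨u', hu', h1⟩ := hconj v (hcl v v.2 ⟨u, hu, huv⟩) a
        refine ⟨⟨u', hu'⟩, ?_⟩
        apply Subtype.ext
        rw [conjHom_coe, h1]
        rfl
    have hmod := class_pres_mod Q.isPGroup' f hfit hkq hf
    have hmod' : ∀ (u : G), u ∈ R → ∀ w ∈ R, (u⁻¹ * (a * u * a⁻¹)) * w = w * (u⁻¹ * (a * u * a⁻¹)) := by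
      intro u hu w hw
      have h1 := (hcenter _).mp (hmod ⟨u, hu⟩) w hw
      have h2 : ((⟨u, hu⟩ : R)⁻¹ * f ⟨u, hu⟩ : R).1 = u⁻¹ * (a * u * a⁻¹) := by
        simp only [Subgroup.coe_mul, Subgroup.coe_inv, conjHom_coe, f]
      rw [h2] at h1
      exact h1.symm
    -- `y e` is not central in `Q`
    have hye : ∃ u ∈ (Q : Subgroup G), u * (y * e) ≠ (y * e) * u := by
      refine ⟨u0, hu0, ?_⟩
      intro h
      apply hu0y
      have h1 : u0 * e = e * u0 := he u0 hu0
      have h2 : u0 * y * e = y * u0 * e := by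
        calc u0 * y * e = u0 * (y * e) := by group
          _ = y * e * u0 := h
          _ = y * (e * u0) := by group
          _ = y * (u0 * e) := by rw [h1]
          _ = y * u0 * e := by group
      exact mul_right_cancel h2
    obtain ⟨u, hu, h1⟩ := hconj (y * e) (hcl _ ((Q : Subgroup G).mul_mem hyQ heQ) hye) a
    have h2 : y * (a * e * a⁻¹) = (u * y * u⁻¹) * e := by
      have h3 : a * (y * e) * a⁻¹ = (a * y * a⁻¹) * (a * e * a⁻¹) := by group
      rw [h3, hay'] at h1
      rw [h1]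
      have h4 : u * e = e * u := he u hu
      have h5 : u⁻¹ * e = e * u⁻¹ := by
        have h6 : Commute u e := h4
        exact h6.inv_left.eq
      calc u * (y * e) * u⁻¹ = u * y * (e * u⁻¹) := by group
        _ = u * y * (u⁻¹ * e) := by rw [h5]
        _ = u * y * u⁻¹ * e := by group
    let d := y⁻¹ * (u * y * u⁻¹)
    have hdQ : d ∈ (Q : Subgroup G) :=
      (Q : Subgroup G).mul_mem ((Q : Subgroup G).inv_mem hyQ) (hQn.conj_mem y hyQ u)
    have h3 : a * e * a⁻¹ = d * e := by
      have h4 : d * e = y⁻¹ * ((u * y * u⁻¹) * e) := by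
        change y⁻¹ * (u * y * u⁻¹) * e = _
        group
      rw [h4, ← h2]
      group
    have h4 : a * d * a⁻¹ = d := by
      have hw := hmod' u hu y hyQ
      set w := u⁻¹ * (a * u * a⁻¹) with hwdef
      have h5 : a * u * a⁻¹ = u * w := by rw [hwdef]; group
      have h6 : a * d * a⁻¹ = y⁻¹ * ((a * u * a⁻¹) * y * (a * u * a⁻¹)⁻¹) := by
        have h7 : a * d * a⁻¹ = (a * y⁻¹ * a⁻¹) * ((a * u * a⁻¹) * (a * y * a⁻¹) * (a * u * a⁻¹)⁻¹) := by
          change a * (y⁻¹ * (u * y * u⁻¹)) * a⁻¹ = _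
          group
        rw [h7, hay']
        have h8 : a * y⁻¹ * a⁻¹ = y⁻¹ := by
          have : a * y⁻¹ * a⁻¹ = (a * y * a⁻¹)⁻¹ := by group
          rw [this, hay']
        rw [h8]
      rw [h6, h5]
      have h9 : u * w * y * (u * w)⁻¹ = u * y * u⁻¹ := by
        calc u * w * y * (u * w)⁻¹ = u * (w * y) * w⁻¹ * u⁻¹ := by group
          _ = u * (y * w) * w⁻¹ * u⁻¹ := by rw [hw]
          _ = u * y * u⁻¹ := by group
      rw [h9]
    have h5 : ∀ i : ℕ, a ^ i * e * (a ^ i)⁻¹ = d ^ i * e := by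
      intro i
      induction i with
      | zero => simp
      | succ i ih =>
        have h6 : a * d ^ i * a⁻¹ = d ^ i := by
          have h7 : a * d ^ i * a⁻¹ = (a * d * a⁻¹) ^ i := (conj_pow).symm
          rw [h7, h4]
        calc a ^ (i + 1) * e * (a ^ (i + 1))⁻¹ = a * (a ^ i * e * (a ^ i)⁻¹) * a⁻¹ := by
              rw [pow_succ']
              group
          _ = a * (d ^ i * e) * a⁻¹ := by rw [ih]
          _ = (a * d ^ i * a⁻¹) * (a * e * a⁻¹) := by group
          _ = d ^ i * (d * e) := by rw [h6, h3]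
          _ = d ^ (i + 1) * e := by
            rw [pow_succ]
            exact (mul_assoc (d ^ i) d e).symm
    have h6 := h5 k
    rw [hak] at h6
    have h7 : d ^ k = 1 := by
      have : e = d ^ k * e := by
        rw [← h6]
        group
      exact mul_eq_right.mp this.symm
    have h8 : d = 1 := eq_one_of_QE_of_coprime (QE_of_mem_sylow Q hdQ) h7 hkq
    rw [h3, h8, one_mul]
  -- the general element
  obtain ⟨u, hu, c, hc, rfl⟩ := exists_sylow_mul Q (cz y) hyi g
  obtain ⟨a, ha, b', hb', hcab, ⟨m, ham, hmq⟩, hb'Q⟩ := exists_q_decomp (q := q) c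
  have hzle : Subgroup.zpowers c ≤ cz y := (Subgroup.zpowers_le).mpr hc
  have h1 : a * e * a⁻¹ = e := hkey a m ham hmq (hzle ha)
  have h2 : a * e = e * a := by
    rw [← mul_inv_eq_iff_eq_mul]
    exact h1
  have h3 : b' * e = e * b' := he b' (mem_of_normal_sylow Q hQn hb'Q)
  have h4 : u * e = e * u := he u hu
  rw [hcab]
  calc u * (a * b') * e = u * (a * (b' * e)) := by group
    _ = u * (a * (e * b')) := by rw [h3]
    _ = u * ((a * e) * b') := by group
    _ = u * ((e * a) * b') := by rw [h2]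
    _ = (u * e) * (a * b') := by group
    _ = (e * u) * (a * b') := by rw [h4]
    _ = e * (u * (a * b')) := by group

/-- A `q`-element with a class of size a power of another prime and a `q`-element with a nontrivial
class of `q`-power size cannot coexist. -/
theorem no_mixed (hB : ∀ x : G, QE q x → ∃ r a : ℕ, r.Prime ∧ (cz x).index = r ^ a) {x y : G}
    (hxQ : QE q x) (hyQ : QE q y) {r a b : ℕ} (hr : r.Prime) (hrq : r ≠ q)
    (hxi : (cz x).index = r ^ a) (ha : a ≠ 0) (hyi : (cz y).index = q ^ b) (hb : b ≠ 0) : False := by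
  classical
  haveI : Fact r.Prime := ⟨hr⟩
  have hyO : y ∈ pCore q G := by
    obtain ⟨k, hk⟩ := hyQ
    exact mem_pCore_of_pElt hk hyi
  have hall : ∀ w, QE q w → w ∈ pCore q G := by
    intro w hw
    obtain ⟨t, c, ht, htc⟩ := hB w hw
    haveI : Fact t.Prime := ⟨ht⟩
    by_cases hc0 : c = 0
    · obtain ⟨k, hk⟩ := hw
      refine mem_pCore_of_pElt (a := 0) hk ?_
      rw [htc, hc0, pow_zero, pow_zero]
    by_cases htq : t = q
    · subst htq
      obtain ⟨k, hk⟩ := hw
      exact mem_pCore_of_pElt hk htc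
    obtain ⟨Qw, hQw⟩ := exists_sylow_le_cz ht htq htc
    have h1 : y * w = w * y := mem_cz.mp (hQw (pCore_le_sylow Qw hyO))
    have h2 : Commute w y := h1.symm
    have h3 := lemma_C hw hyQ h2 htc hyi htq hc0 hb (hB _ (QE_mul hw hyQ h2))
    rcases h3 with ⟨h4, _⟩ | ⟨_, c', hc'⟩
    · exact absurd h4 htq
    · obtain ⟨k, hk⟩ := QE_mul hw hyQ h2
      have h5 := mem_pCore_of_pElt hk hc'
      have h6 : w = (w * y) * y⁻¹ := by group
      rw [h6]
      exact (pCore q G).mul_mem h5 ((pCore q G).inv_mem hyO)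
  obtain ⟨Q⟩ : Nonempty (Sylow q G) := inferInstance
  have hQO : (Q : Subgroup G) = pCore q G :=
    le_antisymm (fun w hw => hall w (QE_of_mem_sylow Q hw)) (pCore_le_sylow Q)
  have hQn : (Q : Subgroup G).Normal := by
    rw [hQO]
    infer_instance
  have hcommv : ∀ v : G, QE q v → ∀ t c : ℕ, t.Prime → t ≠ q → (cz v).index = t ^ c →
      ∀ u ∈ (Q : Subgroup G), u * v = v * u := by
    intro v hv t c ht htq htc u hu
    obtain ⟨Qv, hQv⟩ := exists_sylow_le_cz ht htq htc
    have h1 : u ∈ pCore q G := by rwa [← hQO]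
    exact mem_cz.mp (hQv (pCore_le_sylow Qv h1))
  have hcl : ∀ v ∈ (Q : Subgroup G), (∃ u ∈ (Q : Subgroup G), u * v ≠ v * u) →
      ∃ c, (cz v).index = q ^ c := by
    rintro v hv ⟨u, hu, huv⟩
    have hvQ := QE_of_mem_sylow Q hv
    obtain ⟨t, c, ht, htc⟩ := hB v hvQ
    by_cases htq : t = q
    · subst htq
      exact ⟨c, htc⟩
    · exact absurd (hcommv v hvQ t c ht htq htc u hu) huv
  have hxQ' : x ∈ (Q : Subgroup G) := by
    rw [hQO]
    exact hall x hxQ
  have hyQ' : y ∈ (Q : Subgroup G) := by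
    rw [hQO]
    exact hyO
  have hcen := center_central Q hQn hyQ' hyi hb hcl hxQ' (hcommv x hxQ r a hr hrq hxi)
  have htop : cz x = ⊤ := by
    rw [eq_top_iff]
    intro g _
    exact mem_cz.mpr (hcen g)
  rw [htop, Subgroup.index_top] at hxi
  have h3 : 1 < r ^ a := Nat.one_lt_pow ha hr.one_lt
  omega

/-- **Dichotomy.**  Either all `q`-elements have classes of `q`-power size, or they all have classes
of `p`-power size for one prime `p ≠ q`. -/
theorem dichotomy (hB : ∀ x : G, QE q x → ∃ r a : ℕ, r.Prime ∧ (cz x).index = r ^ a) :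
    (∀ x : G, QE q x → ∃ a : ℕ, (cz x).index = q ^ a) ∨
    ∃ p : ℕ, p.Prime ∧ p ≠ q ∧ ∀ x : G, QE q x → ∃ a : ℕ, (cz x).index = p ^ a := by
  by_cases hA : ∀ x : G, QE q x → ∃ a : ℕ, (cz x).index = q ^ a
  · exact Or.inl hA
  right
  push Not at hA
  obtain ⟨x0, hx0, hx0n⟩ := hA
  obtain ⟨r, a, hr, hra⟩ := hB x0 hx0
  have hrq : r ≠ q := by
    rintro rfl
    exact hx0n a hra
  have ha : a ≠ 0 := by
    rintro rfl
    apply hx0n 0
    rw [hra, pow_zero, pow_zero]
  refine ⟨r, hr, hrq, ?_⟩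
  intro y hy
  obtain ⟨s, b, hs, hsb⟩ := hB y hy
  by_cases hb : b = 0
  · refine ⟨0, ?_⟩
    rw [hsb, hb, pow_zero, pow_zero]
  by_cases hsr : s = r
  · subst hsr
    exact ⟨b, hsb⟩
  exfalso
  by_cases hsq : s = q
  · subst hsq
    exact no_mixed hB hx0 hy hr hrq hra ha hsb hb
  · exact no_two_primes hB hx0 hy hr hs hra hsb ha hb hrq hsq (Ne.symm hsr)

/-- The case of `q`-power classes. -/
theorem case_A (hA : ∀ x : G, QE q x → ∃ a : ℕ, (cz x).index = q ^ a) (Q : Sylow q G) :
    (Q : Subgroup G).Normal ∧ ∃ N : Subgroup G, N.Normal ∧ N.IsComplement' (Q : Subgroup G) := by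
  classical
  have hQO : (Q : Subgroup G) = pCore q G := by
    refine le_antisymm ?_ (pCore_le_sylow Q)
    intro w hw
    have hwQ := QE_of_mem_sylow Q hw
    obtain ⟨a, ha⟩ := hA w hwQ
    obtain ⟨k, hk⟩ := hwQ
    exact mem_pCore_of_pElt hk ha
  have hQn : (Q : Subgroup G).Normal := by
    rw [hQO]
    infer_instance
  refine ⟨hQn, ?_⟩
  haveI := hQn
  have hcop : (Nat.card (Q : Subgroup G)).Coprime (Q : Subgroup G).index := Q.card_coprime_index
  obtain ⟨H, hH⟩ := Subgroup.exists_right_complement'_of_coprime hcop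
  have hHcard : Nat.card H = (Q : Subgroup G).index := hH.symm.index_eq_card.symm
  have hHq : (Nat.card H).Coprime q := by
    rw [hHcard]
    exact ((Nat.Prime.coprime_iff_not_dvd hq.out).mpr Q.not_dvd_index).symm
  have hcomm : ∀ h ∈ H, ∀ u ∈ (Q : Subgroup G), h * u * h⁻¹ = u := by
    intro h hh u hu
    have hk : h ^ Nat.card H = 1 := by
      have := pow_card_eq_one' (G := H) (x := ⟨h, hh⟩)
      exact congrArg Subtype.val this
    let R : Subgroup G := (Q : Subgroup G)
    have h1 := class_pres Q.isPGroup' (conjHom R h) (k := Nat.card H) (by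
      intro v
      apply Subtype.ext
      rw [conjHom_iter, hk]
      simp) hHq (by
      intro v
      have hvQ := QE_of_mem_sylow Q v.2
      obtain ⟨a, ha⟩ := hA v hvQ
      obtain ⟨w, hw, k', hk', h2⟩ := exists_sylow_mul Q (cz (v : G)) ha h
      refine ⟨⟨w, hw⟩, ?_⟩
      apply Subtype.ext
      rw [conjHom_coe, h2]
      have h3 : k' * (v : G) = v * k' := mem_cz.mp hk'
      change _ = w * (v : G) * w⁻¹
      calc w * k' * (v : G) * (w * k')⁻¹ = w * (k' * (v : G)) * k'⁻¹ * w⁻¹ := by group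
        _ = w * ((v : G) * k') * k'⁻¹ * w⁻¹ := by rw [h3]
        _ = w * (v : G) * w⁻¹ := by group) ⟨u, hu⟩
    have h2 := congrArg Subtype.val h1
    rw [conjHom_coe] at h2
    exact h2
  refine ⟨H, ?_, hH.symm⟩
  refine ⟨?_⟩
  intro h hh g
  obtain ⟨⟨⟨u, hu⟩, ⟨h1, hh1⟩⟩, rfl⟩ := hH.2 g
  simp only
  have h2 : h1 * h * h1⁻¹ ∈ H := H.mul_mem (H.mul_mem hh1 hh) (H.inv_mem hh1)
  have h3 := hcomm _ h2 u hu
  have h4 : u * (h1 * h * h1⁻¹) * u⁻¹ = h1 * h * h1⁻¹ := by
    have h5 : (h1 * h * h1⁻¹) * u = u * (h1 * h * h1⁻¹) := by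
      rw [← mul_inv_eq_iff_eq_mul]
      exact h3
    rw [← h5]
    group
  have h5 : u * h1 * h * (u * h1)⁻¹ = u * (h1 * h * h1⁻¹) * u⁻¹ := by group
  rw [h5, h4]
  exact h2

end Cfsg.Agent.Lib.QBaer.Class2
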