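import Cfsg.Agent.Lib.QBaer.Exotic

/-!
# Linear groups of order prime to the characteristic, all of whose orbits have prime power size,
are solvable.
-/

set_option autoImplicit false
set_option linter.unusedSectionVars false
set_option linter.unusedVariables false
set_option linter.style.haveILetI false
set_option linter.unusedSimpArgs false

namespace Cfsg.Agent.Lib.QBaer.Star

open Module Cfsg Cfsg.Agent.Lib.Kazarin.Main Cfsg.Agent.Lib.QBaer.StarBase Cfsg.Agent.Lib.QBaer.Reduce
  Cfsg.Agent.Lib.QBaer.System Cfsg.Agent.Lib.QBaer.Elem Cfsg.Agent.Lib.QBaer.CyclicCase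
  Cfsg.Agent.Lib.QBaer.Exotic

universe u v w

variable {F : Type w} [Field F]

theorem no_minCE {V : Type v} {G : Type u} [AddCommGroup V] [Module F V] [Group G] [Finite G]
    [Finite V] {p : ℕ} [hp : Fact p.Prime] (ρ : G →* (V ≃ₗ[F] V)) (hM : MinCE ρ p) : False := by
  classical
  obtain ⟨P⟩ : Nonempty (Sylow p G) := inferInstance
  have hn : ∀ A : Subgroup (P : Subgroup G), A.Normal → IsMulCommutative A → IsCyclic A :=
    fun A hA hc => normal_abelian_cyclic hM P A hA hc
  by_cases hc : IsCyclic (P : Subgroup G)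
  · exact cyclic_case hM P hc
  have hp2 := Cfsg.Agent.Lib.PGroups.CyclicNormal.eq_two_of_not_isCyclic P.isPGroup' hn hc
  subst hp2
  obtain ⟨n, a', y', hn2, hord, hcard, hyn, hidx, hrel⟩ :=
    Cfsg.Agent.Lib.PGroups.CyclicNormal.classify P.isPGroup' hn hc
  have hord' : orderOf (a' : G) = 2 ^ n := by
    rw [Subgroup.orderOf_coe, hord]
  -- generators of `P`
  have hpow : ∀ u' : (P : Subgroup G), u' ∈ Subgroup.zpowers a' → ∃ i : ℕ, (u' : G) = (a' : G) ^ i := by
    intro u' hu'
    rw [← mem_powers_iff_mem_zpowers] at hu'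
    obtain ⟨i, hi⟩ := hu'
    refine ⟨i, ?_⟩
    rw [← hi]
    rfl
  have hgen : ∀ u ∈ (P : Subgroup G), ∃ i : ℕ, u = (a' : G) ^ i ∨ u = (a' : G) ^ i * y' := by
    intro u hu
    by_cases h1 : (⟨u, hu⟩ : (P : Subgroup G)) ∈ Subgroup.zpowers a'
    · obtain ⟨i, hi⟩ := hpow _ h1
      exact ⟨i, Or.inl hi⟩
    · have h2 : (⟨u, hu⟩ : (P : Subgroup G)) * y'⁻¹ ∈ Subgroup.zpowers a' := by
        rw [Subgroup.mul_mem_iff_of_index_two hidx]
        constructor
        · intro h
          exact absurd h h1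
        · intro h
          exact absurd ((Subgroup.inv_mem_iff _).mp h) hyn
      obtain ⟨i, hi⟩ := hpow _ h2
      refine ⟨i, Or.inr ?_⟩
      simp only [Subgroup.coe_mul, Subgroup.coe_inv] at hi
      rw [← hi]
      group
  let a : G := a'
  let y : G := y'
  have hnpos : 1 ≤ n - 1 := by omega
  have h2n : 2 ^ n = 2 ^ (n - 1) * 2 := by
    rw [← pow_succ]
    congr 1
    omega
  let z : G := a ^ (2 ^ (n - 1))
  have hz : z * z = 1 := by
    change a ^ (2 ^ (n - 1)) * a ^ (2 ^ (n - 1)) = 1
    rw [← pow_add, ← two_mul, mul_comm, ← h2n, ← hord']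
    exact pow_orderOf_eq_one _
  have hz1 : z ≠ 1 := by
    intro h
    have h1 := orderOf_dvd_of_pow_eq_one h
    rw [hord'] at h1
    have h2 := Nat.le_of_dvd (by positivity) h1
    have h3 := Nat.pow_lt_pow_right (a := 2) (by norm_num) (show n - 1 < n by omega)
    omega
  have hainv : a⁻¹ ≠ a := by
    intro h
    have h1 : a ^ 2 = 1 := by
      rw [pow_two]
      nth_rw 1 [← h]
      exact inv_mul_cancel a
    have h2 := orderOf_dvd_of_pow_eq_one h1
    rw [hord'] at h2
    have h3 := Nat.le_of_dvd (by norm_num) h2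
    have h4 := Nat.pow_le_pow_right (n := 2) (by norm_num) hn2
    omega
  have hainvp : ∃ k : ℕ, a⁻¹ = a ^ k := by
    refine ⟨orderOf a - 1, ?_⟩
    rw [inv_eq_iff_mul_eq_one, ← pow_succ']
    have h1 : 0 < orderOf a := orderOf_pos a
    rw [show orderOf a - 1 + 1 = orderOf a by omega]
    exact pow_orderOf_eq_one a
  have hyy : (y : G) * y = (y' ^ 2 : (P : Subgroup G)) := by
    rw [pow_two]
    rfl
  rcases hrel with ⟨h1, h2⟩ | ⟨h3n, h1, h2⟩ | ⟨h3n, h1, h2⟩
  · have h2' : y * a * y⁻¹ = a⁻¹ := congrArg Subtype.val h2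
    have h1' : y * y = z := by
      rw [hyy, h1]
      rfl
    obtain ⟨k, hk⟩ := hainvp
    refine exotic hM P a y z y'.2 hz hz1 rfl (Or.inl ?_) (Or.inr h1') (k := k) (h2'.trans hk) hgen ?_
    · rw [h2', mul_inv_cancel]
    · rw [h2']
      exact hainv
  · have h2' : y * a * y⁻¹ = a⁻¹ := congrArg Subtype.val h2
    have h1' : y * y = 1 := by
      rw [hyy, h1]
      rfl
    obtain ⟨k, hk⟩ := hainvp
    refine exotic hM P a y z y'.2 hz hz1 rfl (Or.inl ?_) (Or.inl h1') (k := k) (h2'.trans hk) hgen ?_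
    · rw [h2', mul_inv_cancel]
    · rw [h2']
      exact hainv
  · have h2' : y * a * y⁻¹ = a ^ (2 ^ (n - 1) - 1) := by
      have := congrArg Subtype.val h2
      exact this
    have h1' : y * y = 1 := by
      rw [hyy, h1]
      rfl
    have h2pos : 2 ≤ 2 ^ (n - 1) := by
      calc 2 = 2 ^ 1 := rfl
        _ ≤ 2 ^ (n - 1) := Nat.pow_le_pow_right (by norm_num) hnpos
    refine exotic hM P a y z y'.2 hz hz1 rfl (Or.inr ?_) (Or.inl h1') h2' hgen ?_
    · rw [h2', ← pow_succ']
      congr 1
      omega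
    · rw [h2']
      intro h
      have h3 : a ^ (2 ^ (n - 1) - 2) = 1 := by
        have h4 : a ^ (2 ^ (n - 1) - 1) = a ^ (2 ^ (n - 1) - 2) * a := by
          rw [← pow_succ]
          congr 1
          omega
        rw [h4] at h
        exact mul_eq_right.mp h
      have h4 := orderOf_dvd_of_pow_eq_one h3
      rw [hord'] at h4
      have h5 : 4 ≤ 2 ^ (n - 1) := by
        calc 4 = 2 ^ 2 := rfl
          _ ≤ 2 ^ (n - 1) := Nat.pow_le_pow_right (by norm_num) (by omega)
      have h6 := Nat.le_of_dvd (by omega) h4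
      omega

/-- **The star theorem.**  A finite group acting faithfully on a finite vector space, with order
prime to the characteristic, such that all orbits have size a power of a fixed prime, is solvable. -/
theorem star_solvable [Finite F] {V : Type v} {G : Type u} [AddCommGroup V] [Module F V] [Group G]
    [Finite G] [Finite V] {p : ℕ} [hp : Fact p.Prime] (ρ : G →* (V ≃ₗ[F] V)) (h : Star ρ p) :
    Group.IsSolvable G :=
  solv_aux (F := F) (p := p) (fun ρ hM => no_minCE ρ hM) _ V G ρ rfl h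

end Cfsg.Agent.Lib.QBaer.Star
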