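import Cfsg.Agent.Lib.QBaer.Class2
import Cfsg.Agent.Lib.QBaer.Star

/-!
# Prime power class sizes of `q`-elements: the structure in the case `p ≠ q`
-/

set_option autoImplicit false
set_option linter.unusedSectionVars false
set_option linter.unusedVariables false
set_option linter.style.haveILetI false
set_option linter.unusedSimpArgs false

namespace Cfsg.Agent.Lib.QBaer.Class3

open Cfsg Cfsg.Agent.Lib.Kazarin.Main Cfsg.Agent.Lib.Core.Basic Cfsg.Agent.Lib.QBaer.Class
  Cfsg.Agent.Lib.QBaer.Class2 Cfsg.Agent.Lib.QBaer.StarBase Cfsg.Agent.Lib.QBaer.Star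

universe u

section LinRep

variable {X A : Type*} [Group X] [CommGroup A] {q : ℕ} [Module (ZMod q) (Additive A)]

/-- A group of automorphisms of an elementary abelian group acts linearly. -/
noncomputable def linAct (act : X →* MulAut A) : X →* (Additive A ≃ₗ[ZMod q] Additive A) where
  toFun g := LinearEquiv.ofLinear
    (AddMonoidHom.toZModLinearMap q (MonoidHom.toAdditive (act g).toMonoidHom))
    (AddMonoidHom.toZModLinearMap q (MonoidHom.toAdditive (act g⁻¹).toMonoidHom))
    (by
      ext v
      change Additive.ofMul (act g (act g⁻¹ (Additive.toMul v))) = v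
      rw [← MulAut.mul_apply, ← map_mul, mul_inv_cancel, map_one]
      rfl)
    (by
      ext v
      change Additive.ofMul (act g⁻¹ (act g (Additive.toMul v))) = v
      rw [← MulAut.mul_apply, ← map_mul, inv_mul_cancel, map_one]
      rfl)
  map_one' := by
    ext v
    change Additive.ofMul (act 1 (Additive.toMul v)) = v
    rw [map_one]
    rfl
  map_mul' a b := by
    ext v
    change Additive.ofMul (act (a * b) (Additive.toMul v)) =
      Additive.ofMul (act a (act b (Additive.toMul v)))
    rw [map_mul]
    rfl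

@[simp] theorem linAct_apply (act : X →* MulAut A) (g : X) (v : Additive A) :
    linAct (q := q) act g v = Additive.ofMul (act g (Additive.toMul v)) := rfl

end LinRep

variable {G : Type u} [Group G] [Finite G] {q p : ℕ} [hq : Fact q.Prime] [hp : Fact p.Prime]

theorem orbit_kerLift {V : Type*} [AddCommGroup V] [Module (ZMod q) V] (ρ : G →* (V ≃ₗ[ZMod q] V))
    (h : OrbP ρ p) : OrbP (QuotientGroup.kerLift ρ) p := by
  intro v
  obtain ⟨a, ha⟩ := h v
  refine ⟨a, ?_⟩
  have h1 : (stabS (QuotientGroup.kerLift ρ) v).comap (QuotientGroup.mk' ρ.ker) = stabS ρ v := by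
    ext g
    simp only [Subgroup.mem_comap, mem_stabS, QuotientGroup.mk'_apply, QuotientGroup.kerLift_mk]
  rw [← ha, ← h1, Subgroup.index_comap_of_surjective _ (QuotientGroup.mk'_surjective _)]

/-- The stabilizer of an element under a group of automorphisms. -/
def stabA {Y A : Type*} [Group Y] [Group A] (act : Y →* MulAut A) (a : A) : Subgroup Y where
  carrier := {g | act g a = a}
  mul_mem' := by
    intro x y hx hy
    simp only [Set.mem_setOf_eq] at hx hy ⊢
    rw [map_mul, MulAut.mul_apply, hy, hx]
  one_mem' := by simp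
  inv_mem' := by
    intro x hx
    simp only [Set.mem_setOf_eq] at hx ⊢
    have h : act x⁻¹ (act x a) = a := by
      rw [← MulAut.mul_apply, ← map_mul, inv_mul_cancel, map_one]
      rfl
    rwa [hx] at h

/-- A group of automorphisms of an elementary abelian `q`-group, of order prime to `q`, all of whose
orbits have `p`-power size, is solvable. -/
theorem solv_of_faithful_act {Y A : Type u} [Group Y] [Finite Y] [CommGroup A] [Finite A]
    (hexp : ∀ a : A, a ^ q = 1) (act : Y →* MulAut A) (hinj : Function.Injective act)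
    (hcard : (Nat.card Y).Coprime q) (horb : ∀ a : A, ∃ e : ℕ, (stabA act a).index = p ^ e) :
    Group.IsSolvable Y := by
  classical
  have hxq : ∀ x : Additive A, q • x = 0 := by
    intro x
    apply Additive.toMul.injective
    simpa using hexp (Additive.toMul x)
  haveI md : Module (ZMod q) (Additive A) := AddCommGroup.zmodModule hxq
  let ρ : Y →* (Additive A ≃ₗ[ZMod q] Additive A) := linAct (q := q) act
  have hstar : Star ρ p := by
    refine ⟨?_, ?_, ?_⟩
    · intro g h hgh
      apply hinj
      ext a
      have h1 := congrArg (fun e : Additive A ≃ₗ[ZMod q] Additive A => e (Additive.ofMul a)) hgh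
      exact Additive.ofMul.injective h1
    · intro h0
      have h1 : q ∣ Nat.card Y := (ZMod.natCast_eq_zero_iff _ _).mp h0
      have h3 := Nat.Coprime.eq_one_of_dvd hcard.symm h1
      exact hq.out.one_lt.ne' h3
    · intro v
      obtain ⟨e, he⟩ := horb (Additive.toMul v)
      refine ⟨e, ?_⟩
      rw [← he]
      congr 1
  exact star_solvable ρ hstar

/-- A group with a normal abelian Sylow `q`-subgroup, no normal `q'`-subgroups, with all `q`-elements
of `p`-power class size, is solvable. -/
theorem solv_of_normal_abelian_sylow (R : Subgroup G) [hRn : R.Normal]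
    (hRc : ∀ a ∈ R, ∀ b ∈ R, a * b = b * a) (hRq : IsPGroup q R) (hRi : R.index.Coprime q)
    (hO : pPrimeCore q G = ⊥) (horb : ∀ v ∈ R, ∃ a : ℕ, (cz v).index = p ^ a) :
    Group.IsSolvable G := by
  classical
  let Ω : Subgroup G :=
    { carrier := {v | v ∈ R ∧ v ^ q = 1}
      mul_mem' := by
        rintro a b ⟨ha, ha1⟩ ⟨hb, hb1⟩
        refine ⟨R.mul_mem ha hb, ?_⟩
        have : Commute a b := hRc a ha b hb
        rw [this.mul_pow, ha1, hb1, one_mul]
      one_mem' := ⟨R.one_mem, one_pow _⟩
      inv_mem' := by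
        rintro a ⟨ha, ha1⟩
        exact ⟨R.inv_mem ha, by rw [inv_pow, ha1, inv_one]⟩ }
  have hΩmem : ∀ v, v ∈ Ω ↔ v ∈ R ∧ v ^ q = 1 := fun v => Iff.rfl
  haveI hΩn : Ω.Normal := by
    refine ⟨?_⟩
    rintro v ⟨hv, hv1⟩ g
    refine ⟨hRn.conj_mem v hv g, ?_⟩
    rw [conj_pow, hv1, mul_one, mul_inv_cancel]
  let act : G →* MulAut Ω := MulAut.conjNormal (H := Ω)
  have hact : ∀ (g : G) (w : Ω), ((act g w : Ω) : G) = g * w * g⁻¹ := by
    intro g w
    rw [MulAut.conjNormal_apply]
  let C : Subgroup G := act.ker
  have hC : ∀ g, g ∈ C ↔ ∀ v ∈ Ω, g * v * g⁻¹ = v := by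
    intro g
    constructor
    · intro hg v hv
      have h1 : act g = 1 := hg
      have h2 := hact g ⟨v, hv⟩
      rw [h1] at h2
      exact h2.symm
    · intro hg
      change act g = 1
      ext v
      have h2 := hact g v
      rw [hg _ v.2] at h2
      exact h2
  have hRC : R ≤ C := by
    intro g hg
    rw [hC]
    intro v hv
    rw [hRc g hg v hv.1]
    group
  -- the quotient is solvable
  have hsolvQ : Group.IsSolvable (G ⧸ C) := by
    letI cg : CommGroup Ω :=
      { (inferInstance : Group Ω) with
        mul_comm := fun a b => Subtype.ext (hRc a a.2.1 b b.2.1) }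
    refine @solv_of_faithful_act q p hq hp (G ⧸ C) Ω _ _ cg _ (fun a => Subtype.ext a.2.2)
      (QuotientGroup.kerLift act) (QuotientGroup.kerLift_injective act) ?_ ?_
    · have h2 : Nat.card (G ⧸ C) ∣ R.index := by
        rw [← Subgroup.index_eq_card]
        exact Subgroup.index_dvd_of_le hRC
      exact Nat.Coprime.coprime_dvd_left h2 hRi
    · intro a
      obtain ⟨e, he⟩ := horb _ a.2.1
      refine ⟨e, ?_⟩
      rw [← he]
      have h1 : (stabA (QuotientGroup.kerLift act) a).comap (QuotientGroup.mk' C) = cz (a : G) := by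
        ext g
        rw [Subgroup.mem_comap, mem_cz]
        change QuotientGroup.kerLift act (QuotientGroup.mk' C g) a = a ↔ _
        rw [QuotientGroup.mk'_apply, QuotientGroup.kerLift_mk]
        constructor
        · intro h
          have h2 := hact g a
          rw [h] at h2
          rw [← mul_inv_eq_iff_eq_mul]
          exact h2.symm
        · intro h
          apply Subtype.ext
          rw [hact, h]
          group
      rw [← h1, Subgroup.index_comap_of_surjective _ (QuotientGroup.mk'_surjective _)]
  -- `q'`-elements of `C` centralize `R`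
  have hcop : ∀ a ∈ C, ∀ k : ℕ, a ^ k = 1 → k.Coprime q → ∀ v ∈ R, a * v * a⁻¹ = v := by
    intro a ha k hak hkq
    have haΩ := (hC a).mp ha
    have hind : ∀ t : ℕ, ∀ v ∈ R, v ^ q ^ t = 1 → a * v * a⁻¹ = v := by
      intro t
      induction t with
      | zero =>
        intro v hv h1
        rw [pow_zero, pow_one] at h1
        rw [h1]
        group
      | succ t ih =>
        intro v hv h1
        have h2 : a * v ^ q * a⁻¹ = v ^ q := by
          refine ih _ (pow_mem hv q) ?_
          rw [← pow_mul, ← pow_succ']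
          exact h1
        let w := (a * v * a⁻¹) * v⁻¹
        have hvR' : a * v * a⁻¹ ∈ R := hRn.conj_mem v hv a
        have hwR : w ∈ R := R.mul_mem hvR' (R.inv_mem hv)
        have hwq : w ^ q = 1 := by
          have hc : Commute (a * v * a⁻¹) v⁻¹ := hRc _ hvR' _ (R.inv_mem hv)
          change ((a * v * a⁻¹) * v⁻¹) ^ q = 1
          rw [hc.mul_pow, conj_pow, h2, inv_pow, mul_inv_cancel]
        have hwΩ : w ∈ Ω := ⟨hwR, hwq⟩
        have h3 : a * w * a⁻¹ = w := haΩ w hwΩ
        have h4 : a * v * a⁻¹ = w * v := by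
          change a * v * a⁻¹ = (a * v * a⁻¹) * v⁻¹ * v
          group
        have h5 : ∀ i : ℕ, a ^ i * v * (a ^ i)⁻¹ = w ^ i * v := by
          intro i
          induction i with
          | zero => simp
          | succ i ih2 =>
            have h6 : a * w ^ i * a⁻¹ = w ^ i := by
              have h7 : a * w ^ i * a⁻¹ = (a * w * a⁻¹) ^ i := (conj_pow).symm
              rw [h7, h3]
            calc a ^ (i + 1) * v * (a ^ (i + 1))⁻¹ = a * (a ^ i * v * (a ^ i)⁻¹) * a⁻¹ := by
                  rw [pow_succ']
                  group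
              _ = a * (w ^ i * v) * a⁻¹ := by rw [ih2]
              _ = (a * w ^ i * a⁻¹) * (a * v * a⁻¹) := by group
              _ = w ^ i * (w * v) := by rw [h6, h4]
              _ = w ^ (i + 1) * v := by
                rw [pow_succ]
                exact (mul_assoc (w ^ i) w v).symm
        have h6 := h5 k
        rw [hak] at h6
        have h7 : w ^ k = 1 := by
          have : v = w ^ k * v := by
            rw [← h6]
            group
          exact mul_eq_right.mp this.symm
        have h8 : w = 1 := eq_one_of_QE_of_coprime (q := q) (QE_iff.mpr ⟨1, by rw [pow_one]; exact hwq⟩)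
          h7 hkq
        rw [h4, h8, one_mul]
    intro v hv
    obtain ⟨t, ht⟩ := hRq ⟨v, hv⟩
    exact hind t v hv (congrArg Subtype.val ht)
  -- `C = R`
  have hCR : C ≤ R := by
    let N : Subgroup C := R.subgroupOf C
    have hNcard : Nat.card N = Nat.card R := Nat.card_congr (Subgroup.subgroupOfEquivOfLe hRC).toEquiv
    have hNi : N.index ∣ R.index := Subgroup.relIndex_dvd_index_of_normal R C
    have hNiq : N.index.Coprime q := Nat.Coprime.coprime_dvd_left hNi hRi
    obtain ⟨t, ht⟩ := IsPGroup.iff_card.mp hRq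
    have hcp : (Nat.card N).Coprime N.index := by
      rw [hNcard, ht]
      exact Nat.Coprime.pow_left t hNiq.symm
    obtain ⟨H0, hH0⟩ := Subgroup.exists_right_complement'_of_coprime hcp
    have hH0card : Nat.card H0 = N.index := hH0.symm.index_eq_card.symm
    let m := Nat.card H0
    have hmq : m.Coprime q := by
      change (Nat.card H0).Coprime q
      rw [hH0card]
      exact hNiq
    let W : Subgroup G := H0.map C.subtype
    have hWm : ∀ w ∈ W, w ^ m = 1 := by
      rintro _ ⟨h, hh, rfl⟩
      have := pow_card_eq_one' (G := H0) (x := ⟨h, hh⟩)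
      have h2 := congrArg (fun y : H0 => ((y : C) : G)) this
      exact h2
    have hWC : W ≤ C := Subgroup.map_subtype_le _
    have hWR : ∀ w ∈ W, ∀ v ∈ R, w * v * w⁻¹ = v := fun w hw =>
      hcop w (hWC hw) m (hWm w hw) hmq
    haveI hCn : C.Normal := MonoidHom.normal_ker act
    have hWn : W.Normal := by
      refine ⟨?_⟩
      intro w hw g
      have hcC : g * w * g⁻¹ ∈ C := hCn.conj_mem w (hWC hw) g
      obtain ⟨⟨⟨n, hn⟩, ⟨h, hh⟩⟩, hnh⟩ := hH0.2 ⟨g * w * g⁻¹, hcC⟩
      have hnh' : (n : G) * (h : G) = g * w * g⁻¹ := congrArg Subtype.val hnh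
      have hnR : (n : G) ∈ R := hn
      have hhW : (h : G) ∈ W := ⟨h, hh, rfl⟩
      have h1 : Commute (n : G) (h : G) := by
        have h2 := hWR _ hhW _ hnR
        have h3 : (h : G) * n = n * h := by
          rw [← mul_inv_eq_iff_eq_mul]
          exact h2
        exact h3.symm
      have h2 : (g * w * g⁻¹) ^ m = 1 := by
        rw [conj_pow, hWm w hw, mul_one, mul_inv_cancel]
      rw [← hnh', h1.mul_pow, hWm _ hhW, mul_one] at h2
      have hnQ : QE q (n : G) := by
        obtain ⟨t', ht'⟩ := hRq ⟨n, hnR⟩
        exact QE_iff.mpr ⟨t', congrArg Subtype.val ht'⟩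
      have h3 : (n : G) = 1 := eq_one_of_QE_of_coprime hnQ h2 hmq
      rw [← hnh', h3, one_mul]
      exact hhW
    have hWcard : (Nat.card W).Coprime q := by
      have h1 : Nat.card W = Nat.card H0 :=
        Subgroup.card_map_of_injective C.subtype_injective
      rw [h1]
      exact hmq
    have hWbot : W = ⊥ := by
      have h1 := le_pPrimeCore hWn hWcard
      rw [hO] at h1
      exact le_bot_iff.mp h1
    intro c hc
    obtain ⟨⟨⟨n, hn⟩, ⟨h, hh⟩⟩, hnh⟩ := hH0.2 ⟨c, hc⟩
    have hnh' : (n : G) * (h : G) = c := congrArg Subtype.val hnh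
    have hhW : (h : G) ∈ W := ⟨h, hh, rfl⟩
    rw [hWbot, Subgroup.mem_bot] at hhW
    rw [← hnh', hhW, mul_one]
    exact hn
  have hCs : Group.IsSolvable C := by
    refine Group.isSolvable_of_comm ?_
    intro a b
    exact Subtype.ext (hRc a (hCR a.2) b (hCR b.2))
  exact @Group.isSolvable_of_ker_le_range _ _ _ _ _ _ C.subtype (QuotientGroup.mk' C) (by
    intro g hg
    rw [MonoidHom.mem_ker] at hg
    have := (QuotientGroup.eq_one_iff g).mp hg
    exact ⟨⟨g, this⟩, rfl⟩) hCs hsolvQ

end Cfsg.Agent.Lib.QBaer.Class3
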