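import Mathlib

/-!
# Permutation groups of prime power degree containing a regular cycle

Let `n = p ^ e` with `p` an odd prime and let `Ĝ` be a group of permutations of `ZMod n` containing
the translation by `1`.  If no element of `Ĝ` swaps `0` and `1`, then either `e = 1` and `Ĝ` consists
of affine maps, or `Ĝ` preserves the cosets of a proper nontrivial subgroup of `ZMod n`.

The proof works in the module of functions `ZMod n → ZMod p`, on which the difference operator
`D = T - 1` acts with one Jordan block.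
-/

set_option autoImplicit false
set_option linter.unusedSectionVars false
set_option linter.unusedVariables false
set_option linter.style.haveILetI false

namespace Cfsg.Agent.Lib.QBaer.Perm

open Module

/-! ### Nilpotent endomorphisms with one-dimensional kernel -/

section Jordan

variable {k M : Type*} [Field k] [AddCommGroup M] [Module k M] [FiniteDimensional k M]

theorem ker_pow_le_succ (X : End k M) (j : ℕ) :
    LinearMap.ker (X ^ j) ≤ LinearMap.ker (X ^ (j + 1)) := by
  intro v hv
  rw [LinearMap.mem_ker] at hv ⊢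
  rw [pow_succ', Module.End.mul_apply, hv, map_zero]

theorem finrank_ker_pow_succ_le (X : End k M) (j : ℕ) :
    finrank k (LinearMap.ker (X ^ (j + 1))) ≤ finrank k (LinearMap.ker (X ^ j)) +
      finrank k (LinearMap.ker X) := by
  classical
  -- restrict `X` to `ker X^(j+1)`
  let S := LinearMap.ker (X ^ (j + 1))
  let f : S →ₗ[k] M := X.comp S.subtype
  have h : finrank k (LinearMap.range f) + finrank k (LinearMap.ker f) =
      finrank k (LinearMap.ker (X ^ (j + 1))) := LinearMap.finrank_range_add_finrank_ker f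
  have h1 : LinearMap.range f ≤ LinearMap.ker (X ^ j) := by
    rintro _ ⟨⟨v, hv⟩, rfl⟩
    have hv' : (X ^ (j + 1)) v = 0 := hv
    rw [LinearMap.mem_ker]
    change (X ^ j) (X v) = 0
    rw [← Module.End.mul_apply, ← pow_succ]
    exact hv'
  have h2 : finrank k (LinearMap.range f) ≤ finrank k (LinearMap.ker (X ^ j)) :=
    Submodule.finrank_mono h1
  have h3 : finrank k (LinearMap.ker f) ≤ finrank k (LinearMap.ker X) := by
    have hinj : Function.Injective
        (fun v : LinearMap.ker f => (⟨(v : S).1, by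
          have hv : f (v : S) = 0 := v.2
          exact hv⟩ : LinearMap.ker X)) := by
      intro a b hab
      apply Subtype.ext
      apply Subtype.ext
      exact congrArg (fun z : LinearMap.ker X => (z : M)) hab
    let g : LinearMap.ker f →ₗ[k] LinearMap.ker X :=
      { toFun := fun v => ⟨(v : S).1, by
          have hv : f (v : S) = 0 := v.2
          exact hv⟩
        map_add' := fun a b => rfl
        map_smul' := fun c a => rfl }
    exact LinearMap.finrank_le_finrank_of_injective (f := g) hinj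
  omega

theorem ker_pow_stable (X : End k M) {j : ℕ}
    (h : LinearMap.ker (X ^ (j + 1)) = LinearMap.ker (X ^ j)) (m : ℕ) :
    LinearMap.ker (X ^ (j + m)) = LinearMap.ker (X ^ j) := by
  induction m with
  | zero => rfl
  | succ m ih =>
    apply le_antisymm
    · intro v hv
      rw [LinearMap.mem_ker] at hv
      have h1 : X ^ m * X ^ (j + 1) = X ^ (j + (m + 1)) := by
        rw [← pow_add]
        congr 1
        omega
      have h2 : (X ^ m) v ∈ LinearMap.ker (X ^ (j + 1)) := by
        rw [LinearMap.mem_ker, ← Module.End.mul_apply, ← pow_add]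
        have : j + 1 + m = j + (m + 1) := by omega
        rw [this]
        exact hv
      rw [h] at h2
      have h3 : v ∈ LinearMap.ker (X ^ (j + m)) := by
        rw [LinearMap.mem_ker] at h2 ⊢
        rw [pow_add, Module.End.mul_apply]
        exact h2
      rwa [ih] at h3
    · intro v hv
      have h1 : LinearMap.ker (X ^ j) ≤ LinearMap.ker (X ^ (j + m)) := by
        intro w hw
        rw [LinearMap.mem_ker] at hw ⊢
        rw [add_comm, pow_add, Module.End.mul_apply, hw, map_zero]
      have h2 := ker_pow_le_succ X (j + m) (h1 hv)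
      exact h2

theorem ker_pow_eq_top_of_stable (X : End k M) (hX : IsNilpotent X) {j : ℕ}
    (h : LinearMap.ker (X ^ (j + 1)) = LinearMap.ker (X ^ j)) :
    LinearMap.ker (X ^ j) = ⊤ := by
  obtain ⟨N, hN⟩ := hX
  have h1 := ker_pow_stable X h N
  rw [← h1, add_comm, pow_add, hN, zero_mul, LinearMap.ker_zero]

/-- A nilpotent endomorphism with one-dimensional kernel has one Jordan block. -/
theorem finrank_ker_pow (X : End k M) (hX : IsNilpotent X)
    (h1 : finrank k (LinearMap.ker X) = 1) {j : ℕ} (hj : j ≤ finrank k M) :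
    finrank k (LinearMap.ker (X ^ j)) = j := by
  induction j with
  | zero =>
    have : LinearMap.ker ((X ^ 0 : End k M)) = ⊥ := by
      rw [pow_zero]
      exact LinearMap.ker_eq_bot.mpr Function.injective_id
    rw [this]
    simp
  | succ j ih =>
    have ihj := ih (by omega)
    have hle := finrank_ker_pow_succ_le X j
    rw [h1, ihj] at hle
    have hne : LinearMap.ker (X ^ (j + 1)) ≠ LinearMap.ker (X ^ j) := by
      intro heq
      have htop := ker_pow_eq_top_of_stable X hX heq
      rw [htop, finrank_top] at ihj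
      omega
    have hlt : LinearMap.ker (X ^ j) < LinearMap.ker (X ^ (j + 1)) :=
      lt_of_le_of_ne (ker_pow_le_succ X j) (Ne.symm hne)
    have := Submodule.finrank_lt_finrank_of_lt hlt
    omega

/-- An invariant subspace of a nilpotent endomorphism with one-dimensional kernel is a term of
the kernel chain. -/
theorem eq_ker_pow_of_invariant (X : End k M) (hX : IsNilpotent X)
    (h1 : finrank k (LinearMap.ker X) = 1) (W : Submodule k M)
    (hW : ∀ w ∈ W, X w ∈ W) : W = LinearMap.ker (X ^ finrank k W) := by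
  let Y : End k W := X.restrict hW
  have hpow : ∀ (N : ℕ) (w : W), ((Y ^ N) w : M) = (X ^ N) (w : M) := by
    intro N
    induction N with
    | zero => intro w; simp
    | succ N ih =>
      intro w
      rw [pow_succ, Module.End.mul_apply, ih, pow_succ, Module.End.mul_apply]
      rfl
  have hY : IsNilpotent Y := by
    obtain ⟨N, hN⟩ := hX
    refine ⟨N, ?_⟩
    ext w
    rw [hpow, hN]
    simp
  have hc := (LinearMap.isNilpotent_iff_charpoly Y).mp hY
  have hY0 : Y ^ finrank k W = 0 := by
    have := LinearMap.aeval_self_charpoly Y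
    rw [hc] at this
    simpa using this
  have hle : W ≤ LinearMap.ker (X ^ finrank k W) := by
    intro w hw
    rw [LinearMap.mem_ker]
    have := hpow (finrank k W) ⟨w, hw⟩
    rw [hY0] at this
    simpa using this.symm
  have hf := finrank_ker_pow X hX h1 (Submodule.finrank_le W)
  exact Submodule.eq_of_le_of_finrank_eq hle hf.symm

end Jordan

/-! ### Functions on `ZMod n` -/

section Fn

variable (p n : ℕ) [Fact p.Prime] [NeZero n]

/-- Functions `ZMod n → ZMod p`. -/
abbrev Fn := ZMod n → ZMod p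

/-- Translation of functions. -/
def tr (s : ZMod n) : End (ZMod p) (Fn p n) where
  toFun f x := f (x + s)
  map_add' _ _ := rfl
  map_smul' _ _ := rfl

variable {p n}

@[simp] theorem tr_apply (s : ZMod n) (f : Fn p n) (x : ZMod n) : tr p n s f x = f (x + s) := rfl

theorem tr_mul (s t : ZMod n) : tr p n s * tr p n t = tr p n (s + t) := by
  refine LinearMap.ext fun f => funext fun x => ?_
  simp only [Module.End.mul_apply, tr_apply]
  congr 1
  ring

theorem tr_zero : tr p n (0 : ZMod n) = 1 := by
  refine LinearMap.ext fun f => funext fun x => ?_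
  simp

theorem tr_pow (s : ZMod n) (k : ℕ) : tr p n s ^ k = tr p n ((k : ZMod n) * s) := by
  induction k with
  | zero => simp [tr_zero]
  | succ k ih =>
    rw [pow_succ, ih, tr_mul]
    congr 1
    push_cast
    ring

theorem tr_comm (s t : ZMod n) : Commute (tr p n s) (tr p n t) := by
  change _ * _ = _ * _
  rw [tr_mul, tr_mul, add_comm]

instance charP_end : CharP (End (ZMod p) (Fn p n)) p :=
  charP_of_injective_algebraMap (algebraMap (ZMod p) (End (ZMod p) (Fn p n))).injective p

variable (p n) in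
/-- The difference operator. -/
def DD : End (ZMod p) (Fn p n) := tr p n 1 - 1

@[simp] theorem DD_apply (f : Fn p n) (x : ZMod n) : DD p n f x = f (x + 1) - f x := rfl

theorem tr_sub_one_pow_pp (s : ZMod n) (j : ℕ) :
    (tr p n s - 1) ^ (p ^ j) = tr p n (((p ^ j : ℕ) : ZMod n) * s) - 1 := by
  have h := sub_pow_char_pow_of_commute (p := p) (n := j) (x := tr p n s) (y := 1)
    (Commute.one_right _)
  rw [h, tr_pow, one_pow]

theorem DD_pow_pp (j : ℕ) : (DD p n) ^ (p ^ j) = tr p n ((p ^ j : ℕ) : ZMod n) - 1 := by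
  have := tr_sub_one_pow_pp (p := p) (n := n) 1 j
  rwa [mul_one] at this

theorem tr_sub_one_nilpotent {e : ℕ} (hn : n = p ^ e) (s : ZMod n) :
    IsNilpotent (tr p n s - 1) := by
  refine ⟨p ^ e, ?_⟩
  rw [tr_sub_one_pow_pp, ← hn]
  simp [tr_zero]

theorem DD_nilpotent {e : ℕ} (hn : n = p ^ e) : IsNilpotent (DD p n) :=
  tr_sub_one_nilpotent hn 1

theorem const_of_DD_eq_zero {f : Fn p n} (hf : DD p n f = 0) (x : ZMod n) : f x = f 0 := by
  have h1 : ∀ y, f (y + 1) = f y := fun y => by
    have := congrFun hf y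
    simpa [sub_eq_zero] using this
  have h2 : ∀ k : ℕ, f (k : ZMod n) = f 0 := by
    intro k
    induction k with
    | zero => simp
    | succ k ih =>
      rw [Nat.cast_succ, h1, ih]
  have := h2 x.val
  rwa [ZMod.natCast_zmod_val] at this

theorem ker_DD_eq : LinearMap.ker (DD p n) = (ZMod p) ∙ (1 : Fn p n) := by
  apply le_antisymm
  · intro f hf
    rw [Submodule.mem_span_singleton]
    refine ⟨f 0, ?_⟩
    ext x
    have := const_of_DD_eq_zero (LinearMap.mem_ker.mp hf) x
    simp [this]
  · rw [Submodule.span_singleton_le_iff_mem, LinearMap.mem_ker]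
    ext x
    simp

theorem finrank_ker_DD : finrank (ZMod p) (LinearMap.ker (DD p n)) = 1 := by
  rw [ker_DD_eq]
  exact finrank_span_singleton (one_ne_zero)

theorem finrank_Fn : finrank (ZMod p) (Fn p n) = n := by
  rw [Module.finrank_fintype_fun_eq_card, ZMod.card]

/-- The chain of translation invariant subspaces. -/
abbrev VV (p n : ℕ) [Fact p.Prime] [NeZero n] (k : ℕ) : Submodule (ZMod p) (Fn p n) :=
  LinearMap.ker ((DD p n) ^ k)

theorem finrank_VV {e : ℕ} (hn : n = p ^ e) {k : ℕ} (hk : k ≤ n) :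
    finrank (ZMod p) (VV p n k) = k :=
  finrank_ker_pow _ (DD_nilpotent hn) finrank_ker_DD (by rwa [finrank_Fn])

theorem eq_VV {e : ℕ} (hn : n = p ^ e) (W : Submodule (ZMod p) (Fn p n))
    (hW : ∀ w ∈ W, DD p n w ∈ W) : W = VV p n (finrank (ZMod p) W) :=
  eq_ker_pow_of_invariant _ (DD_nilpotent hn) finrank_ker_DD W hW

theorem VV_mono {a b : ℕ} (h : a ≤ b) : VV p n a ≤ VV p n b := by
  intro f hf
  rw [LinearMap.mem_ker] at hf ⊢
  obtain ⟨c, rfl⟩ := Nat.exists_eq_add_of_le h
  rw [add_comm, pow_add, Module.End.mul_apply, hf, map_zero]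

theorem tr_mem_VV (s : ZMod n) {k : ℕ} {f : Fn p n} (hf : f ∈ VV p n k) : tr p n s f ∈ VV p n k := by
  rw [LinearMap.mem_ker] at hf ⊢
  have hc : Commute (DD p n) (tr p n s) := by
    unfold DD
    exact (tr_comm 1 s).sub_left (Commute.one_left _)
  rw [← Module.End.mul_apply, (hc.pow_left k).eq, Module.End.mul_apply, hf, map_zero]

end Fn

/-! ### Invariant subspaces from an orbital -/

section Orbital

variable {p n : ℕ} [Fact p.Prime] [NeZero n]

/-- Translation as a permutation. -/
abbrev trp (c : ZMod n) : Equiv.Perm (ZMod n) := Equiv.addRight c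

theorem trp_pow (k : ℕ) : (trp (1 : ZMod n)) ^ k = trp (k : ZMod n) := by
  ext x
  induction k generalizing x with
  | zero => simp
  | succ k ih =>
    rw [pow_succ, Equiv.Perm.mul_apply, ih]
    simp only [trp, Equiv.coe_addRight]
    push_cast
    ring

theorem trp_mem {H : Subgroup (Equiv.Perm (ZMod n))} (hτ : trp (1 : ZMod n) ∈ H) (c : ZMod n) :
    trp c ∈ H := by
  have := H.pow_mem hτ c.val
  rwa [trp_pow, ZMod.natCast_zmod_val] at this

/-- The suborbit of `1`. -/
noncomputable def SS (H : Subgroup (Equiv.Perm (ZMod n))) : Finset (ZMod n) := by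
  classical
  exact Finset.univ.filter fun s => ∃ t ∈ H, t 0 = 0 ∧ t 1 = s

theorem mem_SS {H : Subgroup (Equiv.Perm (ZMod n))} {s : ZMod n} :
    s ∈ SS H ↔ ∃ t ∈ H, t 0 = 0 ∧ t 1 = s := by
  classical
  simp [SS]

theorem psi_mem {H : Subgroup (Equiv.Perm (ZMod n))} (hτ : trp (1 : ZMod n) ∈ H)
    {g : Equiv.Perm (ZMod n)} (hg : g ∈ H) (x : ZMod n) {s : ZMod n} (hs : s ∈ SS H) :
    g (x + s) - g x ∈ SS H := by
  obtain ⟨t, htH, ht0, ht1⟩ := mem_SS.mp hs
  refine mem_SS.mpr ⟨trp (-(g x)) * g * trp x * t, ?_, ?_, ?_⟩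
  · exact H.mul_mem (H.mul_mem (H.mul_mem (trp_mem hτ _) hg) (trp_mem hτ _)) htH
  · simp [ht0]
  · simp [ht1, add_comm, sub_eq_add_neg]

variable (p) in
/-- The operator attached to the suborbit. -/
noncomputable def BB (H : Subgroup (Equiv.Perm (ZMod n))) : End (ZMod p) (Fn p n) :=
  ∑ s ∈ SS H, (tr p n s - 1)

theorem BB_apply (H : Subgroup (Equiv.Perm (ZMod n))) (f : Fn p n) (x : ZMod n) :
    BB p H f x = ∑ s ∈ SS H, (f (x + s) - f x) := by
  simp [BB, LinearMap.sum_apply, Finset.sum_apply]

theorem BB_comp {H : Subgroup (Equiv.Perm (ZMod n))} (hτ : trp (1 : ZMod n) ∈ H)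
    {g : Equiv.Perm (ZMod n)} (hg : g ∈ H) (f : Fn p n) :
    BB p H (f ∘ g) = (BB p H f) ∘ g := by
  ext x
  rw [Function.comp_apply, BB_apply, BB_apply]
  simp only [Function.comp_apply]
  refine Finset.sum_bij' (fun s _ => g (x + s) - g x) (fun s _ => g⁻¹ (g x + s) - x)
    (fun s hs => psi_mem hτ hg x hs) (fun s hs => ?_) (fun s hs => ?_) (fun s hs => ?_)
    (fun s hs => ?_)
  · have := psi_mem hτ (H.inv_mem hg) (g x) hs
    simpa using this
  · simp
  · simp
  · simp

theorem BB_nilpotent {e : ℕ} (hn : n = p ^ e) (H : Subgroup (Equiv.Perm (ZMod n))) :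
    IsNilpotent (BB p H) := by
  unfold BB
  refine Commute.isNilpotent_sum (fun s _ => tr_sub_one_nilpotent hn s) ?_
  intro a b _ _
  exact ((tr_comm a b).sub_left (Commute.one_left _)).sub_right (Commute.one_right _)

theorem BB_comm_DD (H : Subgroup (Equiv.Perm (ZMod n))) : Commute (BB p H) (DD p n) := by
  unfold BB DD
  refine Commute.sum_left _ _ _ (fun s _ => ?_)
  exact ((tr_comm s 1).sub_left (Commute.one_left _)).sub_right (Commute.one_right _)

end Orbital

section Inv

variable {p n : ℕ} [Fact p.Prime] [NeZero n]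

theorem BB_pow_comp {H : Subgroup (Equiv.Perm (ZMod n))} (hτ : trp (1 : ZMod n) ∈ H)
    {g : Equiv.Perm (ZMod n)} (hg : g ∈ H) (j : ℕ) (f : Fn p n) :
    ((BB p H) ^ j) (f ∘ g) = ((BB p H ^ j) f) ∘ g := by
  induction j generalizing f with
  | zero => simp
  | succ j ih =>
    rw [pow_succ, Module.End.mul_apply, BB_comp hτ hg, ih, Module.End.mul_apply]

/-- The unit at `0`. -/
def delta0 (p n : ℕ) [Fact p.Prime] [NeZero n] : Fn p n := fun x => if x = 0 then 1 else 0

theorem exists_inv {e : ℕ} (hn : n = p ^ e) (h5 : 5 ≤ n) (H : Subgroup (Equiv.Perm (ZMod n)))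
    (hτ : trp (1 : ZMod n) ∈ H) (hsw : ∀ g ∈ H, ¬ (g 0 = 1 ∧ g 1 = 0)) :
    ∃ k, 2 ≤ k ∧ 2 * k ≤ n ∧ ∀ g ∈ H, ∀ f ∈ VV p n k, f ∘ g ∈ VV p n k := by
  classical
  haveI : Fact (1 < n) := ⟨by omega⟩
  set B := BB p H with hB
  have hcomm : Commute B (DD p n) := BB_comm_DD H
  have hW := eq_VV hn (LinearMap.ker B) (fun w hw => by
    rw [LinearMap.mem_ker] at hw ⊢
    rw [← Module.End.mul_apply, hcomm.eq, Module.End.mul_apply, hw, map_zero])
  have hW' := eq_VV hn (LinearMap.range B) (by
    rintro _ ⟨f, rfl⟩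
    refine ⟨DD p n f, ?_⟩
    rw [← Module.End.mul_apply, hcomm.eq, Module.End.mul_apply])
  have hrn : finrank (ZMod p) (LinearMap.range B) + finrank (ZMod p) (LinearMap.ker B) = n := by
    rw [LinearMap.finrank_range_add_finrank_ker, finrank_Fn]
  have hv1 : 1 ≤ finrank (ZMod p) (LinearMap.ker B) := by
    rw [Submodule.one_le_finrank_iff]
    intro hbot
    have h1 : (1 : Fn p n) ∈ LinearMap.ker B := by
      rw [LinearMap.mem_ker]
      funext x
      rw [hB, BB_apply]
      simp
    rw [hbot, Submodule.mem_bot] at h1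
    exact one_ne_zero h1
  have hm1 : (-1 : ZMod n) ≠ 0 := neg_ne_zero.mpr one_ne_zero
  have h1S : (1 : ZMod n) ∈ SS H := mem_SS.mpr ⟨1, H.one_mem, rfl, rfl⟩
  have hm1S : (-1 : ZMod n) ∉ SS H := by
    intro hmem
    obtain ⟨t, htH, ht0, ht1⟩ := mem_SS.mp hmem
    refine hsw (trp 1 * t) (H.mul_mem hτ htH) ⟨?_, ?_⟩
    · simp [ht0]
    · simp [ht1]
  have hval1 : B (delta0 p n) (-1) = 1 := by
    rw [hB, BB_apply, Finset.sum_eq_single (1 : ZMod n)]
    · simp [delta0, hm1]
    · intro s _ hs
      have h2 : -1 + s ≠ 0 := fun h => hs (by linear_combination h)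
      simp [delta0, h2, hm1]
    · intro h
      exact absurd h1S h
  have hval2 : B (delta0 p n) 1 = 0 := by
    rw [hB, BB_apply]
    refine Finset.sum_eq_zero fun s hs => ?_
    have h2 : (1 : ZMod n) + s ≠ 0 := fun h => hm1S (by
      have : s = -1 := by linear_combination h
      rwa [this] at hs)
    simp [delta0, h2]
  have hr2 : 2 ≤ finrank (ZMod p) (LinearMap.range B) := by
    by_contra hlt
    push Not at hlt
    have hle : VV p n (finrank (ZMod p) (LinearMap.range B)) ≤ VV p n 1 := VV_mono (by omega)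
    have hmem : B (delta0 p n) ∈ VV p n 1 := by
      apply hle
      rw [← hW']
      exact ⟨_, rfl⟩
    have hD : DD p n (B (delta0 p n)) = 0 := by
      have := LinearMap.mem_ker.mp hmem
      simpa using this
    have h3 := const_of_DD_eq_zero hD (-1)
    have h4 := const_of_DD_eq_zero hD 1
    rw [hval1] at h3
    rw [hval2] at h4
    rw [← h4] at h3
    exact one_ne_zero h3
  by_cases hv : 2 ≤ finrank (ZMod p) (LinearMap.ker B)
  · rcases le_total (finrank (ZMod p) (LinearMap.ker B)) (finrank (ZMod p) (LinearMap.range B))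
      with hle | hle
    · refine ⟨finrank (ZMod p) (LinearMap.ker B), hv, by omega, fun g hg f hf => ?_⟩
      rw [← hW] at hf ⊢
      rw [LinearMap.mem_ker] at hf ⊢
      have := BB_pow_comp (p := p) hτ hg 1 f
      simp only [pow_one] at this
      rw [this, hf]
      rfl
    · refine ⟨finrank (ZMod p) (LinearMap.range B), hr2, by omega, fun g hg f hf => ?_⟩
      rw [← hW'] at hf ⊢
      obtain ⟨f0, rfl⟩ := hf
      refine ⟨f0 ∘ g, ?_⟩
      have := BB_pow_comp (p := p) hτ hg 1 f0
      simpa only [pow_one] using this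
  · have hv' : finrank (ZMod p) (LinearMap.ker B) = 1 := by omega
    have hnil : IsNilpotent B := BB_nilpotent hn H
    have h2 : finrank (ZMod p) (LinearMap.ker (B ^ 2)) = 2 :=
      finrank_ker_pow B hnil hv' (by rw [finrank_Fn]; omega)
    have hW2 := eq_VV hn (LinearMap.ker (B ^ 2)) (fun w hw => by
      rw [LinearMap.mem_ker] at hw ⊢
      rw [← Module.End.mul_apply, (hcomm.pow_left 2).eq, Module.End.mul_apply, hw, map_zero])
    rw [h2] at hW2
    refine ⟨2, le_rfl, by omega, fun g hg f hf => ?_⟩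
    rw [← hW2] at hf ⊢
    rw [LinearMap.mem_ker] at hf ⊢
    rw [BB_pow_comp hτ hg, hf]
    rfl

end Inv

/-! ### The prime case: polynomial functions -/

section PrimeCase

open Polynomial

variable {p : ℕ} [Fact p.Prime]

/-- Polynomial functions on the prime field. -/
noncomputable def polyL (p : ℕ) [Fact p.Prime] : (ZMod p)[X] →ₗ[ZMod p] Fn p p :=
  LinearMap.pi fun x => Polynomial.leval x

@[simp] theorem polyL_apply (R : (ZMod p)[X]) (x : ZMod p) : polyL p R x = R.eval x := rfl

theorem DD_polyL (R : (ZMod p)[X]) : DD p p (polyL p R) = polyL p (taylor 1 R - R) := by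
  funext x
  simp [taylor_eval]

theorem polyL_mem_VV (k : ℕ) (R : (ZMod p)[X]) (hR : R.degree < k) : polyL p R ∈ VV p p k := by
  induction k generalizing R with
  | zero =>
    have : R = 0 := by
      by_contra h
      rw [degree_eq_natDegree h] at hR
      simp at hR
    rw [this, map_zero]
    exact Submodule.zero_mem _
  | succ k ih =>
    rw [LinearMap.mem_ker, pow_succ, Module.End.mul_apply, DD_polyL]
    have hd : (taylor 1 R - R).degree < k := by
      by_cases h0 : R = 0
      · rw [h0]
        simp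
      · have h1 : (taylor 1 R - R).degree < R.degree := by
          have := degree_sub_lt_left (degree_taylor R 1) (by
            rw [Ne, taylor_eq_zero]
            exact h0) (leadingCoeff_taylor 1 R)
          rwa [degree_taylor] at this
        have h2 : R.natDegree < k + 1 := (natDegree_lt_iff_degree_lt h0).mpr (by exact_mod_cast hR)
        have h3 : R.degree ≤ k := degree_le_of_natDegree_le (by omega)
        exact lt_of_lt_of_le h1 h3
    have := ih _ hd
    exact LinearMap.mem_ker.mp this

theorem eq_of_polyL_eq {R R' : (ZMod p)[X]} (hR : R.degree < p) (hR' : R'.degree < p)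
    (h : polyL p R = polyL p R') : R = R' := by
  classical
  rw [← sub_eq_zero]
  have hd : (R - R').degree < p := lt_of_le_of_lt (degree_sub_le _ _) (max_lt hR hR')
  by_contra h0
  have hnd : (R - R').natDegree < (Finset.univ : Finset (ZMod p)).card := by
    rw [Finset.card_univ, ZMod.card]
    exact (natDegree_lt_iff_degree_lt h0).mpr hd
  apply h0
  refine eq_zero_of_natDegree_lt_card_of_eval_eq_zero' _ Finset.univ (fun x _ => ?_) hnd
  have := congrFun h x
  simp only [polyL_apply] at this
  simp [this]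

theorem exists_poly_of_mem_VV {k : ℕ} (hk : k ≤ p) {f : Fn p p} (hf : f ∈ VV p p k) :
    ∃ R : (ZMod p)[X], R.degree < k ∧ polyL p R = f := by
  classical
  let L : degreeLT (ZMod p) k →ₗ[ZMod p] Fn p p := (polyL p).comp (degreeLT (ZMod p) k).subtype
  have hinj : Function.Injective L := by
    intro a b hab
    have ha : (a : (ZMod p)[X]).degree < k := mem_degreeLT.mp a.2
    have hb : (b : (ZMod p)[X]).degree < k := mem_degreeLT.mp b.2
    have hkp : ((k : ℕ) : WithBot ℕ) ≤ p := by exact_mod_cast hk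
    exact Subtype.ext (eq_of_polyL_eq (lt_of_lt_of_le ha hkp) (lt_of_lt_of_le hb hkp) hab)
  have hle : LinearMap.range L ≤ VV p p k := by
    rintro _ ⟨a, rfl⟩
    exact polyL_mem_VV k (a : (ZMod p)[X]) (mem_degreeLT.mp a.2)
  have hfr : finrank (ZMod p) (LinearMap.range L) = k := by
    rw [LinearMap.finrank_range_of_inj hinj, (degreeLTEquiv (ZMod p) k).finrank_eq]
    simp
  have heq : LinearMap.range L = VV p p k :=
    Submodule.eq_of_le_of_finrank_eq hle (by rw [hfr, finrank_VV (e := 1) (by simp) hk])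
  rw [← heq] at hf
  obtain ⟨a, rfl⟩ := hf
  exact ⟨(a : (ZMod p)[X]), mem_degreeLT.mp a.2, rfl⟩

/-- A permutation of the prime field preserving the polynomial functions of small degree is
affine. -/
theorem affine_of_inv {k : ℕ} (hk2 : 2 ≤ k) (hk : 2 * k ≤ p) (g : Equiv.Perm (ZMod p))
    (hg : ∀ f ∈ VV p p k, f ∘ g ∈ VV p p k) : ∃ α β : ZMod p, ∀ x, g x = α * x + β := by
  have hkp : k ≤ p := by omega
  have hX : polyL p X ∈ VV p p k := polyL_mem_VV k X (by
    rw [degree_X]
    exact_mod_cast (by omega : 1 < k))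
  obtain ⟨R, hRd, hR⟩ := exists_poly_of_mem_VV hkp (hg _ hX)
  have hR' : ∀ x, R.eval x = g x := fun x => by
    have := congrFun hR x
    simpa using this
  have hR0 : R ≠ 0 := by
    intro h0
    have h1 := hR' 0
    have h2 := hR' 1
    rw [h0, eval_zero] at h1 h2
    have : (0 : ZMod p) = 1 := g.injective (by rw [← h1, ← h2])
    exact zero_ne_one this
  have hdeg : R.natDegree < k := (natDegree_lt_iff_degree_lt hR0).mpr hRd
  by_cases hD : 2 ≤ R.natDegree
  · exfalso
    set D := R.natDegree with hDdef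
    have hj : k / D + 1 < k := by
      have : k / D ≤ k / 2 := Nat.div_le_div_left hD (by norm_num)
      have h3 : k / 2 + 1 < k := by omega
      omega
    have hXj : polyL p (X ^ (k / D + 1)) ∈ VV p p k := polyL_mem_VV k _ (by
      rw [degree_X_pow]
      exact_mod_cast hj)
    have h1 := hg _ hXj
    have h2 : (polyL p (X ^ (k / D + 1))) ∘ g = polyL p (R ^ (k / D + 1)) := by
      funext x
      simp [hR']
    rw [h2] at h1
    obtain ⟨R2, hR2d, hR2⟩ := exists_poly_of_mem_VV hkp h1
    have hmul1 : k < (k / D + 1) * D := by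
      have := Nat.lt_div_mul_add (a := k) (b := D) (by omega)
      nlinarith
    have hmul2 : (k / D + 1) * D < p := by
      have := Nat.div_mul_le_self k D
      have h5 : (k / D + 1) * D = k / D * D + D := by ring
      omega
    have hRj : (R ^ (k / D + 1)).natDegree = (k / D + 1) * D := natDegree_pow _ _
    have hne : R ^ (k / D + 1) ≠ 0 := pow_ne_zero _ hR0
    have hRjd : (R ^ (k / D + 1)).degree < p := by
      rw [degree_eq_natDegree hne, hRj]
      exact_mod_cast hmul2
    have hkp' : ((k : ℕ) : WithBot ℕ) ≤ p := by exact_mod_cast hkp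
    have heq := eq_of_polyL_eq (lt_of_lt_of_le hR2d hkp') hRjd hR2
    rw [heq] at hR2d
    have := (natDegree_lt_iff_degree_lt hne).mpr hR2d
    omega
  · have hle : R.natDegree ≤ 1 := by omega
    have h3 := eq_X_add_C_of_natDegree_le_one hle
    refine ⟨R.coeff 1, R.coeff 0, fun x => ?_⟩
    rw [← hR', h3]
    simp

end PrimeCase

/-! ### The prime power case: block systems -/

section PowerCase

variable {p n : ℕ} [Fact p.Prime] [NeZero n]

/-- Pairing of functions. -/
def pair (f h : Fn p n) : ZMod p := ∑ x, f x * h x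

theorem pair_DD (f w : Fn p n) : pair f (DD p n w) = pair ((tr p n (-1) - 1) f) w := by
  unfold pair
  have h1 : ∑ x, f x * w (x + 1) = ∑ x, f (x + -1) * w x := by
    refine Fintype.sum_equiv (Equiv.addRight (1 : ZMod n)) _ _ fun x => ?_
    simp
  have h2 : ∑ x, f x * (DD p n w) x = ∑ x, f x * w (x + 1) - ∑ x, f x * w x := by
    rw [← Finset.sum_sub_distrib]
    refine Finset.sum_congr rfl fun x _ => ?_
    simp [mul_sub]
  have h3 : ∑ x, ((tr p n (-1) - 1) f) x * w x = ∑ x, f (x + -1) * w x - ∑ x, f x * w x := by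
    rw [← Finset.sum_sub_distrib]
    refine Finset.sum_congr rfl fun x _ => ?_
    simp [sub_mul]
  rw [h2, h3, h1]

theorem pair_DD_pow (j : ℕ) (f w : Fn p n) :
    pair f ((DD p n ^ j) w) = pair (((tr p n (-1) - 1) ^ j) f) w := by
  induction j generalizing f w with
  | zero => simp
  | succ j ih =>
    rw [pow_succ', Module.End.mul_apply, pair_DD, ih, ← Module.End.mul_apply, ← pow_succ]

theorem tilde_apply (f : Fn p n) : (tr p n (-1) - 1) f = - (tr p n (-1) (DD p n f)) := by
  funext x
  simp

theorem tilde_pow_eq_zero {j : ℕ} {f : Fn p n} (hf : f ∈ VV p n j) :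
    ((tr p n (-1) - 1) ^ j) f = 0 := by
  induction j generalizing f with
  | zero =>
    have h0 : f = 0 := by simpa using hf
    rw [h0, map_zero]
  | succ j ih =>
    rw [pow_succ, Module.End.mul_apply]
    apply ih
    rw [tilde_apply]
    apply Submodule.neg_mem
    apply tr_mem_VV
    rw [LinearMap.mem_ker] at hf ⊢
    rw [← Module.End.mul_apply, ← pow_succ]
    exact hf

theorem DD_pow_eq_zero {e : ℕ} (hn : n = p ^ e) : DD p n ^ n = 0 := by
  have h := DD_pow_pp (p := p) (n := n) e
  rw [← hn] at h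
  rw [h]
  simp [tr_zero]

theorem VV_eq_range {e : ℕ} (hn : n = p ^ e) {k : ℕ} (hk : k ≤ n) :
    VV p n (n - k) = LinearMap.range (DD p n ^ k) := by
  symm
  apply Submodule.eq_of_le_of_finrank_eq
  · rintro _ ⟨w, rfl⟩
    rw [LinearMap.mem_ker, ← Module.End.mul_apply, ← pow_add, Nat.sub_add_cancel hk,
      DD_pow_eq_zero hn]
    rfl
  · have h := LinearMap.finrank_range_add_finrank_ker (DD p n ^ k)
    rw [finrank_Fn, finrank_VV hn hk] at h
    rw [finrank_VV hn (by omega : n - k ≤ n)]
    omega

theorem pair_eq_zero {e : ℕ} (hn : n = p ^ e) {k : ℕ} (hk : k ≤ n) {f h : Fn p n}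
    (hf : f ∈ VV p n k) (hh : h ∈ VV p n (n - k)) : pair f h = 0 := by
  rw [VV_eq_range hn hk] at hh
  obtain ⟨w, rfl⟩ := hh
  rw [pair_DD_pow, tilde_pow_eq_zero hf]
  simp [pair]

/-- Functions of period `p ^ j` lie in `VV (p ^ j)`. -/
theorem mem_VV_of_periodic {j : ℕ} {f : Fn p n}
    (hf : ∀ y, f (y + ((p ^ j : ℕ) : ZMod n)) = f y) : f ∈ VV p n (p ^ j) := by
  rw [LinearMap.mem_ker, DD_pow_pp]
  funext y
  change f (y + ((p ^ j : ℕ) : ZMod n)) - f y = 0
  rw [hf, sub_self]

theorem periodic_of_mem_VV {j : ℕ} {f : Fn p n} (hf : f ∈ VV p n (p ^ j)) (y : ZMod n) :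
    f (y + ((p ^ j : ℕ) : ZMod n)) = f y := by
  rw [LinearMap.mem_ker, DD_pow_pp] at hf
  have := congrFun hf y
  change f (y + ((p ^ j : ℕ) : ZMod n)) - f y = 0 at this
  exact sub_eq_zero.mp this

/-- The digit function. -/
def digit (hpn : p ∣ n) : Fn p n := fun x => ZMod.castHom hpn (ZMod p) x

theorem digit_mem (hpn : p ∣ n) : digit hpn ∈ VV p n 2 := by
  rw [LinearMap.mem_ker, pow_two, Module.End.mul_apply]
  funext y
  change (ZMod.castHom hpn (ZMod p) (y + 1 + 1) - ZMod.castHom hpn (ZMod p) (y + 1)) -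
    (ZMod.castHom hpn (ZMod p) (y + 1) - ZMod.castHom hpn (ZMod p) y) = 0
  rw [map_add (ZMod.castHom hpn (ZMod p)) (y + 1) 1, map_add (ZMod.castHom hpn (ZMod p)) y 1,
    map_one]
  ring

/-- The period subgroup. -/
def periods (S : Submodule (ZMod p) (Fn p n)) : AddSubgroup (ZMod n) where
  carrier := {x | ∀ f ∈ S, ∀ y, f (y + x) = f y}
  zero_mem' := fun f _ y => by simp
  add_mem' := by
    intro a b ha hb f hf y
    rw [← add_assoc, hb f hf, ha f hf]
  neg_mem' := by
    intro a ha f hf y
    have := ha f hf (y + -a)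
    rw [add_assoc, neg_add_cancel, add_zero] at this
    exact this.symm

theorem mem_periods {S : Submodule (ZMod p) (Fn p n)} {x : ZMod n} :
    x ∈ periods S ↔ ∀ f ∈ S, ∀ y, f (y + x) = f y := Iff.rfl

/-- Case of small `k`: the periods of `VV k` are preserved. -/
theorem block_small {e : ℕ} (hn : n = p ^ (e + 1)) {k : ℕ} (hk2 : 2 ≤ k) (hke : k ≤ p ^ e)
    (he : 1 ≤ e) {H : Subgroup (Equiv.Perm (ZMod n))}
    (hinv : ∀ g ∈ H, ∀ f ∈ VV p n k, f ∘ g ∈ VV p n k) :
    ∃ M : AddSubgroup (ZMod n), M ≠ ⊥ ∧ M ≠ ⊤ ∧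
      ∀ g ∈ H, ∀ x y, x - y ∈ M → g x - g y ∈ M := by
  have hpn : p ∣ n := by
    rw [hn]
    exact dvd_pow_self p (by omega)
  refine ⟨periods (VV p n k), ?_, ?_, ?_⟩
  · intro hbot
    have hmem : ((p ^ e : ℕ) : ZMod n) ∈ periods (VV p n k) := fun f hf y =>
      periodic_of_mem_VV (VV_mono hke hf) y
    rw [hbot, AddSubgroup.mem_bot, ZMod.natCast_eq_zero_iff, hn] at hmem
    have hp : 1 < p := (Fact.out : p.Prime).one_lt
    exact absurd (Nat.pow_dvd_pow_iff_le_right hp |>.mp hmem) (by omega)
  · intro htop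
    have hmem : (1 : ZMod n) ∈ periods (VV p n k) := by
      rw [htop]
      trivial
    have := hmem (digit hpn) (VV_mono hk2 (digit_mem hpn)) 0
    change ZMod.castHom hpn (ZMod p) (0 + 1) = ZMod.castHom hpn (ZMod p) 0 at this
    rw [zero_add, map_one, map_zero] at this
    exact one_ne_zero this
  · intro g hg x y hxy f hf w
    have h1 := tr_mem_VV (p := p) (w - g y) hf
    have h2 := hinv g hg _ h1
    have h3 := hxy _ h2 y
    rw [show y + (x - y) = x by ring] at h3
    simp only [Function.comp_apply, tr_apply] at h3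
    rw [show g y + (w - g y) = w by ring] at h3
    rw [show w + (g x - g y) = g x + (w - g y) by ring]
    exact h3

/-- Case of large `k`: the cosets of the subgroup of order `p` are preserved. -/
theorem block_large {e : ℕ} (hn : n = p ^ (e + 1)) (he : 1 ≤ e) (hodd : p ≠ 2) {k : ℕ}
    (hke : p ^ e ≤ k) (hk2 : 2 * k ≤ n) {H : Subgroup (Equiv.Perm (ZMod n))}
    (hinv : ∀ g ∈ H, ∀ f ∈ VV p n k, f ∘ g ∈ VV p n k) :
    ∃ M : AddSubgroup (ZMod n), M ≠ ⊥ ∧ M ≠ ⊤ ∧
      ∀ g ∈ H, ∀ x y, x - y ∈ M → g x - g y ∈ M := by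
  classical
  have hpp : p.Prime := Fact.out
  have hp3 : 3 ≤ p := by
    have := hpp.two_le
    omega
  have hpn : p ∣ n := by
    rw [hn]
    exact dvd_pow_self p (by omega)
  have hnmul : n = p * p ^ e := by rw [hn, pow_succ']
  set c0 : ZMod n := ((p ^ e : ℕ) : ZMod n) with hc0
  set M : AddSubgroup (ZMod n) := AddSubgroup.zmultiples c0 with hM
  have hc0M : c0 ∈ M := AddSubgroup.mem_zmultiples c0
  have hpc0 : ((p : ℕ) : ZMod n) * c0 = 0 := by
    rw [hc0, ← Nat.cast_mul, ← hnmul]
    simp
  have hc0ne : c0 ≠ 0 := by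
    rw [hc0, Ne, ZMod.natCast_eq_zero_iff, hn]
    intro h
    exact absurd (Nat.pow_dvd_pow_iff_le_right hpp.one_lt |>.mp h) (by omega)
  refine ⟨M, ?_, ?_, ?_⟩
  · intro hbot
    rw [hbot, AddSubgroup.mem_bot] at hc0M
    exact hc0ne hc0M
  · intro htop
    have h1 : (1 : ZMod n) ∈ M := by
      rw [htop]
      trivial
    obtain ⟨m, hm⟩ := AddSubgroup.mem_zmultiples_iff.mp h1
    have h2 := congrArg (ZMod.castHom hpn (ZMod p)) hm
    rw [map_zsmul, map_one, hc0, map_natCast, Nat.cast_pow, ZMod.natCast_self,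
      zero_pow (by omega)] at h2
    simp at h2
  · intro g hg x y hxy
    let I : ZMod n → Fn p n := fun c z => if z - c ∈ M then 1 else 0
    have hIper : ∀ c, I c ∈ VV p n (p ^ e) := by
      intro c
      apply mem_VV_of_periodic
      intro z
      have h1 : z + c0 - c ∈ M ↔ z - c ∈ M := by
        rw [show z + c0 - c = (z - c) + c0 by ring]
        exact AddSubgroup.add_mem_cancel_right _ hc0M
      simp only [I, ← hc0, h1]
    have h3 : 3 * p ^ e ≤ n := by
      rw [hnmul]
      exact Nat.mul_le_mul_right _ hp3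
    have h4 : p ^ e ≤ n - k := by omega
    have hf : (I (g x)) ∘ g ∈ VV p n k := hinv g hg _ (VV_mono hke (hIper _))
    have hh : I x ∈ VV p n (n - k) := VV_mono h4 (hIper _)
    have hpair := pair_eq_zero (e := e + 1) hn (by omega : k ≤ n) hf hh
    let A : Finset (ZMod n) := Finset.univ.filter fun z => g z - g x ∈ M ∧ z - x ∈ M
    let Cst : Finset (ZMod n) := Finset.univ.filter fun z => z - x ∈ M
    have hcardA : ((A.card : ℕ) : ZMod p) = 0 := by
      rw [← hpair]
      unfold pair
      rw [Finset.card_eq_sum_ones, Nat.cast_sum, Finset.sum_filter]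
      refine Finset.sum_congr rfl fun z _ => ?_
      simp only [Function.comp_apply, I]
      by_cases h5 : g z - g x ∈ M <;> by_cases h6 : z - x ∈ M <;> simp [h5, h6]
    have hdvd : p ∣ A.card := (ZMod.natCast_eq_zero_iff _ _).mp hcardA
    have hxA : x ∈ A := by
      simp [A, M.zero_mem]
    have hApos : 0 < A.card := Finset.card_pos.mpr ⟨x, hxA⟩
    have hple : p ≤ A.card := Nat.le_of_dvd hApos hdvd
    have hCle : Cst.card ≤ p := by
      have hsub : Cst ⊆ (Finset.range p).image fun i : ℕ => x + (i : ZMod n) * c0 := by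
        intro z hz
        have hz' : z - x ∈ M := (Finset.mem_filter.mp hz).2
        obtain ⟨m, hm⟩ := AddSubgroup.mem_zmultiples_iff.mp hz'
        have hpos : (0 : ℤ) < p := by exact_mod_cast hpp.pos
        refine Finset.mem_image.mpr ⟨(m % p).toNat, Finset.mem_range.mpr ?_, ?_⟩
        · have := Int.emod_lt_of_pos m hpos
          have h0 := Int.emod_nonneg m hpos.ne'
          omega
        · have h0 := Int.emod_nonneg m hpos.ne'
          have h7 : ((m % p).toNat : ℤ) = m % p := Int.toNat_of_nonneg h0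
          have h8 : (((m % p).toNat : ℕ) : ZMod n) = ((m % p : ℤ) : ZMod n) := by
            rw [← Int.cast_natCast, h7]
          have h9 : m = p * (m / p) + m % p := (Int.mul_ediv_add_emod m p).symm
          have h10 : m • c0 = ((m % p : ℤ) : ZMod n) * c0 := by
            conv_lhs => rw [h9]
            rw [zsmul_eq_mul]
            push_cast
            linear_combination ((m / p : ℤ) : ZMod n) * hpc0
          rw [h8, ← h10, hm]
          ring
      calc Cst.card ≤ ((Finset.range p).image fun i : ℕ => x + (i : ZMod n) * c0).card :=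
            Finset.card_le_card hsub
        _ ≤ (Finset.range p).card := Finset.card_image_le
        _ = p := Finset.card_range p
    have hAC : A ⊆ Cst := by
      intro z hz
      simp only [A, Cst, Finset.mem_filter, Finset.mem_univ, true_and] at hz ⊢
      exact hz.2
    have hEq : A = Cst := Finset.eq_of_subset_of_card_le hAC (hCle.trans hple)
    have hyC : y ∈ Cst := by
      simp only [Cst, Finset.mem_filter, Finset.mem_univ, true_and]
      have := M.neg_mem hxy
      rwa [neg_sub] at this
    rw [← hEq] at hyC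
    have h5 := (Finset.mem_filter.mp hyC).2.1
    have := M.neg_mem h5
    rwa [neg_sub] at this

end PowerCase

/-! ### The main statements -/

section Main

/-- Prime power degree, exponent at least two: a nontrivial block system. -/
theorem perm_pow {p n e : ℕ} [Fact p.Prime] [NeZero n] (hn : n = p ^ (e + 1)) (he : 1 ≤ e)
    (hodd : p ≠ 2) (H : Subgroup (Equiv.Perm (ZMod n))) (hτ : trp (1 : ZMod n) ∈ H)
    (hsw : ∀ g ∈ H, ¬ (g 0 = 1 ∧ g 1 = 0)) :
    ∃ M : AddSubgroup (ZMod n), M ≠ ⊥ ∧ M ≠ ⊤ ∧
      ∀ g ∈ H, ∀ x y, x - y ∈ M → g x - g y ∈ M := by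
  have hpp : p.Prime := Fact.out
  have hp3 : 3 ≤ p := by
    have := hpp.two_le
    omega
  have h5 : 5 ≤ n := by
    rw [hn]
    calc 5 ≤ 3 ^ 2 := by norm_num
      _ ≤ p ^ 2 := Nat.pow_le_pow_left hp3 2
      _ ≤ p ^ (e + 1) := Nat.pow_le_pow_right hpp.pos (by omega)
  obtain ⟨k, hk2, hkn, hinv⟩ := exists_inv hn h5 H hτ hsw
  by_cases hke : k ≤ p ^ e
  · exact block_small hn hk2 hke he hinv
  · exact block_large hn he hodd (by omega) hkn hinv

theorem aff3 : ∀ g : Equiv.Perm (ZMod 3), ∃ α β : ZMod 3, ∀ x, g x = α * x + β := by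
  decide

/-- Prime degree: every element is affine. -/
theorem perm_prime {p : ℕ} [Fact p.Prime] (hodd : p ≠ 2) (H : Subgroup (Equiv.Perm (ZMod p)))
    (hτ : trp (1 : ZMod p) ∈ H) (hsw : ∀ g ∈ H, ¬ (g 0 = 1 ∧ g 1 = 0)) :
    ∀ g ∈ H, ∃ α β : ZMod p, ∀ x, g x = α * x + β := by
  have hpp : p.Prime := Fact.out
  by_cases h3 : p = 3
  · subst h3
    intro g _
    exact aff3 g
  · have h5 : 5 ≤ p := by
      have h2 := hpp.two_le
      by_contra hlt
      have : p = 4 := by omega
      rw [this] at hpp
      exact absurd hpp (by norm_num)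
    obtain ⟨k, hk2, hkn, hinv⟩ := exists_inv (p := p) (n := p) (e := 1) (pow_one p).symm h5 H hτ hsw
    intro g hg
    exact affine_of_inv hk2 hkn g (hinv g hg)

end Main

end Cfsg.Agent.Lib.QBaer.Perm
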