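import Cfsg.Agent.Lib.QBaer.Elem
import Cfsg.Agent.Lib.QBaer.Perm
import Cfsg.Agent.Lib.Core.Basic

/-!
# A minimal counterexample has no cyclic Sylow subgroup
-/

set_option autoImplicit false
set_option linter.unusedSectionVars false
set_option linter.unusedVariables false
set_option linter.style.haveILetI false
set_option linter.unusedSimpArgs false

namespace Cfsg.Agent.Lib.QBaer.CyclicCase

open Module Cfsg Cfsg.Agent.Lib.Kazarin.Main Cfsg.Agent.Lib.QBaer.StarBase Cfsg.Agent.Lib.QBaer.Reduce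
  Cfsg.Agent.Lib.QBaer.System Cfsg.Agent.Lib.QBaer.Elem Cfsg.Agent.Lib.QBaer.Perm
  Cfsg.Agent.Lib.Core.Basic

universe u v w

variable {F : Type w} {V : Type v} {G : Type u} [Field F] [AddCommGroup V] [Module F V] [Group G]
  [Finite G] {p : ℕ} [hp : Fact p.Prime]

theorem card_core_coprime {q : ℕ} [hq : Fact q.Prime] (hqp : q ≠ p) :
    (Nat.card (pCore q G)).Coprime p := by
  obtain ⟨k, hk⟩ := IsPGroup.iff_card.mp (pCore_isPGroup (p := q) (G := G))
  rw [hk]
  exact Nat.Coprime.pow_left k ((Nat.coprime_primes hq.out hp.out).mpr hqp)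

theorem core_le_P_center {ρ : G →* (V ≃ₗ[F] V)} (hM : MinCE ρ p) (P : Sylow p G)
    (hc : IsCyclic (P : Subgroup G)) : pCore p G ≤ (P : Subgroup G) ⊓ Subgroup.center G := by
  refine le_inf (pCore_le_sylow P) ?_
  haveI : IsCyclic (pCore p G) :=
    isCyclic_of_injective (Subgroup.inclusion (pCore_le_sylow P)) (Subgroup.inclusion_injective _)
  exact le_center_of_cyclic_of_perfect hM.perf _ inferInstance

theorem solvable_normal_le {ρ : G →* (V ≃ₗ[F] V)} (hM : MinCE ρ p) (P : Sylow p G)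
    (hc : IsCyclic (P : Subgroup G)) : ∀ (n : ℕ) (N : Subgroup G), Nat.card N = n → N.Normal →
      Group.IsSolvable N → N ≤ (P : Subgroup G) ⊓ Subgroup.center G := by
  intro n
  induction n using Nat.strong_induction_on with
  | _ n IH =>
    intro N hn hN hS
    by_cases hbot : N = ⊥
    · rw [hbot]
      exact bot_le
    have hMN : ⁅N, N⁆ ≤ N := Subgroup.commutator_le_left N N
    haveI : Nontrivial N := (Subgroup.nontrivial_iff_ne_bot N).mpr hbot
    have hlt : commutator N < ⊤ := Group.IsSolvable.commutator_lt_top_of_nontrivial N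
    have hmap : (commutator N).map N.subtype = ⁅N, N⁆ := Subgroup.map_subtype_commutator N
    have hMne : ⁅N, N⁆ ≠ N := by
      intro h
      apply hlt.ne
      rw [eq_top_iff]
      rintro ⟨x, hx⟩ _
      have h1 : x ∈ ⁅N, N⁆ := by rwa [h]
      rw [← hmap] at h1
      obtain ⟨y, hy, rfl⟩ := h1
      exact hy
    have hcard : Nat.card (⁅N, N⁆ : Subgroup G) < n := by
      rw [← hn]
      refine lt_of_le_of_ne (Subgroup.card_le_of_le hMN) ?_
      intro h
      exact hMne (Subgroup.eq_of_le_of_card_ge hMN h.ge)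
    have hMS : Group.IsSolvable (⁅N, N⁆ : Subgroup G) :=
      Group.isSolvable_of_isSolvable_injective (Subgroup.inclusion_injective hMN)
    have hMc := IH _ hcard _ rfl inferInstance hMS
    have hnil : Group.IsNilpotent N := by
      refine Subgroup.isNilpotent_of_ker_le_center (Abelianization.of (G := N)) ?_
      rw [Abelianization.ker_of]
      intro x hx
      rw [Subgroup.mem_center_iff]
      intro y
      have h1 : (x : G) ∈ ⁅N, N⁆ := by
        rw [← hmap]
        exact ⟨x, hx, rfl⟩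
      have h2 := Subgroup.mem_center_iff.mp (hMc h1).2 y
      exact Subtype.ext h2
    have h1 := le_iSup_pCore_of_nilpotent hN hnil
    refine h1.trans (iSup_le ?_)
    intro q
    haveI : Fact (q : ℕ).Prime := ⟨q.2⟩
    by_cases hq : (q : ℕ) = p
    · have : pCore (q : ℕ) G = pCore p G := by rw [hq]
      rw [this]
      exact core_le_P_center hM P hc
    · rw [hM.star.eq_bot_of_coprime (pCore (q : ℕ) G) (card_core_coprime hq)]
      exact bot_le

theorem transfer_false {ρ : G →* (V ≃ₗ[F] V)} (hM : MinCE ρ p) (P : Sylow p G)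
    (hN : Subgroup.normalizer (P : Subgroup G) ≤ Subgroup.centralizer (P : Set G)) : False := by
  have h1 := MonoidHom.ker_transferSylow_isComplement' P hN
  have h2 := MonoidHom.not_dvd_card_ker_transferSylow P hN
  have h3 : (MonoidHom.transferSylow P hN).ker = ⊥ :=
    hM.star.eq_bot_of_coprime _ (((Nat.Prime.coprime_iff_not_dvd hp.out).mpr h2).symm)
  have h4 := h1.card_mul
  rw [h3] at h4
  simp only [Subgroup.card_bot, one_mul] at h4
  have h5 : IsPGroup p G := by
    obtain ⟨k, hk⟩ := IsPGroup.iff_card.mp P.isPGroup'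
    refine IsPGroup.of_card (n := k) ?_
    rw [← h4, hk]
  apply hM.not_solv
  haveI := h5.isNilpotent
  infer_instance

theorem card_dvd_of_nontrivial {ρ : G →* (V ≃ₗ[F] V)} (hM : MinCE ρ p) : p ∣ Nat.card G := by
  by_contra h
  have h1 : (⊤ : Subgroup G) = ⊥ :=
    hM.star.eq_bot_of_coprime ⊤ (by
      rw [Subgroup.card_top]
      exact ((Nat.Prime.coprime_iff_not_dvd hp.out).mpr h).symm)
  apply hM.not_solv
  exact Group.isSolvable_of_top_eq_bot G h1

/-- The case of odd primes: the permutation group argument. -/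
theorem cyclic_core {ρ : G →* (V ≃ₗ[F] V)} (hM : MinCE ρ p) (hodd : p ≠ 2) (a : G)
    (A : Subgroup G) (hsolv : ∀ N : Subgroup G, N.Normal → N ≠ ⊤ → N ≤ A) (n : ℕ) [NeZero n]
    (hnA : ∀ k : ℕ, a ^ k ∈ A → n ∣ k) (π : G →* Equiv.Perm (ZMod n))
    (hπa : ∀ x, π a x = x + 1) (hsw : ∀ g, ¬ (π g 0 = 1 ∧ π g 1 = 0)) (e' : ℕ)
    (hn : n = p ^ (e' + 1)) : False := by
  have hτ : trp (1 : ZMod n) ∈ π.range := by
    refine ⟨a, ?_⟩
    ext x
    rw [hπa]
    rfl
  have hsw' : ∀ g ∈ π.range, ¬ (g 0 = 1 ∧ g 1 = 0) := by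
    rintro _ ⟨g, rfl⟩
    exact hsw g
  have hpow : ∀ (k : ℕ) (x : ZMod n), π (a ^ k) x = x + k := by
    intro k
    induction k with
    | zero =>
      intro x
      simp
    | succ m ih =>
      intro x
      rw [pow_succ', map_mul, Equiv.Perm.mul_apply, hπa, ih]
      push_cast
      ring
  rcases Nat.eq_zero_or_pos e' with h0 | h0
  · subst h0
    rw [zero_add, pow_one] at hn
    subst hn
    have h1 : ∀ g, ∃ α β : ZMod n, ∀ x, π g x = α * x + β := fun g =>
      perm_prime hodd π.range hτ hsw' (π g) ⟨g, rfl⟩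
    have h2 := aff_trivial hM.perf π h1 a 0
    rw [hπa, zero_add] at h2
    exact one_ne_zero h2
  · obtain ⟨M, hM0, hMt, hinv⟩ := perm_pow hn h0 hodd π.range hτ hsw'
    have hinv' : ∀ (g : G) (x y : ZMod n), x - y ∈ M → π g x - π g y ∈ M := fun g =>
      hinv (π g) ⟨g, rfl⟩
    let N : Subgroup G :=
      { carrier := {g | ∀ x, π g x - x ∈ M}
        mul_mem' := by
          intro g h hg hh x
          rw [map_mul, Equiv.Perm.mul_apply]
          have : π g (π h x) - x = (π g (π h x) - π h x) + (π h x - x) := by ring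
          rw [this]
          exact M.add_mem (hg _) (hh _)
        one_mem' := by
          intro x
          simp [M.zero_mem]
        inv_mem' := by
          intro g hg x
          have h1 := hg (π g⁻¹ x)
          have h2 : π g (π g⁻¹ x) = x := by
            rw [← Equiv.Perm.mul_apply, ← map_mul, mul_inv_cancel, map_one]
            rfl
          rw [h2] at h1
          have h3 := M.neg_mem h1
          rwa [neg_sub] at h3 }
    have hNmem : ∀ g, g ∈ N ↔ ∀ x, π g x - x ∈ M := fun g => Iff.rfl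
    have hNn : N.Normal := by
      refine ⟨?_⟩
      intro g hg h x
      rw [map_mul, map_mul, map_inv, Equiv.Perm.mul_apply, Equiv.Perm.mul_apply]
      have h1 := hinv' h _ _ (hg ((π h)⁻¹ x))
      have h2 : π h ((π h)⁻¹ x) = x := by
        rw [← Equiv.Perm.mul_apply, mul_inv_cancel]
        rfl
      rwa [h2] at h1
    have hNt : N ≠ ⊤ := by
      intro h
      have h1 : a ∈ N := by rw [h]; trivial
      have h2 := h1 0
      rw [hπa, zero_add, sub_zero] at h2
      apply hMt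
      rw [eq_top_iff]
      intro x _
      have h3 := M.nsmul_mem h2 x.val
      simpa using h3
    have hle := hsolv N hNn hNt
    obtain ⟨⟨m, hm⟩, hm0⟩ := (AddSubgroup.ne_bot_iff_exists_ne_zero.mp hM0)
    have hm0' : m ≠ 0 := fun h => hm0 (Subtype.ext h)
    have h1 : a ^ m.val ∈ N := by
      intro x
      rw [hpow, ZMod.natCast_zmod_val, add_sub_cancel_left]
      exact hm
    have h2 := hnA _ (hle h1)
    have h3 := Nat.eq_zero_of_dvd_of_lt h2 (ZMod.val_lt m)
    exact hm0' ((ZMod.val_eq_zero m).mp h3)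

/-- The action on the cosets of `T1`, in coordinates. -/
theorem exists_perm (A T1 : Subgroup G) [A.Normal] (a : G) (hT1A : A ≤ T1)
    (hT1P : ∀ k : ℕ, a ^ k ∈ T1 → a ^ k ∈ A) (hsurj : ∀ g : G, ∃ k : ℕ, (a ^ k)⁻¹ * g ∈ T1) :
    haveI : NeZero (orderOf (QuotientGroup.mk a : G ⧸ A)) := ⟨(orderOf_pos _).ne'⟩
    ∃ π : G →* Equiv.Perm (ZMod (orderOf (QuotientGroup.mk a : G ⧸ A))),
      (∀ x, π a x = x + 1) ∧
      (∀ (g : G) (k l : ℕ), π g (k : ZMod _) = (l : ZMod _) → (a ^ l)⁻¹ * (g * a ^ k) ∈ T1) := by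
  classical
  haveI : NeZero (orderOf (QuotientGroup.mk a : G ⧸ A)) := ⟨(orderOf_pos _).ne'⟩
  set n := orderOf (QuotientGroup.mk a : G ⧸ A) with hn
  have hA : ∀ k : ℕ, a ^ k ∈ A ↔ n ∣ k := by
    intro k
    rw [hn, orderOf_dvd_iff_pow_eq_one, ← QuotientGroup.mk_pow, QuotientGroup.eq_one_iff]
  have hmod : ∀ k l : ℕ, k ≡ l [MOD n] →
      (QuotientGroup.mk (a ^ k) : G ⧸ T1) = QuotientGroup.mk (a ^ l) := by
    intro k l hkl
    have h1 : (QuotientGroup.mk a : G ⧸ A) ^ k = (QuotientGroup.mk a : G ⧸ A) ^ l :=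
      (pow_eq_pow_iff_modEq).mpr hkl
    rw [← QuotientGroup.mk_pow, ← QuotientGroup.mk_pow, QuotientGroup.eq] at h1
    rw [QuotientGroup.eq]
    exact hT1A h1
  let E : ZMod n → G ⧸ T1 := fun x => QuotientGroup.mk (a ^ x.val)
  have hE : ∀ k : ℕ, E (k : ZMod n) = QuotientGroup.mk (a ^ k) := by
    intro k
    change (QuotientGroup.mk (a ^ ((k : ZMod n)).val) : G ⧸ T1) = _
    rw [ZMod.val_natCast]
    exact hmod _ _ (Nat.mod_modEq k n)
  have hlt : ∀ i j : ℕ, i ≤ j → j < n → (QuotientGroup.mk (a ^ i) : G ⧸ T1) = QuotientGroup.mk (a ^ j) →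
      i = j := by
    intro i j hij hj h
    rw [QuotientGroup.eq] at h
    have h1 : (a ^ i)⁻¹ * a ^ j = a ^ (j - i) := by
      rw [inv_mul_eq_iff_eq_mul, ← pow_add]
      congr 1
      omega
    rw [h1] at h
    have h2 := (hA _).mp (hT1P _ h)
    have h3 := Nat.eq_zero_of_dvd_of_lt h2 (by omega)
    omega
  have hinj : Function.Injective E := by
    intro x y hxy
    have h1 := ZMod.val_lt x
    have h2 := ZMod.val_lt y
    apply ZMod.val_injective
    rcases le_total x.val y.val with h | h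
    · exact hlt _ _ h h2 hxy
    · exact (hlt _ _ h h1 hxy.symm).symm
  have hsur : Function.Surjective E := by
    intro q
    obtain ⟨g, rfl⟩ := QuotientGroup.mk_surjective q
    obtain ⟨k, hk⟩ := hsurj g
    refine ⟨(k : ZMod n), ?_⟩
    rw [hE, QuotientGroup.eq]
    exact hk
  let EE : ZMod n ≃ G ⧸ T1 := Equiv.ofBijective E ⟨hinj, hsur⟩
  let π : G →* Equiv.Perm (ZMod n) :=
    (EE.symm.permCongrHom.toMonoidHom).comp (MulAction.toPermHom G (G ⧸ T1))
  have hπ : ∀ g x, E (π g x) = g • E x := by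
    intro g x
    have h1 : π g x = EE.symm (g • EE x) := rfl
    have h2 : E (π g x) = EE (π g x) := rfl
    rw [h2, h1, Equiv.apply_symm_apply]
    rfl
  refine ⟨π, ?_, ?_⟩
  · intro x
    apply hinj
    rw [hπ]
    have h1 : x + 1 = ((x.val + 1 : ℕ) : ZMod n) := by
      push_cast
      rw [ZMod.natCast_zmod_val]
    rw [h1, hE, pow_succ']
    rfl
  · intro g k l h
    have h1 := hπ g (k : ZMod n)
    rw [h, hE, hE] at h1
    have h2 : g • (QuotientGroup.mk (a ^ k) : G ⧸ T1) = QuotientGroup.mk (g * a ^ k) := rfl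
    rw [h2, QuotientGroup.eq] at h1
    exact h1

/-- The key swap argument. -/
theorem no_swap {ρ : G →* (V ≃ₗ[F] V)} (hM : MinCE ρ p) (P : Sylow p G) (hodd : p ≠ 2)
    (A : Subgroup G) [A.Normal] (hAz : A ≤ Subgroup.center G) (hAP : A ≤ (P : Subgroup G)) (a : G)
    (haP : a ∈ (P : Subgroup G)) (haA : a ∉ A)
    (hsemi : ∀ u ∈ (P : Subgroup G), u ≠ 1 → ∀ v, ρ u v = v → v = 0) {v0 : V} (hv0 : v0 ≠ 0) (g : G)
    (h1 : a⁻¹ * g ∈ stabS ρ v0 ⊔ A) (h2 : g * a ∈ stabS ρ v0 ⊔ A) : False := by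
  have hpp := hp.out
  rw [Subgroup.mem_sup_of_normal_right] at h1 h2
  obtain ⟨t, ht, c, hc, htc⟩ := h1
  obtain ⟨t', ht', c', hc', htc'⟩ := h2
  have hcz : ∀ {z : G}, z ∈ A → ∀ y, y * z = z * y := fun hz y =>
    Subgroup.mem_center_iff.mp (hAz hz) y
  have hg : g = a * (t * c) := by rw [htc]; group
  have hga : ρ g v0 = ρ (c * a) v0 := by
    rw [hg, hcz hc t, ← mul_assoc, rho_mul, mem_stabS.mp ht, hcz hc a]
  have hgaa : ρ g (ρ a v0) = ρ c' v0 := by
    rw [← rho_mul, ← htc', hcz hc' t', rho_mul, mem_stabS.mp ht']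
  -- square root in the centre
  obtain ⟨f, hf⟩ := IsPGroup.iff_card.mp P.isPGroup'
  have hoddP : Odd (Nat.card (P : Subgroup G)) := by
    rw [hf]
    exact (hpp.odd_of_ne_two hodd).pow
  obtain ⟨k, hk⟩ := hoddP
  have hpowP : ∀ u ∈ (P : Subgroup G), u ^ (2 * k + 1) = 1 := by
    intro u hu
    have := pow_card_eq_one' (G := (P : Subgroup G)) (x := ⟨u, hu⟩)
    rw [hk] at this
    exact congrArg Subtype.val this
  have hsq1 : ∀ u ∈ (P : Subgroup G), u ^ 2 = 1 → u = 1 := by
    intro u hu h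
    have h1 := hpowP u hu
    rw [pow_succ, pow_mul, h, one_pow, one_mul] at h1
    exact h1
  let x := c * c'
  have hxA : x ∈ A := A.mul_mem hc hc'
  let r := x ^ (k + 1)
  have hrA : r ∈ A := pow_mem hxA _
  have hr2 : r * r = x := by
    have h1 := hpowP x (hAP hxA)
    change x ^ (k + 1) * x ^ (k + 1) = x
    calc x ^ (k + 1) * x ^ (k + 1) = x ^ (2 * k + 1) * x := by
          rw [← pow_add, ← pow_succ]
          congr 1
          ring
      _ = x := by rw [h1, one_mul]
  let s := r⁻¹ * c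
  have hsA : s ∈ A := A.mul_mem (A.inv_mem hrA) hc
  let h' := r⁻¹ * g
  let w := ρ (s * a) v0
  have hw1 : ρ h' v0 = w := by
    change ρ (r⁻¹ * g) v0 = ρ (r⁻¹ * c * a) v0
    rw [rho_mul, hga, ← rho_mul, mul_assoc]
  have hw2 : ρ h' w = v0 := by
    change ρ (r⁻¹ * g) (ρ (s * a) v0) = v0
    have h3 : r⁻¹ * g * (s * a) = r⁻¹ * s * (g * a) := by
      calc r⁻¹ * g * (s * a) = r⁻¹ * (g * s) * a := by group
        _ = r⁻¹ * (s * g) * a := by rw [hcz hsA g]
        _ = r⁻¹ * s * (g * a) := by group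
    rw [← rho_mul, h3, rho_mul, rho_mul ρ g a, hgaa, ← rho_mul]
    have h4 : r⁻¹ * s * c' = 1 := by
      have h5 : c * c' = r * r := hr2.symm
      change r⁻¹ * (r⁻¹ * c) * c' = 1
      rw [mul_assoc, mul_assoc, h5]
      group
    rw [h4, rho_one]
  let y := v0 - w
  have hy0 : y ≠ 0 := by
    intro h
    have h3 : ρ (s * a) v0 = v0 := (sub_eq_zero.mp h).symm
    by_cases h4 : s * a = 1
    · apply haA
      have h5 : a = s⁻¹ := by
        exact eq_inv_of_mul_eq_one_right h4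
      rw [h5]
      exact A.inv_mem hsA
    · exact hv0 (hsemi _ ((P : Subgroup G).mul_mem (hAP hsA) haP) h4 _ h3)
  have hh'y : ρ h' y = -y := by
    change ρ h' (v0 - w) = -(v0 - w)
    rw [map_sub, hw1, hw2, neg_sub]
  obtain ⟨u, hu, hu1⟩ := hM.star.exists_sylow P h' y
  have huy : ρ u y = -y := by rw [← hu1, hh'y]
  have hu2 : ρ (u ^ 2) y = y := by
    rw [pow_two, rho_mul, huy, map_neg, huy, neg_neg]
  have hu3 : u ^ 2 = 1 := by
    by_contra hne
    exact hy0 (hsemi _ (pow_mem hu 2) hne _ hu2)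
  have hu4 : u = 1 := hsq1 u hu hu3
  rw [hu4, rho_one] at huy
  have h2y : (2 : F) • y = 0 := by
    rw [two_smul]
    nth_rw 1 [huy]
    exact neg_add_cancel y
  have h2F : (2 : F) = 0 := (smul_eq_zero.mp h2y).resolve_right hy0
  have hoddG : Odd (Nat.card G) := by
    rw [← Nat.not_even_iff_odd]
    rintro ⟨l, hl⟩
    apply hM.star.card_ne
    rw [hl]
    push_cast
    rw [← two_mul, h2F, zero_mul]
  obtain ⟨k', hk'⟩ := hoddG
  have h5 : h' ^ (2 * k' + 1) = 1 := by
    rw [← hk']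
    exact pow_card_eq_one'
  have h6 : h' ^ 2 ∈ stabS ρ v0 := by
    rw [mem_stabS, pow_two, rho_mul, hw1, hw2]
  have h7 : (h' ^ 2) ^ k' ∈ stabS ρ v0 := pow_mem h6 k'
  rw [← pow_mul] at h7
  have h8 : ρ (h' ^ (2 * k' + 1)) v0 = w := by
    rw [pow_succ', rho_mul, mem_stabS.mp h7, hw1]
  rw [h5, rho_one] at h8
  apply hy0
  change v0 - w = 0
  rw [h8, sub_self]

/-- A minimal counterexample has no cyclic Sylow subgroups. -/
theorem cyclic_case {ρ : G →* (V ≃ₗ[F] V)} (hM : MinCE ρ p) (P : Sylow p G)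
    (hc : IsCyclic (P : Subgroup G)) : False := by
  classical
  by_cases h2 : p = 2
  · subst h2
    have hmin : (Nat.card G).minFac = 2 :=
      (Nat.minFac_eq_two_iff _).mpr (card_dvd_of_nontrivial hM)
    exact transfer_false hM P (IsCyclic.normalizer_le_centralizer hmin hc)
  have hpp := hp.out
  have hV := hM.nt
  let A : Subgroup G := (P : Subgroup G) ⊓ Subgroup.center G
  have hAz : A ≤ Subgroup.center G := inf_le_right
  have hAP : A ≤ (P : Subgroup G) := inf_le_left
  haveI hAn : A.Normal := by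
    refine ⟨?_⟩
    intro x hx g
    have h1 := Subgroup.mem_center_iff.mp (hAz hx) g
    rw [h1, mul_inv_cancel_right]
    exact hx
  have hsolv : ∀ N : Subgroup G, N.Normal → N ≠ ⊤ → N ≤ A := fun N hN hNt =>
    solvable_normal_le hM P hc _ N rfl hN (hM.normal_solv N hN hNt)
  have hPc : ∀ u ∈ (P : Subgroup G), ∀ w ∈ (P : Subgroup G), u * w = w * u := by
    intro u hu w hw
    have := (IsCyclic.commutative (α := (P : Subgroup G))).is_comm.comm ⟨u, hu⟩ ⟨w, hw⟩
    exact congrArg Subtype.val this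
  have hsemi : ∀ u ∈ (P : Subgroup G), u ≠ 1 → ∀ v, ρ u v = v → v = 0 :=
    fun u hu hu1 v hv => fix_eq_zero hM P (fun w hw => hPc w hw u hu) hu1 hv
  obtain ⟨a0, ha0⟩ := hc.exists_generator
  let a : G := a0
  have haP : a ∈ (P : Subgroup G) := a0.2
  have hgen : ∀ u ∈ (P : Subgroup G), ∃ k : ℕ, u = a ^ k := by
    intro u hu
    have h1 : (⟨u, hu⟩ : (P : Subgroup G)) ∈ Subgroup.zpowers a0 := ha0 _
    rw [← mem_powers_iff_mem_zpowers] at h1
    obtain ⟨k, hk⟩ := h1
    refine ⟨k, ?_⟩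
    have := congrArg Subtype.val hk
    exact this.symm
  have haA : a ∉ A := by
    intro haA
    apply transfer_false hM P
    intro x _
    rw [Subgroup.mem_centralizer_iff]
    intro u hu
    obtain ⟨k, rfl⟩ := hgen u hu
    have h1 : (a ^ k) ∈ Subgroup.center G := pow_mem (hAz haA) k
    exact (Subgroup.mem_center_iff.mp h1 x).symm
  obtain ⟨v0, hv0⟩ := exists_ne (0 : V)
  let T1 : Subgroup G := stabS ρ v0 ⊔ A
  have hT1A : A ≤ T1 := le_sup_right
  have hT1P : ∀ k : ℕ, a ^ k ∈ T1 → a ^ k ∈ A := by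
    intro k hk
    rw [Subgroup.mem_sup_of_normal_right] at hk
    obtain ⟨t, ht, c, hc', htc⟩ := hk
    have h1 : t = a ^ k * c⁻¹ := by rw [← htc]; group
    have h2 : t ∈ (P : Subgroup G) := by
      rw [h1]
      exact (P : Subgroup G).mul_mem (pow_mem haP k) ((P : Subgroup G).inv_mem (hAP hc'))
    have h3 : t = 1 := by
      by_contra hne
      exact hv0 (hsemi t h2 hne v0 (mem_stabS.mp ht))
    rw [← htc, h3, one_mul]
    exact hc'
  have hsurj : ∀ g : G, ∃ k : ℕ, (a ^ k)⁻¹ * g ∈ T1 := by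
    intro g
    obtain ⟨u, hu, h1⟩ := hM.star.exists_sylow P g v0
    obtain ⟨k, rfl⟩ := hgen u hu
    refine ⟨k, Subgroup.mem_sup_left ?_⟩
    rw [mem_stabS, rho_mul, h1, rho_inv_rho]
  obtain ⟨π, hπa, hπ⟩ := exists_perm A T1 a hT1A hT1P hsurj
  haveI hne : NeZero (orderOf (QuotientGroup.mk a : G ⧸ A)) := ⟨(orderOf_pos _).ne'⟩
  have hnA : ∀ k : ℕ, a ^ k ∈ A → orderOf (QuotientGroup.mk a : G ⧸ A) ∣ k := by
    intro k hk
    rw [orderOf_dvd_iff_pow_eq_one, ← QuotientGroup.mk_pow, QuotientGroup.eq_one_iff]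
    exact hk
  -- the order is a nontrivial power of `p`
  have hn1 : orderOf (QuotientGroup.mk a : G ⧸ A) ≠ 1 := by
    intro h
    rw [orderOf_eq_one_iff, QuotientGroup.eq_one_iff] at h
    exact haA h
  obtain ⟨f, hf⟩ := IsPGroup.iff_card.mp P.isPGroup'
  have hnd : orderOf (QuotientGroup.mk a : G ⧸ A) ∣ p ^ f := by
    rw [← hf]
    have h1 : orderOf (QuotientGroup.mk a : G ⧸ A) ∣ orderOf a := by
      rw [orderOf_dvd_iff_pow_eq_one, ← QuotientGroup.mk_pow, pow_orderOf_eq_one]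
      rfl
    refine h1.trans ?_
    exact Subgroup.orderOf_dvd_natCard _ haP
  obtain ⟨e, _, he⟩ := (Nat.dvd_prime_pow hpp).mp hnd
  obtain ⟨e', rfl⟩ : ∃ e', e = e' + 1 := by
    refine ⟨e - 1, ?_⟩
    by_contra hcon
    have : e = 0 := by omega
    rw [this, pow_zero] at he
    exact hn1 he
  have hn2 : 2 ≤ orderOf (QuotientGroup.mk a : G ⧸ A) := by
    rw [he]
    calc 2 ≤ p := hpp.two_le
      _ = p ^ 1 := (pow_one p).symm
      _ ≤ p ^ (e' + 1) := Nat.pow_le_pow_right hpp.pos (by omega)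
  refine cyclic_core hM h2 a A hsolv _ hnA π hπa ?_ e' he
  rintro g ⟨h1, h3⟩
  have h4 := hπ g 0 1 (by simpa using h1)
  have h5 := hπ g 1 0 (by simpa using h3)
  refine no_swap hM P h2 A hAz hAP a haP haA hsemi hv0 g ?_ ?_
  · simpa using h4
  · simpa using h5

end Cfsg.Agent.Lib.QBaer.CyclicCase
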