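import Cfsg.Agent.Lib.QBaer.System
import Cfsg.Agent.Lib.PGroups.CyclicNormal

/-!
# Sylow subgroups of a minimal counterexample have only cyclic normal abelian subgroups
-/

set_option autoImplicit false
set_option linter.unusedSectionVars false
set_option linter.unusedVariables false
set_option linter.style.haveILetI false
set_option linter.unusedSimpArgs false

namespace Cfsg.Agent.Lib.QBaer.Elem

open Module Cfsg.Agent.Lib.Kazarin.Main Cfsg.Agent.Lib.QBaer.StarBase Cfsg.Agent.Lib.QBaer.Reduce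
  Cfsg.Agent.Lib.QBaer.System

universe u v w

variable {F : Type w} {V : Type v} {G : Type u} [Field F] [AddCommGroup V] [Module F V] [Group G]

/-- The underlying representation by endomorphisms. -/
def tauHom (ρ : G →* (V ≃ₗ[F] V)) : G →* Module.End F V :=
  (LinearEquiv.automorphismGroup.toLinearMapMonoidHom).comp ρ

@[simp] theorem tauHom_apply (ρ : G →* (V ≃ₗ[F] V)) (g : G) (v : V) : tauHom ρ g v = ρ g v := rfl

theorem tauHom_pow_apply (ρ : G →* (V ≃ₗ[F] V)) (g : G) (k : ℕ) (v : V) :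
    ((tauHom ρ g) ^ k) v = ρ (g ^ k) v := by
  rw [← map_pow]
  rfl

/-- The fixed point subspace of an element. -/
def fixS (ρ : G →* (V ≃ₗ[F] V)) (w : G) : Submodule F V :=
  LinearMap.ker (tauHom ρ w - 1)

@[simp] theorem mem_fixS {ρ : G →* (V ≃ₗ[F] V)} {w : G} {v : V} : v ∈ fixS ρ w ↔ ρ w v = v := by
  simp [fixS, sub_eq_zero]

variable [Finite G] {p : ℕ} [hp : Fact p.Prime]

theorem fix_eq_zero {ρ : G →* (V ≃ₗ[F] V)} (hM : MinCE ρ p) (P : Sylow p G) {w : G}
    (hw : ∀ u ∈ (P : Subgroup G), u * w = w * u) (hw1 : w ≠ 1) {v : V} (hv : ρ w v = v) : v = 0 := by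
  have hinv : ∀ g, ∀ x ∈ fixS ρ w, ρ g x ∈ fixS ρ w := by
    intro g x hx
    refine hM.star.invariant P (W := fixS ρ w) ?_ g hx
    intro u hu y hy
    rw [mem_fixS] at hy ⊢
    rw [← rho_mul, ← hw u hu, rho_mul, hy]
  rcases hM.irr _ hinv with h | h
  · have : v ∈ fixS ρ w := mem_fixS.mpr hv
    rw [h] at this
    exact (Submodule.mem_bot F).mp this
  · exfalso
    apply hw1
    apply hM.star.inj
    rw [map_one]
    ext x
    have : x ∈ fixS ρ w := by rw [h]; trivial
    exact mem_fixS.mp this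

/-- The geometric sum of a nontrivial central element vanishes. -/
theorem geom_eq_zero {ρ : G →* (V ≃ₗ[F] V)} (hM : MinCE ρ p) (P : Sylow p G) {w : G}
    (hw : ∀ u ∈ (P : Subgroup G), u * w = w * u) (hw1 : w ≠ 1) (hwp : w ^ p = 1) :
    ∑ k ∈ Finset.range p, (tauHom ρ w) ^ k = 0 := by
  ext v
  have h1 : (tauHom ρ w - 1) * ∑ k ∈ Finset.range p, (tauHom ρ w) ^ k = 0 := by
    rw [mul_geom_sum, ← map_pow, hwp, map_one, sub_self]
  have h2 := congrArg (fun f : Module.End F V => f v) h1
  simp only [Module.End.mul_apply, LinearMap.sub_apply, Module.End.one_apply, LinearMap.zero_apply,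
    tauHom_apply] at h2
  exact fix_eq_zero hM P hw hw1 (sub_eq_zero.mp h2)

/-- A formal identity in a ring. -/
theorem double_sum_eq {R : Type*} [Ring R] {p : ℕ} (hp : 0 < p) (T S : R) (hTS : Commute T S)
    (hS : ∀ j, 0 < j → j < p → ∑ i ∈ Finset.range p, (S ^ j) ^ i = 0) :
    ∑ i ∈ Finset.range p, ∑ j ∈ Finset.range p, (T * S ^ i) ^ j = (p : R) := by
  have h1 : ∀ i j : ℕ, (T * S ^ i) ^ j = T ^ j * (S ^ j) ^ i := by
    intro i j
    rw [(hTS.pow_right i).mul_pow, ← pow_mul, ← pow_mul, mul_comm]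
  simp only [h1]
  rw [Finset.sum_comm]
  simp only [← Finset.mul_sum]
  obtain ⟨n, rfl⟩ : ∃ n, p = n + 1 := ⟨p - 1, by omega⟩
  rw [Finset.sum_range_succ']
  rw [Finset.sum_eq_zero]
  · simp
  · intro j hj
    rw [Finset.mem_range] at hj
    rw [hS (j + 1) (by omega) (by omega), mul_zero]

theorem pow_val_add {G : Type*} [Group G] {p : ℕ} [hp : Fact p.Prime] {z : G} (hz : z ^ p = 1)
    (i j : ZMod p) : z ^ (i + j).val = z ^ i.val * z ^ j.val := by
  rw [ZMod.val_add, ← pow_add]
  exact (pow_eq_pow_mod _ hz).symm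

theorem no_elem {ρ : G →* (V ≃ₗ[F] V)} (hM : MinCE ρ p) (P : Sylow p G) (z e : G)
    (hzc : ∀ u ∈ (P : Subgroup G), u * z = z * u) (hz1 : z ≠ 1) (hzp : z ^ p = 1) (hep : e ^ p = 1)
    (hze : z * e = e * z) (hen : ∀ j : ZMod p, e ≠ z ^ j.val)
    (hs : ∀ u ∈ (P : Subgroup G), ∃ j : ZMod p, u * e * u⁻¹ = e * z ^ j.val) : False := by
  classical
  have hV := hM.nt
  have hpp := hp.out
  have hcom : Commute e z := (Commute.symm hze)
  let zz : ZMod p → G := fun i => z ^ i.val
  have hzzadd : ∀ i j, zz (i + j) = zz i * zz j := pow_val_add hzp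
  have hzzc : ∀ i, ∀ u ∈ (P : Subgroup G), u * zz i = zz i * u := by
    intro i u hu
    exact (Commute.pow_right (show Commute u z from hzc u hu) _)
  have hzz0 : zz 0 = 1 := by simp [zz]
  have hordz : orderOf z = p := orderOf_eq_prime hzp hz1
  have hzzne : ∀ i : ZMod p, i ≠ 0 → zz i ≠ 1 := by
    intro i hi h1
    have h2 : orderOf z ∣ i.val := orderOf_dvd_of_pow_eq_one h1
    rw [hordz] at h2
    have h3 := Nat.eq_zero_of_dvd_of_lt h2 (ZMod.val_lt i)
    exact hi ((ZMod.val_eq_zero i).mp h3)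
  have hzzp : ∀ i, zz i ^ p = 1 := by
    intro i
    change (z ^ i.val) ^ p = 1
    rw [← pow_mul, mul_comm, pow_mul, hzp, one_pow]
  have hpF : (p : F) ≠ 0 := by
    refine card_ne_of_dvd (X := G) (Y := G) ?_ hM.star.card_ne
    rw [← hordz]
    exact orderOf_dvd_natCard z
  let y : ZMod p → G := fun i => e * (zz i)⁻¹
  have hcomz : ∀ i, Commute e (zz i)⁻¹ := by
    intro i
    exact (hcom.pow_right _).inv_right
  have hyp : ∀ i, y i ^ p = 1 := by
    intro i
    change (e * (zz i)⁻¹) ^ p = 1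
    rw [(hcomz i).mul_pow, hep, inv_pow, hzzp, inv_one, one_mul]
  let W : ZMod p → Submodule F V := fun i => fixS ρ (y i)
  let Pr : ZMod p → Module.End F V := fun i => ∑ j ∈ Finset.range p, (tauHom ρ (y i)) ^ j
  -- range of `Pr i` is in `W i`
  have hPr1 : ∀ i v, Pr i v ∈ W i := by
    intro i v
    rw [mem_fixS]
    have h1 : (tauHom ρ (y i) - 1) * Pr i = 0 := by
      change (tauHom ρ (y i) - 1) * ∑ j ∈ Finset.range p, (tauHom ρ (y i)) ^ j = 0
      rw [mul_geom_sum, ← map_pow, hyp, map_one, sub_self]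
    have h2 := congrArg (fun f : Module.End F V => f v) h1
    simp only [Module.End.mul_apply, LinearMap.sub_apply, Module.End.one_apply, LinearMap.zero_apply,
      tauHom_apply] at h2
    exact sub_eq_zero.mp h2
  have hPr2 : ∀ i, ∀ w ∈ W i, Pr i w = (p : F) • w := by
    intro i w hw
    have h1 : ∀ k : ℕ, ((tauHom ρ (y i)) ^ k) w = w := by
      intro k
      induction k with
      | zero => simp
      | succ n ih =>
        rw [pow_succ, Module.End.mul_apply, tauHom_apply, mem_fixS.mp hw, ih]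
    simp only [Pr, LinearMap.sum_apply, h1]
    simp [Nat.cast_smul_eq_nsmul]
  have hPr3 : ∀ i l, l ≠ i → ∀ w ∈ W l, Pr i w = 0 := by
    intro i l hli w hw
    have hli' : l - i ≠ 0 := sub_ne_zero.mpr hli
    have ht : y i = y l * zz (l - i) := by
      have h1 : zz l = zz (l - i) * zz i := by
        rw [← hzzadd]
        congr 1
        ring
      change e * (zz i)⁻¹ = e * (zz l)⁻¹ * zz (l - i)
      rw [h1, mul_inv_rev]
      simp only [mul_assoc]
      rw [inv_mul_cancel, mul_one]
    have h2 : ∀ v, ρ (y i) v = v → True := fun _ _ => trivial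
    have hcomm : Commute (y l) (zz (l - i)) := by
      refine Commute.mul_left ?_ ?_
      · exact hcom.pow_right _
      · refine Commute.inv_left ?_
        exact Commute.pow_pow (Commute.refl z) _ _
    have h1 : ∀ k : ℕ, ((tauHom ρ (y i)) ^ k) w = ((tauHom ρ (zz (l - i))) ^ k) w := by
      intro k
      have hfix : ρ (y l ^ k) w = w :=
        mem_stabS.mp (pow_mem (mem_stabS.mpr (mem_fixS.mp hw)) k)
      rw [tauHom_pow_apply, tauHom_pow_apply, ht, hcomm.eq, hcomm.symm.mul_pow, rho_mul, hfix]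
    simp only [Pr, LinearMap.sum_apply, h1]
    have h3 := geom_eq_zero hM P (hzzc (l - i)) (hzzne _ hli') (hzzp _)
    have h4 := congrArg (fun f : Module.End F V => f w) h3
    simpa only [LinearMap.sum_apply, LinearMap.zero_apply] using h4
  have hPr4 : ∀ v, ∑ i ∈ Finset.range p, Pr (i : ZMod p) v = (p : F) • v := by
    intro v
    have h1 : ∑ i ∈ Finset.range p, Pr (i : ZMod p) =
        ∑ i ∈ Finset.range p, ∑ j ∈ Finset.range p, (tauHom ρ e * tauHom ρ z⁻¹ ^ i) ^ j := by
      refine Finset.sum_congr rfl ?_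
      intro i hi
      rw [Finset.mem_range] at hi
      refine Finset.sum_congr rfl ?_
      intro j _
      have h2 : y (i : ZMod p) = e * z⁻¹ ^ i := by
        change e * (z ^ ((i : ZMod p)).val)⁻¹ = _
        rw [ZMod.val_cast_of_lt hi, inv_pow]
      rw [h2, map_mul, map_pow]
    have h2 : ∑ i ∈ Finset.range p, ∑ j ∈ Finset.range p, (tauHom ρ e * tauHom ρ z⁻¹ ^ i) ^ j = (p : Module.End F V) := by
      refine double_sum_eq hpp.pos _ _ ?_ ?_
      · have : Commute e z⁻¹ := hcom.inv_right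
        rw [Commute, SemiconjBy, ← map_mul, this.eq, map_mul]
      · intro j hj0 hjp
        rw [← map_pow]
        refine geom_eq_zero hM P ?_ ?_ ?_
        · intro u hu
          have : Commute u z⁻¹ := (show Commute u z from hzc u hu).inv_right
          exact this.pow_right j
        · intro h1
          rw [inv_pow, inv_eq_one] at h1
          have h2 : orderOf z ∣ j := orderOf_dvd_of_pow_eq_one h1
          rw [hordz] at h2
          have := Nat.le_of_dvd hj0 h2
          omega
        · rw [inv_pow, inv_pow, ← pow_mul, mul_comm, pow_mul, hzp, one_pow, inv_one]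
    rw [← LinearMap.sum_apply, h1, h2]
    simp [Module.End.natCast_apply, Nat.cast_smul_eq_nsmul]
  have hind : iSupIndep W := by
    intro i
    rw [disjoint_iff_inf_le]
    intro v hv
    obtain ⟨h1, h2⟩ := Submodule.mem_inf.mp hv
    have h3 : (⨆ (j) (_ : j ≠ i), W j) ≤ LinearMap.ker (Pr i) := by
      refine iSup_le fun j => iSup_le fun hj => ?_
      intro w hw
      exact hPr3 i j hj w hw
    have h4 : Pr i v = 0 := h3 h2
    rw [hPr2 i v h1] at h4
    exact (Submodule.mem_bot F).mpr ((smul_eq_zero.mp h4).resolve_left hpF)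
  have htop : ⨆ i, W i = ⊤ := by
    rw [eq_top_iff]
    intro v _
    have h1 : (p : F) • v ∈ ⨆ i, W i := by
      rw [← hPr4 v]
      refine Submodule.sum_mem _ ?_
      intro i _
      exact Submodule.mem_iSup_of_mem _ (hPr1 _ v)
    have h2 := Submodule.smul_mem _ (p : F)⁻¹ h1
    rwa [smul_smul, inv_mul_cancel₀ hpF, one_smul] at h2
  have hshift : ∀ u ∈ (P : Subgroup G), ∀ j : ZMod p, u * e * u⁻¹ = e * zz j →
      ∀ i, ∀ w ∈ W i, ρ u w ∈ W (i + (-j)) := by
    intro u hu j hj i w hw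
    rw [mem_fixS] at hw ⊢
    have h1 : y (i + -j) * u = u * y i := by
      have h2 : zz i = zz (i + -j) * zz j := by
        rw [← hzzadd]
        congr 1
        ring
      have h3 : u * e = e * zz j * u := by
        rw [← hj]
        group
      have h4 : u * (zz i)⁻¹ = (zz i)⁻¹ * u := by
        have : Commute u (zz i) := hzzc i u hu
        exact this.inv_right
      have h5 : zz j * (zz i)⁻¹ = (zz (i + -j))⁻¹ := by
        rw [h2, mul_inv_rev, mul_inv_cancel_left]
      change e * (zz (i + -j))⁻¹ * u = u * (e * (zz i)⁻¹)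
      calc e * (zz (i + -j))⁻¹ * u = e * (zz j * (zz i)⁻¹) * u := by rw [h5]
        _ = (e * zz j) * ((zz i)⁻¹ * u) := by group
        _ = (e * zz j) * (u * (zz i)⁻¹) := by rw [h4]
        _ = (e * zz j * u) * (zz i)⁻¹ := by group
        _ = u * e * (zz i)⁻¹ := by rw [h3]
        _ = u * (e * (zz i)⁻¹) := by group
    rw [← rho_mul, h1, rho_mul, hw]
  by_cases hcase : ∃ u ∈ (P : Subgroup G), ∃ j : ZMod p, j ≠ 0 ∧ u * e * u⁻¹ = e * zz j
  · obtain ⟨u0, hu0, j0, hj0, hu0j⟩ := hcase
    have hstep : ∀ k : ℕ, ∀ i, ∀ w ∈ W i, ρ (u0 ^ k) w ∈ W (i + (k : ZMod p) * (-j0)) := by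
      intro k
      induction k with
      | zero =>
        intro i w hw
        simpa [rho_one] using hw
      | succ n ih =>
        intro i w hw
        rw [pow_succ', rho_mul]
        have := hshift u0 hu0 j0 hu0j _ _ (ih i w hw)
        convert this using 2
        push_cast
        ring
    have hj1 : -j0 ≠ 0 := neg_ne_zero.mpr hj0
    let k : ℕ := ((-j0)⁻¹ : ZMod p).val
    have hk : (k : ZMod p) * (-j0) = 1 := by
      rw [ZMod.natCast_zmod_val]
      exact inv_mul_cancel₀ hj1
    refine no_system hM P W hind htop (u0 ^ k) (pow_mem hu0 k) ?_ ?_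
    · intro i w hw
      have := hstep k i w hw
      rwa [hk] at this
    · intro u hu
      obtain ⟨j, hj⟩ := hs u hu
      exact ⟨-j, hshift u hu j hj⟩
  · push Not at hcase
    have hinv : ∀ i, ∀ g, ∀ w ∈ W i, ρ g w ∈ W i := by
      intro i g w hw
      refine hM.star.invariant P (W := W i) ?_ g hw
      intro u hu x hx
      obtain ⟨j, hj⟩ := hs u hu
      have hj0 : j = 0 := by
        by_contra hne
        exact hcase u hu j hne hj
      have := hshift u hu j hj i x hx
      rwa [hj0, neg_zero, add_zero] at this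
    have h1 : ∃ i, W i ≠ ⊥ := by
      by_contra hc
      push Not at hc
      have : (⊤ : Submodule F V) = ⊥ := by
        rw [← htop, iSup_eq_bot]
        exact hc
      exact top_ne_bot this
    obtain ⟨i, hi⟩ := h1
    have h2 : W i = ⊤ := (hM.irr _ (hinv i)).resolve_left hi
    have h3 : y i = 1 := by
      apply hM.star.inj
      rw [map_one]
      ext x
      have : x ∈ W i := by rw [h2]; trivial
      exact mem_fixS.mp this
    apply hen i
    exact mul_inv_eq_one.mp h3

/-- All normal abelian subgroups of a Sylow subgroup of a minimal counterexample are cyclic. -/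
theorem normal_abelian_cyclic {ρ : G →* (V ≃ₗ[F] V)} (hM : MinCE ρ p) (P : Sylow p G)
    (A : Subgroup (P : Subgroup G)) (hA : A.Normal) (hc : IsMulCommutative A) : IsCyclic A := by
  classical
  by_contra hnc
  have hpp := hp.out
  have hPp : IsPGroup p (P : Subgroup G) := P.isPGroup'
  have hAp : IsPGroup p A := hPp.to_subgroup A
  have hcomm : ∀ a ∈ A, ∀ b ∈ A, a * b = b * a := by
    intro a ha b hb
    have := hc.is_comm.comm ⟨a, ha⟩ ⟨b, hb⟩
    exact congrArg Subtype.val this
  obtain ⟨B, hBn, hBp, hBc⟩ := Cfsg.Agent.Lib.PGroups.NormalRankTwo.exists_card_sq_of_comm hAp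
    (fun a b => hc.is_comm.comm a b) hnc
  let K : Subgroup (P : Subgroup G) :=
    { carrier := {x | x ∈ A ∧ x ^ p = 1}
      mul_mem' := by
        rintro a b ⟨ha, ha1⟩ ⟨hb, hb1⟩
        refine ⟨A.mul_mem ha hb, ?_⟩
        rw [(show Commute a b from hcomm a ha b hb).mul_pow, ha1, hb1, one_mul]
      one_mem' := ⟨A.one_mem, one_pow _⟩
      inv_mem' := by
        rintro a ⟨ha, ha1⟩
        exact ⟨A.inv_mem ha, by rw [inv_pow, ha1, inv_one]⟩ }
  have hKmem : ∀ x, x ∈ K ↔ x ∈ A ∧ x ^ p = 1 := fun x => Iff.rfl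
  have hKn : K.Normal := by
    refine ⟨?_⟩
    rintro x ⟨hx, hx1⟩ g
    refine ⟨hA.conj_mem x hx g, ?_⟩
    rw [conj_pow, hx1, mul_one, mul_inv_cancel]
  have hKdvd : p ^ 2 ∣ Nat.card K := by
    have h1 : B.map A.subtype ≤ K := by
      rintro _ ⟨b, hb, rfl⟩
      refine ⟨b.2, ?_⟩
      have := hBp b hb
      simpa using congrArg Subtype.val this
    have h2 := Subgroup.card_dvd_of_le h1
    rwa [Subgroup.card_map_of_injective A.subtype_injective, hBc] at h2
  obtain ⟨E, hEn, hEK, hEc⟩ :=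
    Cfsg.Agent.Lib.PGroups.NormalRankTwo.exists_normal_le_card_eq hPp K 2 hKdvd
  have hE1d : p ^ 1 ∣ Nat.card E := by
    rw [hEc]
    exact pow_dvd_pow p (by norm_num)
  obtain ⟨E1, hE1n, hE1E, hE1c⟩ :=
    Cfsg.Agent.Lib.PGroups.NormalRankTwo.exists_normal_le_card_eq hPp E 1 hE1d
  rw [pow_one] at hE1c
  have hE1z : E1 ≤ Subgroup.center _ := Cfsg.Agent.Lib.PGroups.Special.le_center_of_card_eq hPp E1 hE1c
  have hrel : E1.relIndex E = p := by
    have h1 := Cfsg.Agent.Lib.PGroups.MaxAbelian.relIndex_mul_card hE1E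
    rw [hEc, hE1c, pow_two] at h1
    exact Nat.eq_of_mul_eq_mul_right hpp.pos h1
  -- elements
  haveI : Nontrivial E1 := by
    rw [← Finite.one_lt_card_iff_nontrivial, hE1c]
    exact hpp.one_lt
  obtain ⟨z', hz'⟩ := exists_ne (1 : E1)
  have hz'1 : (z' : (P : Subgroup G)) ≠ 1 := fun h => hz' (Subtype.ext h)
  have hE1zp : E1 = Subgroup.zpowers (z' : (P : Subgroup G)) := by
    symm
    refine Subgroup.eq_of_le_of_card_ge ((Subgroup.zpowers_le).mpr z'.2) ?_
    rw [hE1c, Nat.card_zpowers]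
    have hd : orderOf (z' : (P : Subgroup G)) ∣ p := by
      have h := orderOf_dvd_natCard z'
      rw [hE1c] at h
      simpa using h
    rcases (Nat.dvd_prime hpp).mp hd with h | h
    · exact absurd (orderOf_eq_one_iff.mp h) hz'1
    · exact h.ge
  obtain ⟨e', he'E, he'1⟩ : ∃ e' ∈ E, e' ∉ E1 := by
    by_contra hcon
    push Not at hcon
    have h1 : E ≤ E1 := hcon
    have h2 := Subgroup.card_le_of_le h1
    rw [hEc, hE1c] at h2
    have h3 : p ^ 2 = p * p := by ring
    have h4 := hpp.one_lt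
    nlinarith
  have he'K := hEK he'E
  have hz'K := hEK (hE1E z'.2)
  refine no_elem hM P (z' : (P : Subgroup G)) (e' : (P : Subgroup G)) ?_ ?_ ?_ ?_ ?_ ?_ ?_
  · intro u hu
    have h1 := (Subgroup.mem_center_iff.mp (hE1z z'.2)) ⟨u, hu⟩
    exact congrArg Subtype.val h1
  · intro h
    exact hz'1 (Subtype.ext h)
  · have := hz'K.2
    exact congrArg Subtype.val this
  · have := he'K.2
    exact congrArg Subtype.val this
  · have := hcomm _ hz'K.1 _ he'K.1
    exact congrArg Subtype.val this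
  · intro j h
    apply he'1
    have h1 : e' = (z' : (P : Subgroup G)) ^ j.val := Subtype.ext (by simpa using h)
    rw [h1]
    exact pow_mem z'.2 _
  · intro u hu
    have h1 := Cfsg.Agent.Lib.PGroups.MaxAbelian.comm_mem_of_relIndex_eq hPp hrel (E.inv_mem he'E) ⟨u, hu⟩
    rw [hE1zp, Subgroup.mem_zpowers_iff] at h1
    obtain ⟨k, hk⟩ := h1
    have hz'p : (z' : (P : Subgroup G)) ^ p = 1 := hz'K.2
    refine ⟨(k : ZMod p), ?_⟩
    have h2 : (z' : (P : Subgroup G)) ^ k = (z' : (P : Subgroup G)) ^ ((k : ZMod p).val) := by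
      rw [← zpow_natCast, ZMod.val_intCast]
      exact zpow_eq_zpow_emod k (by exact_mod_cast hz'p)
    rw [h2] at hk
    have h3 : ((z' : (P : Subgroup G)) ^ ((k : ZMod p).val) : (P : Subgroup G)) =
      (e' : (P : Subgroup G))⁻¹ * ⟨u, hu⟩ * e' * (⟨u, hu⟩ : (P : Subgroup G))⁻¹ := by
      rw [hk, commutatorElement_def, inv_inv]
    have h4 := congrArg Subtype.val h3
    simp only [Subgroup.coe_pow, Subgroup.coe_mul, Subgroup.coe_inv] at h4
    rw [h4]
    group

end Cfsg.Agent.Lib.QBaer.Elem
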