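import Mathlib

/-!
# Additive maps preserving a norm up to sign
-/

set_option autoImplicit false
set_option linter.unusedSectionVars false
set_option linter.unusedVariables false
set_option linter.style.haveILetI false
set_option linter.unusedSimpArgs false

namespace Cfsg.Agent.Lib.QBaer.Norm

theorem six_term_bool : ∀ p1 p2 p3 a b c d e f g k : Bool,
   ((p1 == p3) == (a == b)) = true →
   ((p2 == p3) == (c == d)) = true →
   ((p1 == c) == (e == f)) = true →
   ((p1 == d) == (g == k)) = true →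
   ((p2 == a) == (e == k)) = true →
   ((p2 == b) == (g == f)) = true → (p1 == p2) = true := by
  decide

theorem six_term (p1 p2 p3 a b c d e f g k : Prop)
    (h1 : (p1 ↔ p3) ↔ (a ↔ b)) (h2 : (p2 ↔ p3) ↔ (c ↔ d)) (h3 : (p1 ↔ c) ↔ (e ↔ f))
    (h4 : (p1 ↔ d) ↔ (g ↔ k)) (h5 : (p2 ↔ a) ↔ (e ↔ k)) (h6 : (p2 ↔ b) ↔ (g ↔ f)) : p1 ↔ p2 := by
  classical
  have key : ∀ P Q : Prop, (((decide P) == (decide Q)) = true) ↔ (P ↔ Q) := by
    intro P Q
    by_cases hP : P <;> by_cases hQ : Q <;> simp [hP, hQ]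
  have key2 : ∀ P Q R S : Prop, ((((decide P) == (decide Q)) == ((decide R) == (decide S))) = true) ↔
      ((P ↔ Q) ↔ (R ↔ S)) := by
    intro P Q R S
    by_cases hP : P <;> by_cases hQ : Q <;> by_cases hR : R <;> by_cases hS : S <;> simp [hP, hQ, hR, hS]
  exact (key _ _).mp (six_term_bool (decide p1) (decide p2) (decide p3) (decide a) (decide b)
    (decide c) (decide d) (decide e) (decide f) (decide g) (decide k)
    ((key2 _ _ _ _).mpr h1) ((key2 _ _ _ _).mpr h2) ((key2 _ _ _ _).mpr h3)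
    ((key2 _ _ _ _).mpr h4) ((key2 _ _ _ _).mpr h5) ((key2 _ _ _ _).mpr h6))

section Rel

variable {K : Type*} [Field K]

theorem sign_rel {A B C D A' B' C' D' : K} (h2 : (2 : K) ≠ 0) (hA : A ≠ 0) (hB : B ≠ 0) (hC : C ≠ 0)
    (hD : D ≠ 0) (p : A + B = 2 * C + 2 * D) (p' : A' + B' = 2 * C' + 2 * D')
    (sA : A' = A ∨ A' = -A) (sB : B' = B ∨ B' = -B) (sC : C' = C ∨ C' = -C)
    (sD : D' = D ∨ D' = -D) : (C' = C ↔ D' = D) ↔ (A' = A ↔ B' = B) := by
  have hn : ∀ {X : K}, X ≠ 0 → -X ≠ X := by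
    intro X hX h
    have : 2 * X = 0 := by linear_combination -h
    exact hX ((mul_eq_zero.mp this).resolve_left h2)
  have h4 : (4 : K) ≠ 0 := by
    have : (4 : K) = 2 * 2 := by norm_num
    rw [this]
    exact mul_ne_zero h2 h2
  have two : ∀ {X : K}, X ≠ 0 → 2 * X ≠ 0 := fun hX => mul_ne_zero h2 hX
  have four : ∀ {X : K}, X ≠ 0 → 4 * X ≠ 0 := fun hX => mul_ne_zero h4 hX
  have nA := hn hA
  have nB := hn hB
  have nC := hn hC
  have nD := hn hD
  rcases sA with rfl | rfl <;> rcases sB with rfl | rfl <;> rcases sC with rfl | rfl <;>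
    rcases sD with rfl | rfl <;> simp only [nA, nB, nC, nD, iff_true, iff_false, not_true_eq_false,
      true_iff, false_iff, not_false_eq_true] <;> first
    | done
    | exact two hA (by linear_combination p - p')
    | exact two hA (by linear_combination p + p')
    | exact two hA (by linear_combination -p + p')
    | exact two hB (by linear_combination p - p')
    | exact two hB (by linear_combination p + p')
    | exact two hB (by linear_combination -p + p')
    | exact four hC (by linear_combination p - p')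
    | exact four hC (by linear_combination p + p')
    | exact four hC (by linear_combination -p + p')
    | exact four hC (by linear_combination -p - p')
    | exact four hD (by linear_combination p - p')
    | exact four hD (by linear_combination p + p')
    | exact four hD (by linear_combination -p + p')
    | exact four hD (by linear_combination -p - p')

end Rel

section Main

variable {F K : Type*} [Field F] [Field K] [Algebra F K]

/-- The norm attached to an algebra endomorphism. -/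
def NN (σ : K →ₐ[F] K) (x : K) : K := x * σ x

theorem NN_def (σ : K →ₐ[F] K) (x : K) : NN σ x = x * σ x := rfl

theorem NN_eq_zero (σ : K →ₐ[F] K) {x : K} : NN σ x = 0 ↔ x = 0 := by
  rw [NN_def, mul_eq_zero]
  constructor
  · rintro (h | h)
    · exact h
    · exact (map_eq_zero σ).mp h
  · intro h
    exact Or.inl h

theorem NN_ne_zero (σ : K →ₐ[F] K) {x : K} (hx : x ≠ 0) : NN σ x ≠ 0 := fun h =>
  hx ((NN_eq_zero σ).mp h)

theorem NN_mul (σ : K →ₐ[F] K) (x y : K) : NN σ (x * y) = NN σ x * NN σ y := by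
  simp only [NN_def, map_mul]
  ring

theorem NN_one (σ : K →ₐ[F] K) : NN σ 1 = 1 := by
  simp [NN_def]

theorem NN_neg (σ : K →ₐ[F] K) (x : K) : NN σ (-x) = NN σ x := by
  simp only [NN_def, map_neg]
  ring

theorem NN_para (σ : K →ₐ[F] K) (u w : K) :
    NN σ (u + w) + NN σ (u - w) = 2 * NN σ u + 2 * NN σ w := by
  simp only [NN_def, map_add, map_sub]
  ring

theorem NN_add_smul (σ : K →ₐ[F] K) (x y : K) (c : F) :
    NN σ (x + c • y) = NN σ x + algebraMap F K c * (x * σ y + y * σ x) +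
      (algebraMap F K c) ^ 2 * NN σ y := by
  have h1 : σ (c • y) = c • σ y := map_smul σ c y
  simp only [NN_def, map_add]
  rw [h1]
  simp only [Algebra.smul_def]
  ring

theorem NN_smul (σ : K →ₐ[F] K) (y : K) (c : F) :
    NN σ (c • y) = (algebraMap F K c) ^ 2 * NN σ y := by
  have h1 : σ (c • y) = c • σ y := map_smul σ c y
  simp only [NN_def]
  rw [h1]
  simp only [Algebra.smul_def]
  ring

variable (σ : K →ₐ[F] K) (h : K →ₗ[F] K)

/-- Two scalars with a `+` sign coincide. -/
theorem scalar_pos (h2 : (2 : K) ≠ 0) {x y : K} (hy : y ≠ 0) (hx : NN σ (h x) = NN σ x)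
    (hyn : NN σ (h y) = -NN σ y) {c1 c2 : F} (hc1 : c1 ≠ 0) (hc2 : c2 ≠ 0)
    (h1 : NN σ (h (x + c1 • y)) = NN σ (x + c1 • y)) (h3 : NN σ (h (x + c2 • y)) = NN σ (x + c2 • y)) :
    c1 = c2 := by
  rw [map_add, map_smul] at h1 h3
  rw [NN_add_smul, NN_add_smul, hx, hyn] at h1 h3
  set a1 := algebraMap F K c1 with ha1
  set a2 := algebraMap F K c2 with ha2
  have ha1' : a1 ≠ 0 := by
    rw [ha1]
    exact (map_ne_zero _).mpr hc1
  have ha2' : a2 ≠ 0 := by
    rw [ha2]
    exact (map_ne_zero _).mpr hc2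
  set B' := h x * σ (h y) + h y * σ (h x)
  set B := x * σ y + y * σ x
  have e1 : B' - B = 2 * a1 * NN σ y := by
    apply mul_left_cancel₀ ha1'
    linear_combination h1
  have e2 : B' - B = 2 * a2 * NN σ y := by
    apply mul_left_cancel₀ ha2'
    linear_combination h3
  have e3 : a1 = a2 := by
    have e4 : (2 * NN σ y) * a1 = (2 * NN σ y) * a2 := by
      linear_combination e2 - e1
    exact mul_left_cancel₀ (mul_ne_zero h2 (NN_ne_zero σ hy)) e4
  exact (algebraMap F K).injective e3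

/-- Two scalars with a `-` sign coincide. -/
theorem scalar_neg (h2 : (2 : K) ≠ 0) {x y : K} (hx0 : x ≠ 0) (hx : NN σ (h x) = NN σ x)
    (hyn : NN σ (h y) = -NN σ y) {c1 c2 : F}
    (h1 : NN σ (h (x + c1 • y)) = -NN σ (x + c1 • y)) (h3 : NN σ (h (x + c2 • y)) = -NN σ (x + c2 • y)) :
    c1 = c2 := by
  rw [map_add, map_smul] at h1 h3
  rw [NN_add_smul, NN_add_smul, hx, hyn] at h1 h3
  set a1 := algebraMap F K c1 with ha1
  set a2 := algebraMap F K c2 with ha2
  set B' := h x * σ (h y) + h y * σ (h x)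
  set B := x * σ y + y * σ x
  have e1 : a1 * (B' + B) = -(2 * NN σ x) := by
    linear_combination h1
  have e2 : a2 * (B' + B) = -(2 * NN σ x) := by
    linear_combination h3
  have hne : B' + B ≠ 0 := by
    intro h0
    rw [h0, mul_zero] at e1
    exact mul_ne_zero h2 (NN_ne_zero σ hx0) (neg_eq_zero.mp e1.symm)
  have e3 : a1 = a2 := mul_right_cancel₀ hne (e1.trans e2.symm)
  exact (algebraMap F K).injective e3

variable (hN : ∀ x, NN σ (h x) = NN σ x ∨ NN σ (h x) = -NN σ x)

include hN in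
theorem rel (h2 : (2 : K) ≠ 0) {u w : K} (hu : u ≠ 0) (hw : w ≠ 0) (h3 : u + w ≠ 0) (h4 : u - w ≠ 0) :
    (NN σ (h u) = NN σ u ↔ NN σ (h w) = NN σ w) ↔
      (NN σ (h (u + w)) = NN σ (u + w) ↔ NN σ (h (u - w)) = NN σ (u - w)) := by
  refine sign_rel h2 (NN_ne_zero σ h3) (NN_ne_zero σ h4) (NN_ne_zero σ hu) (NN_ne_zero σ hw)
    (NN_para σ u w) ?_ (hN _) (hN _) (hN _) (hN _)
  rw [map_add, map_sub]
  exact NN_para σ _ _

include hN in
/-- Constancy of the sign, with a small exception. -/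
theorem sign_const (h2 : (2 : K) ≠ 0) {x y : K} (hx0 : x ≠ 0) (hy0 : y ≠ 0)
    (hx : NN σ (h x) = NN σ x) (hy : NN σ (h y) = -NN σ y)
    (hsmall : (∀ c : F, c = 0 ∨ c = 1 ∨ c = -1) → ∃ z : K, ∀ a b : F, z ≠ a • x + b • y) : False := by
  have hneN : ∀ {X : K}, X ≠ 0 → -X ≠ X := by
    intro X hX h
    have : 2 * X = 0 := by linear_combination -h
    exact hX ((mul_eq_zero.mp this).resolve_left h2)
  have h2F : (2 : F) ≠ 0 := by
    intro h0
    apply h2
    have := congrArg (algebraMap F K) h0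
    rwa [map_ofNat, map_zero] at this
  have h1ne : (1 : F) ≠ -1 := by
    intro h0
    apply h2F
    linear_combination h0
  by_cases hc : ∀ c : F, c = 0 ∨ c = 1 ∨ c = -1
  · obtain ⟨z, hz⟩ := hsmall hc
    have hnz : ∀ a b c : F, (c = 1 ∨ c = -1) → a • x + b • y + c • z ≠ 0 := by
      intro a b c hc' h0
      rcases hc' with rfl | rfl
      · apply hz (-a) (-b)
        rw [one_smul] at h0
        have : z = -(a • x + b • y) := by
          rw [eq_neg_iff_add_eq_zero, add_comm]
          exact h0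
        rw [this]
        module
      · apply hz a b
        have : a • x + b • y - z = 0 := by
          rw [← h0]
          module
        exact (sub_eq_zero.mp this).symm
    have hz0 : z ≠ 0 := by simpa using hnz 0 0 1 (Or.inl rfl)
    have n1 : x + z ≠ 0 := by simpa using hnz 1 0 1 (Or.inl rfl)
    have n2 : x - z ≠ 0 := by
      have := hnz 1 0 (-1) (Or.inr rfl)
      intro h0; apply this; rw [← h0]; module
    have n3 : y + z ≠ 0 := by simpa using hnz 0 1 1 (Or.inl rfl)
    have n4 : y - z ≠ 0 := by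
      have := hnz 0 1 (-1) (Or.inr rfl)
      intro h0; apply this; rw [← h0]; module
    have n5 : x + (y + z) ≠ 0 := by
      have := hnz 1 1 1 (Or.inl rfl)
      intro h0; apply this; rw [← h0]; module
    have n6 : x - (y + z) ≠ 0 := by
      have := hnz 1 (-1) (-1) (Or.inr rfl)
      intro h0; apply this; rw [← h0]; module
    have n7 : x + (y - z) ≠ 0 := by
      have := hnz 1 1 (-1) (Or.inr rfl)
      intro h0; apply this; rw [← h0]; module
    have n8 : x - (y - z) ≠ 0 := by
      have := hnz 1 (-1) 1 (Or.inl rfl)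
      intro h0; apply this; rw [← h0]; module
    have n9 : y + (x + z) ≠ 0 := by
      have := hnz 1 1 1 (Or.inl rfl)
      intro h0; apply this; rw [← h0]; module
    have n10 : y - (x + z) ≠ 0 := by
      have := hnz (-1) 1 (-1) (Or.inr rfl)
      intro h0; apply this; rw [← h0]; module
    have n11 : y + (x - z) ≠ 0 := by
      have := hnz 1 1 (-1) (Or.inr rfl)
      intro h0; apply this; rw [← h0]; module
    have n12 : y - (x - z) ≠ 0 := by
      have := hnz (-1) 1 1 (Or.inl rfl)
      intro h0; apply this; rw [← h0]; module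
    let s : K → Prop := fun u => NN σ (h u) = NN σ u
    have hsneg : ∀ u, s (-u) ↔ s u := by
      intro u
      change NN σ (h (-u)) = NN σ (-u) ↔ NN σ (h u) = NN σ u
      rw [map_neg, NN_neg, NN_neg]
    have R1 : (s x ↔ s z) ↔ (s (x + z) ↔ s (x - z)) := rel σ h hN h2 hx0 hz0 n1 n2
    have R2 : (s y ↔ s z) ↔ (s (y + z) ↔ s (y - z)) := rel σ h hN h2 hy0 hz0 n3 n4
    have R3 : (s x ↔ s (y + z)) ↔ (s (x + (y + z)) ↔ s (x - (y + z))) :=
      rel σ h hN h2 hx0 n3 n5 n6
    have R4 : (s x ↔ s (y - z)) ↔ (s (x + (y - z)) ↔ s (x - (y - z))) :=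
      rel σ h hN h2 hx0 n4 n7 n8
    have R5 : (s y ↔ s (x + z)) ↔ (s (y + (x + z)) ↔ s (y - (x + z))) :=
      rel σ h hN h2 hy0 n1 n9 n10
    have R6 : (s y ↔ s (x - z)) ↔ (s (y + (x - z)) ↔ s (y - (x - z))) :=
      rel σ h hN h2 hy0 n2 n11 n12
    have e1 : y + (x + z) = x + (y + z) := by abel
    have e2 : y + (x - z) = x + (y - z) := by abel
    have e3 : y - (x + z) = -(x - (y - z)) := by abel
    have e4 : y - (x - z) = -(x - (y + z)) := by abel
    rw [e1, e3, hsneg] at R5
    rw [e2, e4, hsneg] at R6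
    have key := six_term (s x) (s y) (s z) (s (x + z)) (s (x - z)) (s (y + z)) (s (y - z))
      (s (x + (y + z))) (s (x - (y + z))) (s (x + (y - z))) (s (x - (y - z))) R1 R2 R3 R4 R5 R6
    have h5 : s y := key.mp hx
    change NN σ (h y) = NN σ y at h5
    rw [hy] at h5
    exact hneN (NN_ne_zero σ hy0) h5
  · push Not at hc
    obtain ⟨c, hc0, hc1, hc2⟩ := hc
    have hpair : ∀ c1 c2 c3 : F, c1 ≠ 0 → c2 ≠ 0 → c3 ≠ 0 → c1 ≠ c2 → c1 ≠ c3 → c2 ≠ c3 → False := by
      intro c1 c2 c3 h1 h3 h4 h12 h13 h23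
      have p := scalar_pos σ h h2 hy0 hx hy (c1 := c1) (c2 := c2) h1 h3
      have p' := scalar_pos σ h h2 hy0 hx hy (c1 := c1) (c2 := c3) h1 h4
      have p'' := scalar_pos σ h h2 hy0 hx hy (c1 := c2) (c2 := c3) h3 h4
      have q := scalar_neg σ h h2 hx0 hx hy (c1 := c1) (c2 := c2)
      have q' := scalar_neg σ h h2 hx0 hx hy (c1 := c1) (c2 := c3)
      have q'' := scalar_neg σ h h2 hx0 hx hy (c1 := c2) (c2 := c3)
      rcases hN (x + c1 • y) with a1 | a1 <;> rcases hN (x + c2 • y) with a2 | a2 <;>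
        rcases hN (x + c3 • y) with a3 | a3
      · exact h12 (p a1 a2)
      · exact h12 (p a1 a2)
      · exact h13 (p' a1 a3)
      · exact h23 (q'' a2 a3)
      · exact h23 (p'' a2 a3)
      · exact h13 (q' a1 a3)
      · exact h12 (q a1 a2)
      · exact h12 (q a1 a2)
    exact hpair 1 (-1) c one_ne_zero (neg_ne_zero.mpr one_ne_zero) hc0 h1ne (Ne.symm hc1) (Ne.symm hc2)

include hN in
/-- The main statement. -/
theorem norm_main (h2 : (2 : K) ≠ 0) :
    (∃ b : K, (∀ x, h x = b * x) ∨ (∀ x, h x = b * σ x)) ∨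
    ((∀ c : F, c = 0 ∨ c = 1 ∨ c = -1) ∧ ∃ x y : K, x ≠ 0 ∧ (∀ a : F, y ≠ a • x) ∧
      ∀ z, ∃ a b : F, z = a • x + b • y) := by
  have hneN : ∀ {X : K}, X ≠ 0 → -X ≠ X := by
    intro X hX h
    have : 2 * X = 0 := by linear_combination -h
    exact hX ((mul_eq_zero.mp this).resolve_left h2)
  by_cases hexc : ((∀ c : F, c = 0 ∨ c = 1 ∨ c = -1) ∧ ∃ x y : K, x ≠ 0 ∧ (∀ a : F, y ≠ a • x) ∧
      ∀ z, ∃ a b : F, z = a • x + b • y)
  · exact Or.inr hexc
  left
  have hconst : ∀ x y : K, x ≠ 0 → y ≠ 0 → NN σ (h x) = NN σ x → NN σ (h y) = -NN σ y → False := by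
    intro x y hx0 hy0 hx hy
    refine sign_const σ h hN h2 hx0 hy0 hx hy ?_
    intro hc
    by_contra hcon
    push Not at hcon
    apply hexc
    refine ⟨hc, x, y, hx0, ?_, hcon⟩
    rintro a rfl
    rw [map_smul, NN_smul, NN_smul, hx] at hy
    have hne : (algebraMap F K a) ^ 2 * NN σ x ≠ 0 := by
      intro h0
      rw [← NN_smul] at h0
      exact hy0 ((NN_eq_zero σ).mp h0)
    exact hneN hne hy.symm
  -- the sign
  obtain ⟨ε, hε, hεN⟩ : ∃ ε : K, ε * ε = 1 ∧ ∀ x, NN σ (h x) = ε * NN σ x := by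
    by_cases hall : ∀ x, NN σ (h x) = NN σ x
    · exact ⟨1, one_mul 1, fun x => by rw [one_mul]; exact hall x⟩
    · push Not at hall
      obtain ⟨x0, hx0⟩ := hall
      have hx00 : x0 ≠ 0 := by
        rintro rfl
        apply hx0
        simp [NN_def]
      have hx1 := (hN x0).resolve_left hx0
      refine ⟨-1, by ring, ?_⟩
      intro y
      by_cases hy0 : y = 0
      · subst hy0
        simp [NN_def]
      rcases hN y with hy | hy
      · exact (hconst y x0 hy0 hx00 hy hx1).elim
      · rw [hy]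
        ring
  have hεne : ε ≠ 0 := by
    rintro rfl
    simp at hε
  have hb1 : NN σ (h 1) = ε := by
    rw [hεN, NN_one, mul_one]
  have hb0 : h 1 ≠ 0 := by
    intro h0
    rw [h0] at hb1
    simp [NN_def] at hb1
    exact hεne hb1.symm
  set b := h 1 with hb
  have hhat : ∀ x, NN σ (b⁻¹ * h x) = NN σ x := by
    intro x
    have h3 : NN σ b⁻¹ * ε = 1 := by
      rw [← hb1, ← NN_mul, inv_mul_cancel₀ hb0, NN_one]
    rw [NN_mul, hεN, ← mul_assoc, h3, one_mul]
  have hadd : ∀ x w, h (x + w) = h x + h w := map_add h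
  have htr : ∀ x, (b⁻¹ * h x) + σ (b⁻¹ * h x) = x + σ x := by
    intro x
    have h3 := hhat (x + 1)
    have h4 : b⁻¹ * h (x + 1) = b⁻¹ * h x + 1 := by
      rw [hadd, mul_add, ← hb, inv_mul_cancel₀ hb0]
    rw [h4] at h3
    have h5 := hhat x
    simp only [NN_def, map_add, map_one] at h3 h5
    linear_combination h3 - h5
  have hor : ∀ x, b⁻¹ * h x = x ∨ b⁻¹ * h x = σ x := by
    intro x
    have h3 := hhat x
    have h4 := htr x
    simp only [NN_def] at h3
    have h5 : (b⁻¹ * h x - x) * (b⁻¹ * h x - σ x) = 0 := by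
      linear_combination (b⁻¹ * h x) * h4 - h3
    rcases mul_eq_zero.mp h5 with h6 | h6
    · exact Or.inl (sub_eq_zero.mp h6)
    · exact Or.inr (sub_eq_zero.mp h6)
  refine ⟨b, ?_⟩
  have hmul : ∀ x u, b⁻¹ * h x = u → h x = b * u := by
    intro x u hu
    rw [← hu, mul_inv_cancel_left₀ hb0]
  by_cases hall : ∀ x, b⁻¹ * h x = x
  · exact Or.inl (fun x => hmul x x (hall x))
  · right
    push Not at hall
    obtain ⟨x0, hx0⟩ := hall
    have hx1 := (hor x0).resolve_left hx0
    intro x1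
    refine hmul x1 _ ?_
    by_contra hne
    have hx2 := (hor x1).resolve_right hne
    rcases hor (x0 + x1) with h3 | h3
    · rw [hadd, mul_add, hx1, hx2] at h3
      apply hx0
      rw [hx1]
      exact add_right_cancel h3
    · rw [hadd, mul_add, hx1, hx2, map_add] at h3
      apply hne
      rw [hx2]
      exact add_left_cancel h3

end Main

end Cfsg.Agent.Lib.QBaer.Norm
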