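import Cfsg.Agent.Lib.QBaer.CyclicCase
import Cfsg.Agent.Lib.QBaer.Norm

/-!
# The case of noncyclic Sylow 2-subgroups in a minimal counterexample
-/

set_option autoImplicit false
set_option linter.unusedSectionVars false
set_option linter.unusedVariables false
set_option linter.style.haveILetI false
set_option linter.unusedSimpArgs false

namespace Cfsg.Agent.Lib.QBaer.Exotic

open Module Cfsg Cfsg.Agent.Lib.Kazarin.Main Cfsg.Agent.Lib.QBaer.StarBase Cfsg.Agent.Lib.QBaer.Reduce
  Cfsg.Agent.Lib.QBaer.System Cfsg.Agent.Lib.QBaer.Elem Cfsg.Agent.Lib.QBaer.Norm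

universe u v w

section FieldExist

variable {F : Type w} {V : Type v} [Field F] [AddCommGroup V] [Module F V] [Finite V] [Nontrivial V]

theorem exists_field (t : End F V)
    (hinj : ∀ x ∈ Algebra.adjoin F {t}, x ≠ 0 → Function.Injective x) :
    ∃ (K : Type v) (_ : Field K) (_ : Algebra F K) (ι : K →ₐ[F] End F V),
      Function.Injective ι ∧ ∀ x, x ∈ Set.range ι ↔ x ∈ Algebra.adjoin F {t} := by
  classical
  let K0 := Algebra.adjoin F {t}
  have hc : ∀ x y : K0, x * y = y * x := by
    have := Algebra.isMulCommutative_adjoin F (s := {t}) (by simp)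
    exact fun x y => this.is_comm.comm x y
  letI c : CommRing K0 := { (inferInstance : Ring K0) with mul_comm := hc }
  haveI : Finite (End F V) := DFunLike.finite _
  have hne : ∃ x y : K0, x ≠ y := by
    refine ⟨1, 0, ?_⟩
    intro h
    have h1 : (1 : End F V) = 0 := congrArg Subtype.val h
    obtain ⟨v, hv⟩ := exists_ne (0 : V)
    apply hv
    have := congrArg (fun f : End F V => f v) h1
    simpa using this
  have hinv : ∀ x : K0, x ≠ 0 → ∃ y : K0, x * y = 1 := by
    intro x hx
    have hx' : (x : End F V) ≠ 0 := fun h => hx (Subtype.ext h)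
    have h1 : Function.Injective (fun y : K0 => x * y) := by
      intro u w h
      have h2 : (x : End F V) * u = x * w := congrArg Subtype.val h
      apply Subtype.ext
      ext v
      have h3 := congrArg (fun f : End F V => f v) h2
      exact hinj x x.2 hx' h3
    obtain ⟨y, hy⟩ := (Finite.injective_iff_surjective.mp h1) 1
    exact ⟨y, hy⟩
  have hf : IsField K0 := ⟨hne, hc, fun {x} hx => hinv x hx⟩
  letI f : Field K0 := hf.toField
  letI alg : Algebra F K0 := inferInstanceAs (Algebra F (Algebra.adjoin F {t}))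
  refine ⟨K0, f, alg, K0.val, Subtype.val_injective, ?_⟩
  intro x
  constructor
  · rintro ⟨y, rfl⟩
    exact y.2
  · intro hx
    exact ⟨⟨x, hx⟩, rfl⟩

/-- Elements of the algebra generated by `t` commute with `t`. -/
theorem adjoin_comm (t x : End F V) (hx : x ∈ Algebra.adjoin F {t}) : x * t = t * x := by
  induction hx using Algebra.adjoin_induction with
  | mem y hy =>
    rw [Set.mem_singleton_iff.mp hy]
  | algebraMap r =>
    exact (Algebra.commutes r t)
  | add y w _ _ h1 h2 =>
    rw [add_mul, mul_add, h1, h2]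
  | mul y w _ _ h1 h2 =>
    rw [mul_assoc, h2, ← mul_assoc, h1, mul_assoc]

end FieldExist

theorem zmod2_cases : ∀ i : ZMod 2, i = 0 ∨ i = 1 := by decide

theorem zmod2_ne : ∀ i j : ZMod 2, j ≠ i → j = i + 1 := by decide

section Small

variable {F : Type w} {V : Type v} {G : Type u} [Field F] [AddCommGroup V] [Module F V] [Group G]
  [Finite G]

/-- The exceptional case of dimension two over the field of three elements. -/
theorem small_case {ρ : G →* (V ≃ₗ[F] V)} (hM : MinCE ρ 2) (hc : ∀ c : F, c = 0 ∨ c = 1 ∨ c = -1)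
    {v1 v2 : V} (h1 : v1 ≠ 0) (h2 : ∀ a : F, v2 ≠ a • v1) (h3 : ∀ v, ∃ a b : F, v = a • v1 + b • v2) :
    False := by
  classical
  haveI : Fact (Nat.Prime 2) := ⟨Nat.prime_two⟩
  let W : Submodule F V := Submodule.span F {v1}
  let T := stabS ρ v1
  have hTW : ∀ t ∈ T, ∀ w ∈ W, ρ t w = w := by
    intro t ht w hw
    obtain ⟨c, rfl⟩ := Submodule.mem_span_singleton.mp hw
    rw [map_smul, mem_stabS.mp ht]
  have hform : ∀ t ∈ T, ρ t v2 - v2 ∈ W ∨ ρ t v2 + v2 ∈ W := by
    intro t ht
    obtain ⟨a, b, hab⟩ := h3 (ρ t v2)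
    have hb : b ≠ 0 := by
      rintro rfl
      rw [zero_smul, add_zero] at hab
      have h4 : ρ t v2 = ρ t (a • v1) := by
        rw [map_smul, mem_stabS.mp ht]
        exact hab
      exact h2 a ((ρ t).injective h4)
    rcases hc b with h | h | h
    · exact absurd h hb
    · left
      subst h
      rw [hab, one_smul, add_sub_cancel_right]
      exact Submodule.smul_mem _ _ (Submodule.mem_span_singleton_self v1)
    · right
      subst h
      rw [hab, neg_smul, one_smul, neg_add_cancel_right]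
      exact Submodule.smul_mem _ _ (Submodule.mem_span_singleton_self v1)
  have huniq : ∀ t1 ∈ T, ∀ t2 ∈ T, ρ t2 v2 - ρ t1 v2 ∈ W → t1 = t2 := by
    intro t1 ht1 t2 ht2 h
    have hinv : t1⁻¹ ∈ T := T.inv_mem ht1
    have hone : t1⁻¹ * t2 = 1 := by
      refine eq_one_of_trivial_on hM.star W ?_ ?_
      · intro w hw
        rw [rho_mul, hTW t2 ht2 w hw, hTW _ hinv w hw]
      · intro v
        obtain ⟨a, b, rfl⟩ := h3 v
        have h4 : ρ (t1⁻¹ * t2) v1 = v1 := by
          rw [rho_mul, mem_stabS.mp ht2, mem_stabS.mp hinv]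
        have h5 : ρ (t1⁻¹ * t2) v2 - v2 ∈ W := by
          have h6 : ρ (t1⁻¹ * t2) v2 - v2 = ρ t1⁻¹ (ρ t2 v2 - ρ t1 v2) := by
            rw [map_sub, rho_mul, rho_inv_rho]
          rw [h6, hTW _ hinv _ h]
          exact h
        rw [map_add, map_smul, map_smul, h4]
        have h7 : a • v1 + b • ρ (t1⁻¹ * t2) v2 - (a • v1 + b • v2) =
            b • (ρ (t1⁻¹ * t2) v2 - v2) := by
          rw [smul_sub]
          abel
        rw [h7]
        exact Submodule.smul_mem _ _ h5
    exact (inv_mul_eq_one.mp hone)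
  let f : T → Prop := fun t => ρ (t : G) v2 - v2 ∈ W
  have hf : Function.Injective f := by
    intro t1 t2 hft
    apply Subtype.ext
    apply huniq _ t1.2 _ t2.2
    by_cases h4 : f t1
    · have h5 : f t2 := by rw [← hft]; exact h4
      have h6 : ρ (t2 : G) v2 - ρ (t1 : G) v2 = (ρ (t2 : G) v2 - v2) - (ρ (t1 : G) v2 - v2) := by abel
      rw [h6]
      exact W.sub_mem h5 h4
    · have h5 : ¬ f t2 := by rw [← hft]; exact h4
      have h7 := (hform _ t1.2).resolve_left h4
      have h8 := (hform _ t2.2).resolve_left h5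
      have h6 : ρ (t2 : G) v2 - ρ (t1 : G) v2 = (ρ (t2 : G) v2 + v2) - (ρ (t1 : G) v2 + v2) := by abel
      rw [h6]
      exact W.sub_mem h8 h7
  have hcard : Nat.card T ≤ 2 := by
    have := Nat.card_le_card_of_injective f hf
    simpa using this
  obtain ⟨m, hm⟩ := hM.star.orb v1
  have hpT : ∃ k, Nat.card T = 2 ^ k := by
    have h0 : 0 < Nat.card T := Nat.card_pos
    interval_cases hh : Nat.card T
    · exact ⟨0, rfl⟩
    · exact ⟨1, rfl⟩
  obtain ⟨k, hk⟩ := hpT
  have hG : IsPGroup 2 G := by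
    refine IsPGroup.of_card (n := m + k) ?_
    have := Subgroup.index_mul_card T
    rw [hm, hk] at this
    rw [pow_add, this]
  apply hM.not_solv
  haveI := hG.isNilpotent
  infer_instance

end Small

section Main

variable {F : Type w} {V : Type v} {G : Type u} [Field F] [AddCommGroup V] [Module F V] [Group G]
  [Finite G] [Finite V]

/-- `⟨a⟩` acts irreducibly. -/
theorem a_irr {ρ : G →* (V ≃ₗ[F] V)} (hM : MinCE ρ 2) (P : Sylow 2 G) (a y : G)
    (hyP : y ∈ (P : Subgroup G)) (hcomm : ∀ k, (y * y) * a ^ k = a ^ k * (y * y))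
    (hyy : ∃ k : ℕ, y * y = a ^ k) {k : ℕ} (hk : y * a * y⁻¹ = a ^ k)
    (hgen : ∀ u ∈ (P : Subgroup G), ∃ i : ℕ, u = a ^ i ∨ u = a ^ i * y)
    (X : Submodule F V) (hX : ∀ w ∈ X, ρ a w ∈ X) (hX0 : X ≠ ⊥) : X = ⊤ := by
  classical
  haveI : Fact (Nat.Prime 2) := ⟨Nat.prime_two⟩
  haveI : Finite (Submodule F V) := Finite.of_injective (fun W => (W : Set V)) SetLike.coe_injective
  let S : Set (Submodule F V) := {W | W ≤ X ∧ (∀ w ∈ W, ρ a w ∈ W) ∧ W ≠ ⊥}
  have hSne : S.Nonempty := ⟨X, le_refl X, hX, hX0⟩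
  obtain ⟨W, hW⟩ := S.toFinite.exists_minimal hSne
  obtain ⟨⟨hWX, hWa, hW0⟩, hWmin⟩ := hW
  have hmin : ∀ W' : Submodule F V, W' ≤ W → (∀ w ∈ W', ρ a w ∈ W') → W' ≠ ⊥ → W' = W := by
    intro W' h1 h2 h3
    exact le_antisymm h1 (hWmin ⟨h1.trans hWX, h2, h3⟩ h1)
  have hWpow : ∀ (m : ℕ), ∀ w ∈ W, ρ (a ^ m) w ∈ W := by
    intro m
    induction m with
    | zero =>
      intro w hw
      rwa [pow_zero, rho_one]
    | succ n ih =>
      intro w hw
      rw [pow_succ', rho_mul]
      exact hWa _ (ih w hw)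
  -- conjugation by `y`
  have hk' : y⁻¹ * a * y = a ^ k := by
    have h1 : y⁻¹ * a * y = (y * y)⁻¹ * (y * a * y⁻¹) * (y * y) := by group
    rw [h1, hk, mul_assoc, ← hcomm k, inv_mul_cancel_left]
  let Wy : Submodule F V := W.map (ρ y : V →ₗ[F] V)
  have hWyI : ∀ w, w ∈ Wy ↔ ∃ v ∈ W, ρ y v = w := by
    intro w
    rw [Submodule.mem_map]
    rfl
  have hWya : ∀ w ∈ Wy, ρ a w ∈ Wy := by
    intro w hw
    obtain ⟨v, hv, rfl⟩ := (hWyI w).mp hw
    refine (hWyI _).mpr ⟨ρ (a ^ k) v, hWpow k v hv, ?_⟩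
    rw [← hk', ← rho_mul, ← rho_mul]
    congr 2
    group
  obtain ⟨m0, hm0⟩ := hyy
  have hyW : ∀ w ∈ Wy, ρ y w ∈ W := by
    intro w hw
    obtain ⟨v, hv, rfl⟩ := (hWyI w).mp hw
    rw [← rho_mul, hm0]
    exact hWpow m0 v hv
  have hWyy : ∀ w ∈ W, ρ y w ∈ Wy := fun w hw => (hWyI _).mpr ⟨w, hw, rfl⟩
  -- the sum is everything
  have hU : W ⊔ Wy = ⊤ := by
    have hinv : ∀ g, ∀ w ∈ W ⊔ Wy, ρ g w ∈ W ⊔ Wy := by
      intro g w hw
      refine hM.star.invariant P (W := W ⊔ Wy) ?_ g hw
      have ha : ∀ w ∈ W ⊔ Wy, ρ a w ∈ W ⊔ Wy := by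
        intro w hw
        obtain ⟨u, hu, v, hv, rfl⟩ := Submodule.mem_sup.mp hw
        rw [map_add]
        exact Submodule.add_mem_sup (hWa u hu) (hWya v hv)
      have hy : ∀ w ∈ W ⊔ Wy, ρ y w ∈ W ⊔ Wy := by
        intro w hw
        obtain ⟨u, hu, v, hv, rfl⟩ := Submodule.mem_sup.mp hw
        rw [map_add, add_comm]
        exact Submodule.add_mem_sup (hyW v hv) (hWyy u hu)
      have hap : ∀ (m : ℕ), ∀ w ∈ W ⊔ Wy, ρ (a ^ m) w ∈ W ⊔ Wy := by
        intro m
        induction m with
        | zero =>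
          intro w hw
          rwa [pow_zero, rho_one]
        | succ n ih =>
          intro w hw
          rw [pow_succ', rho_mul]
          exact ha _ (ih w hw)
      intro u hu w hw
      obtain ⟨i, hi | hi⟩ := hgen u hu
      · rw [hi]
        exact hap i w hw
      · rw [hi, rho_mul]
        exact hap i _ (hy w hw)
    refine (hM.irr _ hinv).resolve_left ?_
    intro h
    apply hW0
    rw [eq_bot_iff, ← h]
    exact le_sup_left
  by_cases hdisj : W ⊓ Wy = ⊥
  · -- a two-block system
    exfalso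
    have hZ := zmod2_cases
    have hZn := zmod2_ne
    let W' : ZMod 2 → Submodule F V := fun i => if i = 0 then W else Wy
    have hW'0 : W' 0 = W := rfl
    have hW'1 : W' 1 = Wy := rfl
    refine no_system hM P W' ?_ ?_ y ?_ ?_ ?_
    · intro i
      rw [disjoint_iff_inf_le]
      intro v hv
      obtain ⟨h1, h2⟩ := Submodule.mem_inf.mp hv
      have h3 : (⨆ (j) (_ : j ≠ i), W' j) ≤ W' (i + 1) := by
        refine iSup_le fun j => iSup_le fun hj => ?_
        rw [hZn i j hj]
      have h4 := h3 h2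
      rw [← hdisj]
      rcases hZ i with rfl | rfl
      · exact Submodule.mem_inf.mpr ⟨h1, h4⟩
      · exact Submodule.mem_inf.mpr ⟨h4, h1⟩
    · rw [eq_top_iff, ← hU]
      exact sup_le (le_iSup W' 0) (le_iSup W' 1)
    · exact hyP
    · intro i w hw
      rcases hZ i with rfl | rfl
      · exact hWyy w hw
      · exact hyW w hw
    · have hWypow : ∀ (m : ℕ), ∀ w ∈ Wy, ρ (a ^ m) w ∈ Wy := by
        intro m
        induction m with
        | zero =>
          intro w hw
          rwa [pow_zero, rho_one]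
        | succ n ih =>
          intro w hw
          rw [pow_succ', rho_mul]
          exact hWya _ (ih w hw)
      have hW'pow : ∀ (m : ℕ) (i : ZMod 2), ∀ w ∈ W' i, ρ (a ^ m) w ∈ W' i := by
        intro m i w hw
        rcases hZ i with rfl | rfl
        · exact hWpow m w hw
        · exact hWypow m w hw
      have hW'y : ∀ (i : ZMod 2), ∀ w ∈ W' i, ρ y w ∈ W' (i + 1) := by
        intro i w hw
        rcases hZ i with rfl | rfl
        · exact hWyy w hw
        · exact hyW w hw
      intro u hu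
      obtain ⟨i, hi | hi⟩ := hgen u hu
      · refine ⟨0, ?_⟩
        intro j w hw
        rw [hi, add_zero]
        exact hW'pow i j w hw
      · refine ⟨1, ?_⟩
        intro j w hw
        rw [hi, rho_mul]
        exact hW'pow i _ _ (hW'y j w hw)
  · -- then `y` stabilises `W`
    have h1 := hmin (W ⊓ Wy) inf_le_left (by
      intro w hw
      obtain ⟨h1, h2⟩ := Submodule.mem_inf.mp hw
      exact Submodule.mem_inf.mpr ⟨hWa w h1, hWya w h2⟩) hdisj
    have h2 : W ≤ Wy := by
      rw [← h1]
      exact inf_le_right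
    have h3 : Wy ≤ W := by
      intro w hw
      have h4 := hyW w hw
      have h5 := h2 h4
      obtain ⟨v, hv, hv1⟩ := (hWyI _).mp h5
      have h6 : v = w := (ρ y).injective hv1
      rwa [← h6]
    have h4 : W = ⊤ := by
      rw [← hU, sup_eq_left.mpr h3]
    rw [eq_top_iff, ← h4]
    exact hWX

/-- The exotic case. -/
theorem exotic {ρ : G →* (V ≃ₗ[F] V)} (hM : MinCE ρ 2) (P : Sylow 2 G) (a y z : G)
    (hyP : y ∈ (P : Subgroup G)) (hz : z * z = 1) (hz1 : z ≠ 1) {kz : ℕ} (hkz : z = a ^ kz)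
    (h1 : a * (y * a * y⁻¹) = 1 ∨ a * (y * a * y⁻¹) = z)
    (h2 : y * y = 1 ∨ y * y = z) {k : ℕ} (hk : y * a * y⁻¹ = a ^ k)
    (hgen : ∀ u ∈ (P : Subgroup G), ∃ i : ℕ, u = a ^ i ∨ u = a ^ i * y)
    (hne : y * a * y⁻¹ ≠ a) : False := by
  classical
  haveI : Fact (Nat.Prime 2) := ⟨Nat.prime_two⟩
  haveI hV := hM.nt
  have hpowcomm : ∀ m n : ℕ, a ^ m * a ^ n = a ^ n * a ^ m := fun m n =>
    Commute.pow_pow (Commute.refl a) m n
  have hyy : ∃ m : ℕ, y * y = a ^ m := by
    rcases h2 with h | h
    · exact ⟨0, by rw [h, pow_zero]⟩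
    · exact ⟨kz, by rw [h, hkz]⟩
  obtain ⟨m0, hm0⟩ := hyy
  have hcomm : ∀ m, (y * y) * a ^ m = a ^ m * (y * y) := by
    intro m
    rw [hm0]
    exact hpowcomm _ _
  have hirr := a_irr hM P a y hyP hcomm ⟨m0, hm0⟩ hk hgen
  have h2F : (2 : F) ≠ 0 := by
    have hd : 2 ∣ Nat.card G := Cfsg.Agent.Lib.QBaer.CyclicCase.card_dvd_of_nontrivial hM
    have := card_ne_of_dvd (X := G) (Y := G) hd hM.star.card_ne
    simpa using this
  -- the field
  let t : End F V := tauHom ρ a
  have hinj : ∀ x ∈ Algebra.adjoin F {t}, x ≠ 0 → Function.Injective x := by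
    intro x hx hx0
    have h3 := adjoin_comm t x hx
    have h4 : LinearMap.ker x = ⊥ := by
      by_contra hne0
      have h5 := hirr (LinearMap.ker x) (by
        intro w hw
        rw [LinearMap.mem_ker] at hw ⊢
        have h6 := congrArg (fun f : End F V => f w) h3
        simp only [Module.End.mul_apply] at h6
        rw [hw, map_zero] at h6
        exact h6) hne0
      apply hx0
      exact LinearMap.ker_eq_top.mp h5
    exact LinearMap.ker_eq_bot.mp h4
  obtain ⟨K, _, _, ι, hιinj, hιrange⟩ := exists_field t hinj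
  haveI hKfin : Finite K := by
    haveI : Finite (End F V) := DFunLike.finite _
    exact Finite.of_injective ι hιinj
  have hmemt : t ∈ Algebra.adjoin F {t} := Algebra.subset_adjoin (Set.mem_singleton t)
  obtain ⟨A, hA⟩ := (hιrange t).mpr hmemt
  have hApow : ∀ m : ℕ, ι (A ^ m) = tauHom ρ (a ^ m) := by
    intro m
    rw [map_pow, hA, map_pow]
  have h2K : (2 : K) ≠ 0 := by
    intro h0
    apply h2F
    have h3 : algebraMap F K 2 = 0 := by
      rw [map_ofNat]
      exact h0
    exact (map_eq_zero (algebraMap F K)).mp h3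
  obtain ⟨v0, hv0⟩ := exists_ne (0 : V)
  let φ0 : K →ₗ[F] V :=
    { toFun := fun x => ι x v0
      map_add' := by
        intro x w
        simp
      map_smul' := by
        intro c x
        simp }
  have hφ0 : ∀ x, φ0 x = ι x v0 := fun x => rfl
  have hιapp : ∀ x w : K, ι x (φ0 w) = φ0 (x * w) := by
    intro x w
    rw [hφ0, hφ0, map_mul]
    rfl
  have hφinj : Function.Injective φ0 := by
    rw [injective_iff_map_eq_zero]
    intro x hx
    by_contra hx0
    apply hv0
    have h3 : ι x⁻¹ (φ0 x) = v0 := by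
      rw [hιapp, inv_mul_cancel₀ hx0, hφ0, map_one]
      rfl
    rw [← h3, hx, map_zero]
  have hφsur : Function.Surjective φ0 := by
    have h3 : LinearMap.range φ0 = ⊤ := by
      refine hirr _ ?_ ?_
      · rintro _ ⟨x, rfl⟩
        refine ⟨A * x, ?_⟩
        rw [← hιapp, hA]
        rfl
      · intro h0
        have h4 : φ0 1 ∈ LinearMap.range φ0 := ⟨1, rfl⟩
        rw [h0, Submodule.mem_bot, hφ0, map_one] at h4
        exact hv0 h4
    exact LinearMap.range_eq_top.mp h3
  let φ : K ≃ₗ[F] V := LinearEquiv.ofBijective φ0 ⟨hφinj, hφsur⟩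
  have hφ : ∀ x, φ x = φ0 x := fun x => rfl
  have hAapp : ∀ x, ρ a (φ0 x) = φ0 (A * x) := by
    intro x
    rw [← hιapp, hA]
    rfl
  -- conjugation by `y`
  let T : End F V := tauHom ρ y
  let T' : End F V := tauHom ρ y⁻¹
  have hTT' : T * T' = 1 := by
    change tauHom ρ y * tauHom ρ y⁻¹ = 1
    rw [← map_mul, mul_inv_cancel, map_one]
  have hT'T : T' * T = 1 := by
    change tauHom ρ y⁻¹ * tauHom ρ y = 1
    rw [← map_mul, inv_mul_cancel, map_one]
  have hconjS : ∀ x ∈ Algebra.adjoin F {t}, T * x * T' ∈ Algebra.adjoin F {t} := by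
    intro x hx
    induction hx using Algebra.adjoin_induction with
    | mem w hw =>
      rw [Set.mem_singleton_iff.mp hw]
      have h3 : T * t * T' = t ^ k := by
        change tauHom ρ y * tauHom ρ a * tauHom ρ y⁻¹ = (tauHom ρ a) ^ k
        rw [← map_mul, ← map_mul, hk, map_pow]
      rw [h3]
      exact pow_mem hmemt k
    | algebraMap r =>
      have h3 : T * algebraMap F (End F V) r * T' = algebraMap F (End F V) r := by
        rw [← Algebra.commutes r T, mul_assoc, hTT', mul_one]
      rw [h3]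
      exact Subalgebra.algebraMap_mem _ r
    | add u w _ _ h3 h4 =>
      have h5 : T * (u + w) * T' = T * u * T' + T * w * T' := by
        rw [mul_add, add_mul]
      rw [h5]
      exact Subalgebra.add_mem _ h3 h4
    | mul u w _ _ h3 h4 =>
      have h5 : T * (u * w) * T' = (T * u * T') * (T * w * T') := by
        calc T * (u * w) * T' = T * u * (1 * w) * T' := by rw [one_mul]; simp only [mul_assoc]
          _ = T * u * ((T' * T) * w) * T' := by rw [hT'T]
          _ = (T * u * T') * (T * w * T') := by simp only [mul_assoc]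
      rw [h5]
      exact Subalgebra.mul_mem _ h3 h4
  have hconj : ∀ x : K, ∃ w : K, ι w = T * ι x * T' := by
    intro x
    have h3 := hconjS (ι x) ((hιrange _).mp ⟨x, rfl⟩)
    obtain ⟨w, hw⟩ := (hιrange _).mpr h3
    exact ⟨w, hw⟩
  choose s hs using hconj
  let σ : K →ₐ[F] K :=
    { toFun := s
      map_one' := by
        apply hιinj
        rw [hs, map_one, mul_one, hTT']
      map_mul' := by
        intro u w
        apply hιinj
        rw [map_mul, hs, hs, hs, map_mul]
        calc T * (ι u * ι w) * T' = T * ι u * (1 * ι w) * T' := by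
              rw [one_mul]
              simp only [mul_assoc]
          _ = T * ι u * ((T' * T) * ι w) * T' := by rw [hT'T]
          _ = (T * ι u * T') * (T * ι w * T') := by simp only [mul_assoc]
      map_zero' := by
        apply hιinj
        rw [hs, map_zero, mul_zero, zero_mul]
      map_add' := by
        intro u w
        apply hιinj
        rw [map_add, hs, hs, hs, map_add, mul_add, add_mul]
      commutes' := by
        intro r
        apply hιinj
        rw [hs, AlgHom.commutes, ← Algebra.commutes r T, mul_assoc, hTT', mul_one] }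
  have hσ : ∀ x, ι (σ x) = T * ι x * T' := hs
  let R : K := A ^ m0
  have hR : ι R = T * T := by
    change ι (A ^ m0) = tauHom ρ y * tauHom ρ y
    rw [hApow, ← map_mul, hm0]
  have hσσ : ∀ x, σ (σ x) = x := by
    intro x
    apply hιinj
    rw [hσ, hσ]
    have h3 : ι R * ι x = ι x * ι R := by
      rw [← map_mul, ← map_mul, mul_comm]
    calc T * (T * ι x * T') * T' = (T * T) * ι x * (T' * T') := by simp only [mul_assoc]
      _ = ι x * (T * (T * T') * T') := by
        rw [← hR, h3, hR]
        simp only [mul_assoc]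
      _ = ι x := by rw [hTT', mul_one, hTT', mul_one]
  have htau_inj : ∀ g : G, tauHom ρ g = 1 → g = 1 := by
    intro g hg
    apply hM.star.inj
    rw [map_one]
    ext v
    have := congrArg (fun f : End F V => f v) hg
    exact this
  let Z : K := A ^ kz
  have hZ : ι Z = tauHom ρ z := by
    change ι (A ^ kz) = _
    rw [hApow, hkz]
  have hZ2 : Z * Z = 1 := by
    apply hιinj
    rw [map_mul, hZ, ← map_mul, hz, map_one, map_one]
  have hZne : Z ≠ 1 := by
    intro h
    apply hz1
    apply htau_inj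
    rw [← hZ, h, map_one]
  have hZneg : Z = -1 := by
    have h3 : (Z - 1) * (Z + 1) = 0 := by linear_combination hZ2
    rcases mul_eq_zero.mp h3 with h4 | h4
    · exact absurd (sub_eq_zero.mp h4) hZne
    · exact eq_neg_of_add_eq_zero_left h4
  have hNA : NN σ A = 1 ∨ NN σ A = -1 := by
    have h3 : ι (NN σ A) = tauHom ρ (a * (y * a * y⁻¹)) := by
      rw [NN_def, map_mul, hσ, hA]
      change tauHom ρ a * (tauHom ρ y * tauHom ρ a * tauHom ρ y⁻¹) = _
      rw [map_mul, map_mul, map_mul]
    rcases h1 with h4 | h4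
    · left
      apply hιinj
      rw [h3, h4, map_one, map_one]
    · right
      rw [← hZneg]
      apply hιinj
      rw [h3, h4, hZ]
  obtain ⟨C, hC⟩ := hφsur (ρ y v0)
  have hσC : ∀ x, φ0 (σ x * C) = ρ y (φ0 x) := by
    intro x
    rw [← hιapp, hC, hσ]
    change T (ι x (T' (T v0))) = T (φ0 x)
    have h3 : T' (T v0) = v0 := by
      rw [← Module.End.mul_apply, hT'T]
      rfl
    rw [h3]
    rfl
  have hNC : NN σ C = 1 ∨ NN σ C = -1 := by
    have h3 : φ0 (σ C * C) = φ0 R := by
      rw [hσC, hC, hφ0 R, hR]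
      rfl
    have h4 : σ C * C = R := hφinj h3
    have h5 : NN σ C = R := by
      rw [NN_def, mul_comm, h4]
    rw [h5]
    rcases h2 with h6 | h6
    · left
      apply hιinj
      rw [hR, map_one]
      change tauHom ρ y * tauHom ρ y = 1
      rw [← map_mul, h6, map_one]
    · right
      rw [← hZneg]
      apply hιinj
      rw [hR, hZ, ← h6]
      change tauHom ρ y * tauHom ρ y = _
      rw [← map_mul]
  have hNσ : ∀ x, NN σ (σ x) = NN σ x := by
    intro x
    rw [NN_def, NN_def, hσσ, mul_comm]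
  have hNpow : ∀ i : ℕ, NN σ (A ^ i) = 1 ∨ NN σ (A ^ i) = -1 := by
    intro i
    induction i with
    | zero =>
      left
      rw [pow_zero, NN_one]
    | succ n ih =>
      rw [pow_succ, NN_mul]
      rcases ih with h3 | h3 <;> rcases hNA with h4 | h4 <;> rw [h3, h4] <;> simp
  let hg : G → (K →ₗ[F] K) := fun g =>
    φ.symm.toLinearMap ∘ₗ (ρ g).toLinearMap ∘ₗ φ.toLinearMap
  have hhg : ∀ g x, φ0 (hg g x) = ρ g (φ0 x) := by
    intro g x
    have h3 : φ (hg g x) = ρ g (φ x) := by
      change φ (φ.symm (ρ g (φ x))) = _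
      rw [LinearEquiv.apply_symm_apply]
    exact h3
  have hAi : ∀ (i : ℕ) (w : K), ρ (a ^ i) (φ0 w) = φ0 (A ^ i * w) := by
    intro i w
    rw [← hιapp, hApow]
    rfl
  have hN : ∀ g x, NN σ (hg g x) = NN σ x ∨ NN σ (hg g x) = -NN σ x := by
    intro g x
    obtain ⟨u, hu, hux⟩ := hM.star.exists_sylow P g (φ0 x)
    obtain ⟨i, hi | hi⟩ := hgen u hu
    · have h3 : hg g x = A ^ i * x := by
        apply hφinj
        rw [hhg, hux, hi, hAi]
      rw [h3, NN_mul]
      rcases hNpow i with h4 | h4 <;> rw [h4]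
      · left; rw [one_mul]
      · right; rw [neg_mul, one_mul]
    · have h3 : hg g x = A ^ i * (σ x * C) := by
        apply hφinj
        rw [hhg, hux, hi, rho_mul, ← hσC, hAi]
      rw [h3, NN_mul, NN_mul, hNσ]
      rcases hNpow i with h4 | h4 <;> rcases hNC with h5 | h5 <;> rw [h4, h5]
      · left; ring
      · right; ring
      · right; ring
      · left; ring
  have hσA : ∀ w, ι (σ A) w = ρ (y * a * y⁻¹) w := by
    intro w
    rw [hσ, hA]
    change (tauHom ρ y * tauHom ρ a * tauHom ρ y⁻¹) w = _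
    rw [← map_mul, ← map_mul]
    rfl
  have hconjg : ∀ g : G, g * a = a * g ∨ g * a = (y * a * y⁻¹) * g := by
    intro g
    rcases norm_main σ (hg g) (hN g) h2K with ⟨b, hb | hb⟩ | ⟨hc, x, w, hx0, hw, hxw⟩
    · left
      apply hM.star.inj
      ext v
      obtain ⟨x, rfl⟩ := hφsur v
      rw [rho_mul, rho_mul, hAapp, ← hhg, ← hhg, hb, hb, hAapp]
      congr 1
      ring
    · right
      apply hM.star.inj
      ext v
      obtain ⟨x, rfl⟩ := hφsur v
      rw [rho_mul, rho_mul, hAapp, ← hhg, ← hhg, hb, hb, ← hσA, hιapp]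
      congr 1
      rw [map_mul]
      ring
    · exfalso
      refine small_case hM hc (v1 := φ0 x) (v2 := φ0 w) ?_ ?_ ?_
      · intro h
        exact hx0 (hφinj (by rw [h, map_zero]))
      · intro c h
        apply hw c
        apply hφinj
        rw [h, map_smul]
      · intro v
        obtain ⟨u, rfl⟩ := hφsur v
        obtain ⟨c, d, hu⟩ := hxw u
        refine ⟨c, d, ?_⟩
        rw [hu, map_add, map_smul, map_smul]
  have hnorm : (Subgroup.zpowers a).Normal := by
    refine ⟨?_⟩
    intro x hx g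
    obtain ⟨n, rfl⟩ := Subgroup.mem_zpowers_iff.mp hx
    rw [← conj_zpow]
    refine zpow_mem ?_ n
    rcases hconjg g with h3 | h3
    · rw [h3, mul_inv_cancel_right]
      exact Subgroup.mem_zpowers a
    · rw [h3, mul_inv_cancel_right, hk]
      exact pow_mem (Subgroup.mem_zpowers a) k
  have hcen := le_center_of_cyclic_of_perfect hM.perf (Subgroup.zpowers a) inferInstance
  have h3 := Subgroup.mem_center_iff.mp (hcen (Subgroup.mem_zpowers a)) y
  apply hne
  rw [h3, mul_inv_cancel_right]

end Main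

end Cfsg.Agent.Lib.QBaer.Exotic
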