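import Cfsg.Agent.Lib.QBaer.StarBase

/-!
# Reduction to a minimal counterexample for linear groups with prime power orbits
-/

set_option autoImplicit false
set_option linter.unusedSectionVars false
set_option linter.unusedVariables false
set_option linter.style.haveILetI false
set_option linter.unusedSimpArgs false

namespace Cfsg.Agent.Lib.QBaer.Reduce

open Module Cfsg.Agent.Lib.Kazarin.Main Cfsg.Agent.Lib.QBaer.StarBase

universe u v w

variable {F : Type w} [Field F]

/-- The properties of a minimal counterexample. -/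
structure MinCE {V : Type v} {G : Type u} [AddCommGroup V] [Module F V] [Group G]
    (ρ : G →* (V ≃ₗ[F] V)) (p : ℕ) : Prop where
  star : Star ρ p
  perf : commutator G = ⊤
  normal_solv : ∀ N : Subgroup G, N.Normal → N ≠ ⊤ → Group.IsSolvable N
  irr : ∀ W : Submodule F V, (∀ g, ∀ w ∈ W, ρ g w ∈ W) → W = ⊥ ∨ W = ⊤
  not_solv : ¬ Group.IsSolvable G
  nt : Nontrivial V

section Reps

variable {V : Type v} {G : Type u} [AddCommGroup V] [Module F V] [Group G]

/-- The restriction of a representation to an invariant subspace. -/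
def restrictRep (ρ : G →* (V ≃ₗ[F] V)) (W : Submodule F V) (hW : ∀ g, ∀ w ∈ W, ρ g w ∈ W) :
    G →* (W ≃ₗ[F] W) where
  toFun g := LinearEquiv.ofLinear
    ((ρ g : V →ₗ[F] V).restrict (hW g)) ((ρ g⁻¹ : V →ₗ[F] V).restrict (hW g⁻¹))
    (by ext w; simp [LinearMap.restrict_apply, rho_rho_inv])
    (by ext w; simp [LinearMap.restrict_apply, rho_inv_rho])
  map_one' := by
    ext w
    simp [LinearMap.restrict_apply]
  map_mul' a b := by
    ext w
    simp [LinearMap.restrict_apply]

@[simp] theorem restrictRep_apply (ρ : G →* (V ≃ₗ[F] V)) (W : Submodule F V)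
    (hW : ∀ g, ∀ w ∈ W, ρ g w ∈ W) (g : G) (w : W) :
    ((restrictRep ρ W hW g w : W) : V) = ρ g w := rfl

/-- The representation on a quotient by an invariant subspace. -/
def quotRep (ρ : G →* (V ≃ₗ[F] V)) (W : Submodule F V) (hW : ∀ g, ∀ w ∈ W, ρ g w ∈ W) :
    G →* ((V ⧸ W) ≃ₗ[F] (V ⧸ W)) where
  toFun g := LinearEquiv.ofLinear
    (W.mapQ W (ρ g : V →ₗ[F] V) (fun w hw => hW g w hw))
    (W.mapQ W (ρ g⁻¹ : V →ₗ[F] V) (fun w hw => hW g⁻¹ w hw))
    (by
      ext v
      simp [Submodule.mapQ_apply, rho_rho_inv])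
    (by
      ext v
      simp [Submodule.mapQ_apply, rho_inv_rho])
  map_one' := by
    ext v
    induction v using Submodule.Quotient.induction_on with
    | _ v => simp [Submodule.mapQ_apply]
  map_mul' a b := by
    ext v
    induction v using Submodule.Quotient.induction_on with
    | _ v => simp [Submodule.mapQ_apply]

@[simp] theorem quotRep_mk (ρ : G →* (V ≃ₗ[F] V)) (W : Submodule F V)
    (hW : ∀ g, ∀ w ∈ W, ρ g w ∈ W) (g : G) (v : V) :
    quotRep ρ W hW g (W.mkQ v) = W.mkQ (ρ g v) := rfl

variable [Finite G] {p : ℕ} [hp : Fact p.Prime]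

theorem star_kerLift {V' : Type v} [AddCommGroup V'] [Module F V'] (ρ' : G →* (V' ≃ₗ[F] V'))
    (hcard : ((Nat.card G : ℕ) : F) ≠ 0) (horb : OrbP ρ' p) :
    Star (QuotientGroup.kerLift ρ') p where
  inj := QuotientGroup.kerLift_injective ρ'
  card_ne := by
    refine card_ne_of_dvd (X := G) (Y := G) ?_ hcard
    rw [← Subgroup.index_eq_card]
    exact Subgroup.index_dvd_card _
  orb := by
    intro v
    obtain ⟨a, ha⟩ := horb v
    refine ⟨a, ?_⟩
    have h1 : (stabS (QuotientGroup.kerLift ρ') v).comap (QuotientGroup.mk' ρ'.ker) = stabS ρ' v := by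
      ext g
      simp only [Subgroup.mem_comap, mem_stabS, QuotientGroup.mk'_apply, QuotientGroup.kerLift_mk]
    rw [← ha, ← h1, Subgroup.index_comap_of_surjective _ (QuotientGroup.mk'_surjective _)]

theorem orb_restrict {ρ : G →* (V ≃ₗ[F] V)} (h : Star ρ p) (W : Submodule F V)
    (hW : ∀ g, ∀ w ∈ W, ρ g w ∈ W) : OrbP (restrictRep ρ W hW) p := by
  intro w
  obtain ⟨a, ha⟩ := h.orb (w : V)
  refine ⟨a, ?_⟩
  rw [← ha]
  congr 1
  ext g
  simp only [mem_stabS]
  exact Subtype.ext_iff

theorem orb_quot {ρ : G →* (V ≃ₗ[F] V)} (h : Star ρ p) (W : Submodule F V)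
    (hW : ∀ g, ∀ w ∈ W, ρ g w ∈ W) : OrbP (quotRep ρ W hW) p := by
  intro v
  obtain ⟨v, rfl⟩ := W.mkQ_surjective v
  obtain ⟨a, ha⟩ := h.orb v
  have h1 : stabS ρ v ≤ stabS (quotRep ρ W hW) (W.mkQ v) := by
    intro g hg
    rw [mem_stabS] at hg ⊢
    rw [quotRep_mk, hg]
  have h2 := Subgroup.index_dvd_of_le h1
  rw [ha, Nat.dvd_prime_pow hp.out] at h2
  obtain ⟨b, _, hb⟩ := h2
  exact ⟨b, hb⟩

/-- Elements acting trivially on a subspace and its quotient are trivial, in the coprime case. -/
theorem eq_one_of_trivial_on {ρ : G →* (V ≃ₗ[F] V)} (h : Star ρ p) (W : Submodule F V)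
    {g : G} (h1 : ∀ w ∈ W, ρ g w = w) (h2 : ∀ v, ρ g v - v ∈ W) : g = 1 := by
  apply h.inj
  rw [map_one]
  ext v
  have hk : ∀ k : ℕ, ρ (g ^ k) v = v + (k : F) • (ρ g v - v) := by
    intro k
    induction k with
    | zero => simp [rho_one]
    | succ n ih =>
      rw [pow_succ', rho_mul, ih, map_add, map_smul, h1 _ (h2 v)]
      push_cast
      rw [add_smul, one_smul]
      abel
  have h3 := hk (Nat.card G)
  rw [pow_card_eq_one', rho_one] at h3
  have h4 : ((Nat.card G : ℕ) : F) • (ρ g v - v) = 0 := by
    have : v + ((Nat.card G : ℕ) : F) • (ρ g v - v) = v + 0 := by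
      rw [← h3, add_zero]
    exact add_left_cancel this
  have h5 := (smul_eq_zero.mp h4).resolve_left h.card_ne
  exact sub_eq_zero.mp h5

end Reps

variable {p : ℕ} [hp : Fact p.Prime]

theorem solv_prod_aux {A B : Type*} [Group A] [Group B] (hA : Group.IsSolvable A)
    (hB : Group.IsSolvable B) : Group.IsSolvable (A × B) := inferInstance

theorem solv_abel_aux {A : Type*} [Group A] : Group.IsSolvable (Abelianization A) := inferInstance

theorem solv_sub_aux {A : Type*} [Group A] [Subsingleton A] : Group.IsSolvable A := inferInstance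

/-- If there is no minimal counterexample then all such linear groups are solvable. -/
theorem solv_aux [Finite F]
    (hno : ∀ {V : Type v} {G : Type u} [AddCommGroup V] [Module F V] [Finite V] [Group G] [Finite G]
      (ρ : G →* (V ≃ₗ[F] V)), MinCE ρ p → False) :
    ∀ (n : ℕ) (V : Type v) (G : Type u) [AddCommGroup V] [Module F V] [Finite V] [Group G] [Finite G]
      (ρ : G →* (V ≃ₗ[F] V)), Nat.card G + Nat.card V = n → Star ρ p → Group.IsSolvable G := by
  intro n
  induction n using Nat.strong_induction_on with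
  | _ n IH =>
    intro V G _ _ _ _ _ ρ hn h
    by_contra hns
    apply hno ρ
    have hNs : ∀ N : Subgroup G, N.Normal → N ≠ ⊤ → Group.IsSolvable N := by
      intro N hN hNt
      have hlt : Nat.card N < Nat.card G := by
        have h1 := Subgroup.card_le_card_group N
        refine lt_of_le_of_ne h1 ?_
        intro h2
        exact hNt (Subgroup.eq_top_of_card_eq N h2)
      exact IH _ (by omega) V N (ρ.comp N.subtype) rfl (h.normal N)
    refine ⟨h, ?_, hNs, ?_, hns, ?_⟩
    · by_contra hc
      have h1 : Group.IsSolvable (commutator G) := hNs _ inferInstance hc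
      apply hns
      refine @Group.isSolvable_of_ker_le_range _ _ _ _ _ _ (commutator G).subtype (Abelianization.of (G := G)) ?_ h1 solv_abel_aux
      intro g hg
      rw [MonoidHom.mem_ker] at hg
      have hg' : g ∈ commutator G := by
        have := (QuotientGroup.eq_one_iff g).mp hg
        exact this
      exact ⟨⟨g, hg'⟩, rfl⟩
    · intro W hW
      by_contra hc
      push Not at hc
      obtain ⟨hW0, hW1⟩ := hc
      apply hns
      have hcW : Nat.card W < Nat.card V := by
        have h1 : Nat.card W ≤ Nat.card V := Nat.card_le_card_of_injective _ W.subtype_injective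
        refine lt_of_le_of_ne h1 ?_
        intro h2
        apply hW1
        rw [eq_top_iff]
        intro v _
        have h3 : Function.Surjective W.subtype :=
          (Nat.bijective_iff_injective_and_card _).mpr ⟨W.subtype_injective, h2⟩ |>.2
        obtain ⟨w, rfl⟩ := h3 v
        exact w.2
      haveI : Finite (V ⧸ W) := Quotient.finite _
      have hcQ : Nat.card (V ⧸ W) < Nat.card V := by
        have h1 : Nat.card (V ⧸ W) ≤ Nat.card V :=
          Nat.card_le_card_of_surjective _ W.mkQ_surjective
        refine lt_of_le_of_ne h1 ?_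
        intro h2
        apply hW0
        rw [eq_bot_iff]
        intro v hv
        have h3 : Function.Injective W.mkQ :=
          ((Nat.bijective_iff_surjective_and_card _).mpr ⟨W.mkQ_surjective, h2.symm⟩).1
        have h4 : W.mkQ v = W.mkQ 0 := by
          rw [map_zero]
          exact (Submodule.Quotient.mk_eq_zero W).mpr hv
        exact h3 h4
      have hcQG : ∀ {X : Type v} [AddCommGroup X] [Module F X] (f : G →* (X ≃ₗ[F] X)),
          Nat.card (G ⧸ f.ker) ≤ Nat.card G := by
        intro X _ _ f
        exact Nat.card_le_card_of_surjective _ (QuotientGroup.mk'_surjective f.ker)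
      have h1 : Group.IsSolvable (G ⧸ (restrictRep ρ W hW).ker) :=
        IH _ (by have := hcQG (restrictRep ρ W hW); omega) W _ (QuotientGroup.kerLift (restrictRep ρ W hW)) rfl
          (star_kerLift _ h.card_ne (orb_restrict h W hW))
      have h2 : Group.IsSolvable (G ⧸ (quotRep ρ W hW).ker) :=
        IH _ (by have := hcQG (quotRep ρ W hW); omega) (V ⧸ W) _ (QuotientGroup.kerLift (quotRep ρ W hW)) rfl
          (star_kerLift _ h.card_ne (orb_quot h W hW))
      let f : G →* (G ⧸ (restrictRep ρ W hW).ker) × (G ⧸ (quotRep ρ W hW).ker) :=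
        MonoidHom.prod (QuotientGroup.mk' _) (QuotientGroup.mk' _)
      refine @Group.isSolvable_of_isSolvable_injective _ _ _ _ f ?_ (solv_prod_aux h1 h2)
      rw [injective_iff_map_eq_one]
      intro g hg
      have hg1 : g ∈ (restrictRep ρ W hW).ker := by
        have := congrArg Prod.fst hg
        exact (QuotientGroup.eq_one_iff g).mp this
      have hg2 : g ∈ (quotRep ρ W hW).ker := by
        have := congrArg Prod.snd hg
        exact (QuotientGroup.eq_one_iff g).mp this
      rw [MonoidHom.mem_ker] at hg1 hg2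
      refine eq_one_of_trivial_on h W ?_ ?_
      · intro w hw
        have := congrArg (fun e : W ≃ₗ[F] W => ((e ⟨w, hw⟩ : W) : V)) hg1
        exact this
      · intro v
        have h3 := congrArg (fun e : (V ⧸ W) ≃ₗ[F] (V ⧸ W) => e (W.mkQ v)) hg2
        have h4 : W.mkQ (ρ g v) = W.mkQ v := h3
        rw [← sub_eq_zero, ← map_sub] at h4
        exact (Submodule.Quotient.mk_eq_zero W).mp h4
    · by_contra hc
      rw [not_nontrivial_iff_subsingleton] at hc
      apply hns
      have : Subsingleton G := by
        refine ⟨fun a b => h.inj ?_⟩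
        ext v
        exact Subsingleton.elim _ _
      exact solv_sub_aux

end Cfsg.Agent.Lib.QBaer.Reduce
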