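import Cfsg.Agent.Lib.Kazarin.Main
import Mathlib

/-!
# Linear groups all of whose orbits have prime power size: basic reductions
-/

set_option autoImplicit false
set_option linter.unusedSectionVars false
set_option linter.unusedVariables false
set_option linter.style.haveILetI false
set_option linter.unusedSimpArgs false

namespace Cfsg.Agent.Lib.QBaer.StarBase

open Module Cfsg.Agent.Lib.Kazarin.Main

universe u v w

section Defs

variable {F : Type w} {V : Type v} {G : Type u} [Field F] [AddCommGroup V] [Module F V] [Group G]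

/-- The stabilizer of a vector in a linear action. -/
def stabS (ρ : G →* (V ≃ₗ[F] V)) (v : V) : Subgroup G where
  carrier := {g | ρ g v = v}
  mul_mem' := by
    intro a b ha hb
    simp only [Set.mem_setOf_eq] at ha hb ⊢
    rw [map_mul, LinearEquiv.mul_apply, hb, ha]
  one_mem' := by simp
  inv_mem' := by
    intro a ha
    simp only [Set.mem_setOf_eq] at ha ⊢
    have h : ρ a⁻¹ (ρ a v) = v := by
      rw [← LinearEquiv.mul_apply, ← map_mul, inv_mul_cancel, map_one]
      rfl
    rwa [ha] at h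

@[simp] theorem mem_stabS {ρ : G →* (V ≃ₗ[F] V)} {v : V} {g : G} : g ∈ stabS ρ v ↔ ρ g v = v :=
  Iff.rfl

theorem rho_mul (ρ : G →* (V ≃ₗ[F] V)) (a b : G) (v : V) : ρ (a * b) v = ρ a (ρ b v) := by
  rw [map_mul, LinearEquiv.mul_apply]

theorem rho_one (ρ : G →* (V ≃ₗ[F] V)) (v : V) : ρ 1 v = v := by
  rw [map_one]
  rfl

theorem rho_inv_rho (ρ : G →* (V ≃ₗ[F] V)) (a : G) (v : V) : ρ a⁻¹ (ρ a v) = v := by
  rw [← rho_mul, inv_mul_cancel, rho_one]

theorem rho_rho_inv (ρ : G →* (V ≃ₗ[F] V)) (a : G) (v : V) : ρ a (ρ a⁻¹ v) = v := by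
  rw [← rho_mul, mul_inv_cancel, rho_one]

/-- The orbit hypothesis: all orbits have size a power of `p`. -/
def OrbP (ρ : G →* (V ≃ₗ[F] V)) (p : ℕ) : Prop := ∀ v, ∃ a : ℕ, (stabS ρ v).index = p ^ a

/-- The standing hypotheses. -/
structure Star (ρ : G →* (V ≃ₗ[F] V)) (p : ℕ) : Prop where
  inj : Function.Injective ρ
  card_ne : ((Nat.card G : ℕ) : F) ≠ 0
  orb : OrbP ρ p

end Defs

section Normal

variable {F : Type w} {V : Type v} {G : Type u} [Field F] [AddCommGroup V] [Module F V] [Group G]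
  [Finite G] {p : ℕ} [hp : Fact p.Prime]

theorem card_ne_of_dvd {X Y : Type*} [Finite Y] {n m : ℕ} (h : n ∣ m) (hm : (m : F) ≠ 0) :
    (n : F) ≠ 0 := by
  intro h0
  obtain ⟨c, rfl⟩ := h
  apply hm
  rw [Nat.cast_mul, h0, zero_mul]

theorem Star.normal {ρ : G →* (V ≃ₗ[F] V)} (h : Star ρ p) (N : Subgroup G) [N.Normal] :
    Star (ρ.comp N.subtype) p where
  inj := h.inj.comp N.subtype_injective
  card_ne := card_ne_of_dvd (X := G) (Y := G) (Subgroup.card_subgroup_dvd_card N) h.card_ne
  orb := by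
    intro v
    obtain ⟨a, ha⟩ := h.orb v
    have h1 : stabS (ρ.comp N.subtype) v = (stabS ρ v).subgroupOf N := by
      ext g
      simp [Subgroup.mem_subgroupOf]
    have h2 : (stabS ρ v).relIndex N ∣ (stabS ρ v).index := relIndex_dvd_index_of_normal_right _ _
    rw [ha, Nat.dvd_prime_pow hp.out] at h2
    obtain ⟨b, _, hb⟩ := h2
    refine ⟨b, ?_⟩
    rw [h1]
    exact hb

/-- A normal subgroup of order prime to `p` is trivial. -/
theorem Star.eq_bot_of_coprime {ρ : G →* (V ≃ₗ[F] V)} (h : Star ρ p) (N : Subgroup G) [N.Normal]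
    (hN : (Nat.card N).Coprime p) : N = ⊥ := by
  rw [eq_bot_iff]
  intro g hg
  have h1 : ρ g = 1 := by
    ext v
    obtain ⟨a, ha⟩ := (h.normal N).orb v
    have h2 : (stabS (ρ.comp N.subtype) v).index ∣ Nat.card N := Subgroup.index_dvd_card _
    rw [ha] at h2
    have h3 : p ^ a = 1 := by
      have := Nat.Coprime.coprime_dvd_left h2 hN
      have h4 : Nat.Coprime (p ^ a) (p ^ a) :=
        Nat.Coprime.pow_right a this
      exact (Nat.coprime_self _).mp h4
    rw [h3] at ha
    have h5 := Subgroup.index_eq_one.mp ha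
    have h6 : (⟨g, hg⟩ : N) ∈ stabS (ρ.comp N.subtype) v := by
      rw [h5]
      trivial
    exact h6
  have := h.inj (h1.trans (map_one ρ).symm)
  exact this

/-- Any Sylow `p`-subgroup is transitive on orbits. -/
theorem Star.exists_sylow {ρ : G →* (V ≃ₗ[F] V)} (h : Star ρ p) (P : Sylow p G) (g : G) (v : V) :
    ∃ u ∈ (P : Subgroup G), ρ g v = ρ u v := by
  obtain ⟨a, ha⟩ := h.orb v
  obtain ⟨u, hu, c, hc, rfl⟩ := exists_sylow_mul P (stabS ρ v) ha g
  refine ⟨u, hu, ?_⟩
  rw [rho_mul, mem_stabS.mp hc]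

/-- A subspace invariant under a Sylow `p`-subgroup is invariant under the group. -/
theorem Star.invariant {ρ : G →* (V ≃ₗ[F] V)} (h : Star ρ p) (P : Sylow p G) {W : Submodule F V}
    (hW : ∀ u ∈ (P : Subgroup G), ∀ w ∈ W, ρ u w ∈ W) (g : G) {w : V} (hw : w ∈ W) :
    ρ g w ∈ W := by
  obtain ⟨u, hu, h1⟩ := h.exists_sylow P g w
  rw [h1]
  exact hW u hu w hw

/-- A homomorphism from a perfect group to a commutative group is trivial. -/
theorem hom_trivial_of_perfect {A : Type*} [CommGroup A] (hperf : commutator G = ⊤) (f : G →* A)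
    (g : G) : f g = 1 := by
  have h1 : commutator G ≤ f.ker := Abelianization.commutator_subset_ker f
  rw [hperf] at h1
  exact h1 (Subgroup.mem_top g)

/-- A cyclic normal subgroup of a perfect group is central. -/
theorem le_center_of_cyclic_of_perfect (hperf : commutator G = ⊤) (N : Subgroup G) [N.Normal]
    (hN : IsCyclic N) : N ≤ Subgroup.center G := by
  intro x hx
  rw [Subgroup.mem_center_iff]
  intro g
  let f : G →* (ZMod (Nat.card N))ˣ :=
    ((IsCyclic.mulAutMulEquiv N).toMonoidHom).comp (MulAut.conjNormal (H := N))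
  have h1 := hom_trivial_of_perfect hperf f g
  have h2 : MulAut.conjNormal (H := N) g = 1 := by
    apply (IsCyclic.mulAutMulEquiv N).injective
    rw [map_one]
    exact h1
  have h3 : (MulAut.conjNormal (H := N) g ⟨x, hx⟩ : N) = ⟨x, hx⟩ := by
    rw [h2]
    rfl
  have h4 := congrArg Subtype.val h3
  rw [MulAut.conjNormal_apply] at h4
  simp only at h4
  exact (mul_inv_eq_iff_eq_mul.mp h4)

end Normal

end Cfsg.Agent.Lib.QBaer.StarBase
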