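import Cfsg.Agent.Lib.QBaer.Reduce

/-!
# No systems of imprimitivity permuted cyclically by a Sylow subgroup
-/

set_option autoImplicit false
set_option linter.unusedSectionVars false
set_option linter.unusedVariables false
set_option linter.style.haveILetI false
set_option linter.unusedSimpArgs false

namespace Cfsg.Agent.Lib.QBaer.System

open Module Cfsg.Agent.Lib.Kazarin.Main Cfsg.Agent.Lib.QBaer.StarBase Cfsg.Agent.Lib.QBaer.Reduce

universe u v w

section Aff

variable {G : Type u} [Group G] [Finite G] {p : ℕ} [hp : Fact p.Prime]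

/-- An affine permutation action of a perfect group on `ZMod p` is trivial. -/
theorem aff_trivial (hperf : commutator G = ⊤) (π : G →* Equiv.Perm (ZMod p))
    (haff : ∀ g, ∃ α β : ZMod p, ∀ x, π g x = α * x + β) (g : G) (x : ZMod p) : π g x = x := by
  have hform : ∀ g x, π g x = (π g 1 - π g 0) * x + π g 0 := by
    intro g x
    obtain ⟨α, β, h⟩ := haff g
    rw [h x, h 1, h 0]
    ring
  let α' : G →* ZMod p :=
    { toFun := fun g => π g 1 - π g 0
      map_one' := by simp
      map_mul' := by
        intro a b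
        simp only [map_mul, Equiv.Perm.mul_apply]
        rw [hform a (π b 1), hform a (π b 0)]
        ring }
  let u : G →* (ZMod p)ˣ := α'.toHomUnits
  have h1 : ∀ g, π g 1 - π g 0 = 1 := by
    intro g
    have := hom_trivial_of_perfect hperf u g
    have h2 := congrArg Units.val this
    simpa [u, α'] using h2
  let β' : G →* Multiplicative (ZMod p) :=
    { toFun := fun g => Multiplicative.ofAdd (π g 0)
      map_one' := by simp
      map_mul' := by
        intro a b
        simp only [map_mul, Equiv.Perm.mul_apply]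
        rw [hform a (π b 0), h1 a, ← ofAdd_add]
        congr 1
        ring }
  have h2 : ∀ g, π g 0 = 0 := by
    intro g
    have := hom_trivial_of_perfect hperf β' g
    exact Multiplicative.ofAdd.injective this
  rw [hform g x, h1 g, h2 g]
  ring

end Aff

section Indep

variable {F : Type w} {V : Type v} [Field F] [AddCommGroup V] [Module F V] {ι : Type*}

theorem eq_zero_of_mem_iSup_ne {W : ι → Submodule F V} (hind : iSupIndep W) {i : ι} {a : V}
    (ha : a ∈ W i) (hb : a ∈ ⨆ (j) (_ : j ≠ i), W j) : a = 0 := by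
  have h := (hind i).le_bot (Submodule.mem_inf.mpr ⟨ha, hb⟩)
  exact (Submodule.mem_bot F).mp h

theorem mem_iSup_ne_of_mem {W : ι → Submodule F V} {i j : ι} (hne : j ≠ i) {a : V} (ha : a ∈ W j) :
    a ∈ ⨆ (k) (_ : k ≠ i), W k :=
  Submodule.mem_iSup_of_mem j (Submodule.mem_iSup_of_mem hne ha)

theorem index_eq_of_mem {W : ι → Submodule F V} (hind : iSupIndep W) {i j : ι} {a : V}
    (ha : a ∈ W i) (hb : a ∈ W j) (h0 : a ≠ 0) : i = j := by
  by_contra hne
  exact h0 (eq_zero_of_mem_iSup_ne hind ha (mem_iSup_ne_of_mem (Ne.symm hne) hb))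

theorem no_sum_single {W : ι → Submodule F V} (hind : iSupIndep W) {j j' j'' : ι} {a b : V}
    (ha : a ∈ W j) (hb : b ∈ W j') (hc : a + b ∈ W j'') (hne : j ≠ j') (h0 : a ≠ 0) (h1 : b ≠ 0) :
    False := by
  by_cases h : j'' = j
  · subst h
    apply h1
    refine eq_zero_of_mem_iSup_ne hind hb ?_
    have : b = (a + b) - a := by abel
    rw [this]
    exact mem_iSup_ne_of_mem hne ((W j'').sub_mem hc ha)
  · apply h0
    refine eq_zero_of_mem_iSup_ne hind ha ?_
    have : a = (a + b) - b := by abel
    rw [this]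
    exact Submodule.sub_mem _ (mem_iSup_ne_of_mem h hc) (mem_iSup_ne_of_mem (Ne.symm hne) hb)

theorem index_mem_of_sum_eq {W : ι → Submodule F V} (hind : iSupIndep W) {j j' l l' : ι}
    {a b c d : V} (ha : a ∈ W j) (hb : b ∈ W j') (hc : c ∈ W l) (hd : d ∈ W l') (hs : a + b = c + d)
    (hne : j ≠ j') (h0 : a ≠ 0) : j = l ∨ j = l' := by
  by_contra hcon
  push Not at hcon
  apply h0
  refine eq_zero_of_mem_iSup_ne hind ha ?_
  have : a = c + d - b := by rw [← hs]; abel
  rw [this]
  exact Submodule.sub_mem _ (Submodule.add_mem _ (mem_iSup_ne_of_mem (Ne.symm hcon.1) hc)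
    (mem_iSup_ne_of_mem (Ne.symm hcon.2) hd)) (mem_iSup_ne_of_mem (Ne.symm hne) hb)

end Indep

section Main

variable {F : Type w} {V : Type v} {G : Type u} [Field F] [AddCommGroup V] [Module F V] [Group G]
  [Finite G] {p : ℕ} [hp : Fact p.Prime]

theorem no_system {ρ : G →* (V ≃ₗ[F] V)} (hM : MinCE ρ p) (P : Sylow p G) (W : ZMod p → Submodule F V)
    (hind : iSupIndep W) (htop : ⨆ i, W i = ⊤) (u1 : G) (hu1P : u1 ∈ (P : Subgroup G))
    (hu1 : ∀ i, ∀ w ∈ W i, ρ u1 w ∈ W (i + 1))
    (hsh : ∀ u ∈ (P : Subgroup G), ∃ c, ∀ i, ∀ w ∈ W i, ρ u w ∈ W (i + c)) : False := by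
  classical
  have hV := hM.nt
  have h0ne : (1 : ZMod p) ≠ 0 := one_ne_zero
  have hρ0 : ∀ (g : G) (w : V), w ≠ 0 → ρ g w ≠ 0 := by
    intro g w hw h
    exact hw ((ρ g).map_eq_zero_iff.mp h)
  -- every component is nonzero
  have hexv : ∀ i, ∃ v ∈ W i, v ≠ 0 := by
    have h1 : ∃ i0, W i0 ≠ ⊥ := by
      by_contra hc
      push Not at hc
      have : (⊤ : Submodule F V) = ⊥ := by
        rw [← htop, iSup_eq_bot]
        exact hc
      exact top_ne_bot this
    obtain ⟨i0, hi0⟩ := h1
    obtain ⟨v0, hv0, hv00⟩ := (Submodule.ne_bot_iff _).mp hi0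
    have h2 : ∀ k : ℕ, ∃ v ∈ W (i0 + k), v ≠ 0 := by
      intro k
      induction k with
      | zero => exact ⟨v0, by simpa using hv0, hv00⟩
      | succ n ih =>
        obtain ⟨v, hv, hv1⟩ := ih
        refine ⟨ρ u1 v, ?_, hρ0 _ _ hv1⟩
        have := hu1 _ v hv
        push_cast
        rwa [← add_assoc]
    intro i
    have h3 := h2 (i - i0).val
    rw [ZMod.natCast_zmod_val] at h3
    simpa using h3
  -- images of components lie in components
  have hsome : ∀ (g : G) (i : ZMod p) (w : V), w ∈ W i → ∃ j, ρ g w ∈ W j := by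
    intro g i w hw
    obtain ⟨u, hu, h1⟩ := hM.star.exists_sylow P g w
    obtain ⟨c, hc⟩ := hsh u hu
    exact ⟨i + c, by rw [h1]; exact hc i w hw⟩
  have hsingle : ∀ (g : G) (i : ZMod p), ∃ j, ∀ w ∈ W i, ρ g w ∈ W j := by
    intro g i
    obtain ⟨v, hv, hv0⟩ := hexv i
    obtain ⟨j, hj⟩ := hsome g i v hv
    refine ⟨j, ?_⟩
    intro w hw
    by_cases hw0 : w = 0
    · rw [hw0, map_zero]
      exact Submodule.zero_mem _
    obtain ⟨j', hj'⟩ := hsome g i w hw
    by_cases hjj : j = j'
    · rwa [hjj]
    exfalso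
    obtain ⟨j'', hj''⟩ := hsome g i (v + w) ((W i).add_mem hv hw)
    rw [map_add] at hj''
    exact no_sum_single hind hj hj' hj'' hjj (hρ0 _ _ hv0) (hρ0 _ _ hw0)
  choose f hf using hsingle
  have huniq : ∀ (g : G) (i j : ZMod p), (∀ w ∈ W i, ρ g w ∈ W j) → f g i = j := by
    intro g i j h
    obtain ⟨v, hv, hv0⟩ := hexv i
    exact index_eq_of_mem hind (hf g i v hv) (h v hv) (hρ0 _ _ hv0)
  let F0 : G →* Function.End (ZMod p) :=
    { toFun := f
      map_one' := by
        funext i
        refine huniq 1 i i ?_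
        intro w hw
        rwa [rho_one]
      map_mul' := by
        intro a b
        funext i
        refine huniq (a * b) i _ ?_
        intro w hw
        rw [rho_mul]
        exact hf a _ _ (hf b i w hw) }
  let π : G →* Equiv.Perm (ZMod p) := F0.toHomPerm
  have hπ : ∀ (g : G) (i : ZMod p) (w : V), w ∈ W i → ρ g w ∈ W (π g i) := by
    intro g i w hw
    exact hf g i w hw
  have hdiff : ∀ (g : G) (i : ZMod p), π g (i + 1) - π g i = 1 ∨ π g (i + 1) - π g i = -1 := by
    intro g i
    obtain ⟨v, hv, hv0⟩ := hexv i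
    obtain ⟨u, hu, h1⟩ := hM.star.exists_sylow P g (v + ρ u1 v)
    obtain ⟨c, hc⟩ := hsh u hu
    rw [map_add, map_add] at h1
    have hA := hπ g i v hv
    have hB := hπ g (i + 1) _ (hu1 i v hv)
    have hC := hc i v hv
    have hD := hc (i + 1) _ (hu1 i v hv)
    have hne : π g i ≠ π g (i + 1) := by
      intro h
      have := (π g).injective h
      have h2 : (1 : ZMod p) = 0 := by
        have h3 : i + 1 = i + 0 := by rw [add_zero]; exact this.symm
        exact add_left_cancel h3
      exact h0ne h2
    have h2 := index_mem_of_sum_eq hind hA hB hC hD h1 hne (hρ0 _ _ hv0)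
    have h3 := index_mem_of_sum_eq hind hB hA hC hD (by rw [add_comm, h1]) hne.symm
      (hρ0 _ _ (hρ0 _ _ hv0))
    have hl : i + (1 + c) = i + c + 1 := by ring
    have hl2 : i + 1 + c = i + c + 1 := by ring
    rw [hl2] at h2 h3
    rcases h2 with h2 | h2 <;> rcases h3 with h3 | h3
    · exact absurd (h2.trans h3.symm) hne
    · left; rw [h2, h3]; ring
    · right; rw [h2, h3]; ring
    · exact absurd (h2.trans h3.symm) hne
  have haff : ∀ g, ∃ α β : ZMod p, ∀ x, π g x = α * x + β := by
    intro g
    have hconst : ∀ i, π g (i + 1 + 1) - π g (i + 1) = π g (i + 1) - π g i := by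
      intro i
      by_contra hne
      have h2 : π g (i + 1 + 1) = π g i := by
        rcases hdiff g i with h1 | h1 <;> rcases hdiff g (i + 1) with h3 | h3
        · exact absurd (h3.trans h1.symm) hne
        · linear_combination h1 + h3
        · linear_combination h1 + h3
        · exact absurd (h3.trans h1.symm) hne
      have h3 := (π g).injective h2
      have h4 : (2 : ZMod p) = 0 := by
        linear_combination h3
      apply hne
      have h5 : (1 : ZMod p) = -1 := by
        linear_combination h4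
      rcases hdiff g i with h1 | h1 <;> rcases hdiff g (i + 1) with h6 | h6
      · rw [h1, h6]
      · rw [h1, h6, ← h5]
      · rw [h1, h6, ← h5]
      · rw [h1, h6]
    refine ⟨π g 1 - π g 0, π g 0, ?_⟩
    have hd : ∀ k : ℕ, π g ((k : ZMod p) + 1) - π g (k : ZMod p) = π g 1 - π g 0 := by
      intro k
      induction k with
      | zero => simp
      | succ n ih =>
        push_cast
        rw [hconst, ih]
    have hk : ∀ k : ℕ, π g (k : ZMod p) = (π g 1 - π g 0) * (k : ZMod p) + π g 0 := by
      intro k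
      induction k with
      | zero => simp
      | succ n ih =>
        have h1 := hd n
        push_cast
        have h2 : π g ((n : ZMod p) + 1) = π g (n : ZMod p) + (π g 1 - π g 0) := by
          rw [← h1]; ring
        rw [h2, ih]
        ring
    intro x
    have := hk x.val
    rwa [ZMod.natCast_zmod_val] at this
  have h1 := aff_trivial hM.perf π haff u1 0
  have h2 : π u1 0 = 0 + 1 := huniq u1 0 (0 + 1) (hu1 0)
  rw [h1, zero_add] at h2
  exact h0ne h2.symm

end Main

end Cfsg.Agent.Lib.QBaer.System
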